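import Mathlib

/-!
Direct decompositions of groups, and the parity kernel of a product of centrally prime 2-groups.
-/

set_option autoImplicit false
set_option linter.style.haveILetI false
set_option linter.unusedSectionVars false

namespace CfsgLib.OutAut

variable {G H : Type*} [Group G] [Group H]

/-- `G` is the internal direct product of two nontrivial subgroups. -/
def Decomposable (G : Type*) [Group G] : Prop :=
  ∃ U V : Subgroup G, U ≠ ⊥ ∧ V ≠ ⊥ ∧ (∀ u ∈ U, ∀ v ∈ V, u * v = v * u) ∧ U ⊓ V = ⊥ ∧ U ⊔ V = ⊤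

/-- In `G` two commuting subgroups generate only if one of them is everything. -/
def CentrallyPrime (G : Type*) [Group G] : Prop :=
  ∀ U V : Subgroup G, (∀ u ∈ U, ∀ v ∈ V, u * v = v * u) → U ⊔ V = ⊤ → U = ⊤ ∨ V = ⊤

theorem exists_mul_of_commute {U V : Subgroup G} (hc : ∀ u ∈ U, ∀ v ∈ V, u * v = v * u)
    (ht : U ⊔ V = ⊤) (x : G) : ∃ u ∈ U, ∃ v ∈ V, x = u * v := by
  haveI : U.Normal := by
    rw [← Subgroup.normalizer_eq_top_iff, eq_top_iff, ← ht]
    refine sup_le Subgroup.le_normalizer fun v hv => Subgroup.mem_normalizer_iff.2 fun u => ?_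
    constructor
    · intro hu
      rwa [← hc u hu v hv, mul_inv_cancel_right]
    · intro hu
      have h := hc _ hu v hv
      have : v * u * v⁻¹ = u := by
        have h' : v * u = v * (v * u * v⁻¹) := by rw [← h]; group
        exact (mul_left_cancel h').symm
      rwa [this] at hu
  have hx : x ∈ U ⊔ V := by rw [ht]; exact Subgroup.mem_top x
  obtain ⟨u, hu, v, hv, h⟩ := Subgroup.mem_sup_of_normal_left.1 hx
  exact ⟨u, hu, v, hv, h.symm⟩

theorem Decomposable.of_equiv (e : G ≃* H) (h : Decomposable G) : Decomposable H := by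
  obtain ⟨U, V, hU, hV, hc, hi, hs⟩ := h
  refine ⟨U.map e.toMonoidHom, V.map e.toMonoidHom, ?_, ?_, ?_, ?_, ?_⟩
  · exact fun h => hU ((Subgroup.map_eq_bot_iff_of_injective U e.injective).1 h)
  · exact fun h => hV ((Subgroup.map_eq_bot_iff_of_injective V e.injective).1 h)
  · rintro _ ⟨u, hu, rfl⟩ _ ⟨v, hv, rfl⟩
    rw [← map_mul, ← map_mul, hc u hu v hv]
  · rw [← Subgroup.map_inf _ _ _ e.injective, hi, Subgroup.map_bot]
  · rw [← Subgroup.map_sup, hs, Subgroup.map_top_of_surjective _ e.surjective]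

theorem decomposable_congr (e : G ≃* H) : Decomposable G ↔ Decomposable H :=
  ⟨Decomposable.of_equiv e, Decomposable.of_equiv e.symm⟩

theorem not_decomposable_of_prime (h : CentrallyPrime G) : ¬ Decomposable G := by
  rintro ⟨U, V, hU, hV, hc, hi, hs⟩
  rcases h U V hc hs with rfl | rfl
  · rw [top_inf_eq] at hi; exact hV hi
  · rw [inf_top_eq] at hi; exact hU hi

theorem exists_central_involution [Finite G] (hG : IsPGroup 2 G) {U V : Subgroup G} (hU : U ≠ ⊥)
    (hc : ∀ u ∈ U, ∀ v ∈ V, u * v = v * u) (hs : U ⊔ V = ⊤) :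
    ∃ u ∈ U, u ∈ Subgroup.center G ∧ u * u = 1 ∧ u ≠ 1 := by
  haveI : Fact (Nat.Prime 2) := ⟨Nat.prime_two⟩
  haveI : Nontrivial U := (Subgroup.nontrivial_iff_ne_bot U).2 hU
  haveI := (hG.to_subgroup U).center_nontrivial
  obtain ⟨n, hn, hcard⟩ := (IsPGroup.nontrivial_iff_card ((hG.to_subgroup U).to_subgroup
    (Subgroup.center U))).1 inferInstance
  obtain ⟨z, hz⟩ := exists_prime_orderOf_dvd_card' (G := Subgroup.center U) 2
    (by rw [hcard]; exact dvd_pow_self 2 hn.ne')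
  refine ⟨((z : U) : G), (z : U).2, Subgroup.mem_center_iff.2 fun g => ?_, ?_, fun h => ?_⟩
  · obtain ⟨u, hu, v, hv, rfl⟩ := exists_mul_of_commute hc hs g
    have h1 : u * ((z : U) : G) = ((z : U) : G) * u :=
      congrArg Subtype.val (Subgroup.mem_center_iff.1 z.2 ⟨u, hu⟩)
    rw [mul_assoc, ← hc _ (z : U).2 v hv, ← mul_assoc, h1, mul_assoc]
  · have := pow_orderOf_eq_one z
    rw [hz, sq] at this
    exact congrArg (fun a : Subgroup.center U => ((a : U) : G)) this
  · have : z = 1 := Subtype.ext (Subtype.ext h)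
    simp [this] at hz

theorem not_decomposable_of_center [Finite G] (hG : IsPGroup 2 G)
    (h : ∀ u ∈ Subgroup.center G, ∀ v ∈ Subgroup.center G,
      u * u = 1 → v * v = 1 → u ≠ 1 → v ≠ 1 → u = v) : ¬ Decomposable G := by
  rintro ⟨U, V, hU, hV, hc, hi, hs⟩
  obtain ⟨u, huU, hu, hu2, hu1⟩ := exists_central_involution hG hU hc hs
  obtain ⟨v, hvV, hv, hv2, hv1⟩ := exists_central_involution hG hV
    (fun a ha b hb => (hc b hb a ha).symm) (by rw [sup_comm]; exact hs)
  have he := h u hu v hv hu2 hv2 hu1 hv1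
  apply hu1
  have : u ∈ U ⊓ V := ⟨huU, he ▸ hvV⟩
  rwa [hi] at this

section Product

variable {ι : Type*} [Fintype ι] [DecidableEq ι] {T : ι → Type*} [∀ i, Group (T i)]

theorem decomposable_pi {i j : ι} (hij : i ≠ j) [Nontrivial (T i)] [Nontrivial (T j)] :
    Decomposable (∀ k, T k) := by
  refine ⟨(MonoidHom.mulSingle T i).range, (Pi.evalMonoidHom T i).ker, ?_, ?_, ?_, ?_, ?_⟩
  · obtain ⟨a, ha⟩ := exists_ne (1 : T i)
    intro h
    apply ha
    have : Pi.mulSingle i a = (1 : ∀ k, T k) := by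
      rw [← Subgroup.mem_bot, ← h]; exact ⟨a, rfl⟩
    simpa using congrFun this i
  · obtain ⟨a, ha⟩ := exists_ne (1 : T j)
    intro h
    apply ha
    have : Pi.mulSingle j a = (1 : ∀ k, T k) := by
      rw [← Subgroup.mem_bot, ← h]
      exact MonoidHom.mem_ker.2 (Pi.mulSingle_eq_of_ne hij a)
    simpa using congrFun this j
  · rintro _ ⟨a, rfl⟩ v hv
    have hv' : v i = 1 := hv
    funext k
    rcases eq_or_ne k i with rfl | hk
    · simp [hv']
    · simp [Pi.mulSingle_eq_of_ne hk]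
  · rw [eq_bot_iff]
    rintro x ⟨⟨a, rfl⟩, hx⟩
    have ha : Pi.mulSingle (M := T) i a i = 1 := hx
    rw [Pi.mulSingle_eq_same] at ha
    simp [ha]
  · rw [eq_top_iff]
    intro x _
    have h1 : Pi.mulSingle i (x i) ∈ (MonoidHom.mulSingle T i).range := ⟨x i, rfl⟩
    have h2 : (Pi.mulSingle i (x i))⁻¹ * x ∈ (Pi.evalMonoidHom T i).ker := by
      rw [MonoidHom.mem_ker]
      simp
    simpa using mul_mem
      (Subgroup.mem_sup_left (T := (Pi.evalMonoidHom T i).ker) h1)
      (Subgroup.mem_sup_right (S := (MonoidHom.mulSingle T i).range) h2)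

variable (χ : ∀ i, T i →* ℤˣ)

/-- The product of the parities. -/
def parity : (∀ i, T i) →* ℤˣ := ∏ i, (χ i).comp (Pi.evalMonoidHom T i)

theorem parity_apply (x : ∀ i, T i) : parity χ x = ∏ i, χ i (x i) := by
  simp [parity]

theorem parity_mulSingle (i : ι) (a : T i) : parity χ (Pi.mulSingle i a) = χ i a := by
  rw [parity_apply, Finset.prod_eq_single i]
  · rw [Pi.mulSingle_eq_same]
  · intro k _ hk; rw [Pi.mulSingle_eq_of_ne hk, map_one]
  · simp

variable {χ} [∀ i, Finite (T i)]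
  (hp : ∀ i, IsPGroup 2 (T i))
  (hodd : ∀ i, ∃ t : T i, t * t = 1 ∧ χ i t = -1)
  (hz : ∀ (i) (z : T i), z ∈ Subgroup.center (T i) → χ i z = 1 ∧ ∃ y, z = y * y)
  (hι : 2 ≤ Fintype.card ι)

include hodd hι in
theorem exists_lift (i : ι) (a : T i) :
    ∃ x : (parity χ).ker, (x : ∀ k, T k) i = a ∧
      ∃ j, j ≠ i ∧ ∀ k, k ≠ i → k ≠ j → (x : ∀ k, T k) k = 1 := by
  obtain ⟨j, hj⟩ := Fintype.exists_ne_of_one_lt_card hι i
  obtain ⟨t, -, ht⟩ := hodd j
  rcases Int.units_eq_one_or (χ i a) with h | h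
  · exact ⟨⟨Pi.mulSingle i a, by rw [MonoidHom.mem_ker, parity_mulSingle, h]⟩, by simp, j, hj,
      fun k hk _ => Pi.mulSingle_eq_of_ne hk a⟩
  · refine ⟨⟨Pi.mulSingle i a * Pi.mulSingle j t, by
      rw [MonoidHom.mem_ker, map_mul, parity_mulSingle, parity_mulSingle, h, ht]; rfl⟩, ?_, j, hj, ?_⟩
    · simp [Pi.mulSingle_eq_of_ne hj.symm]
    · intro k hk hkj
      simp [Pi.mulSingle_eq_of_ne hk, Pi.mulSingle_eq_of_ne hkj]

include hp hodd hz hι in
theorem eq_bot_of_all_top {U V : Subgroup (parity χ).ker} (hc : ∀ u ∈ U, ∀ v ∈ V, u * v = v * u)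
    (hi : U ⊓ V = ⊥) (hs : U ⊔ V = ⊤)
    (hV : ∀ v ∈ V, ∀ i, (v : ∀ k, T k) i ∈ Subgroup.center (T i)) : V = ⊥ := by
  classical
  have hVc : ∀ v ∈ V, ∀ g : (parity χ).ker, g * v = v * g := fun v hv g =>
    Subtype.ext (funext fun i => (Subgroup.mem_center_iff.1 (hV v hv i)) ((g : ∀ k, T k) i))
  -- `U` times the squares of `V`
  let S : Subgroup (∀ k, T k) :=
    { carrier := {x | ∃ u ∈ U, ∃ w ∈ V, x = ((u * (w * w) : (parity χ).ker) : ∀ k, T k)}
      one_mem' := ⟨1, one_mem U, 1, one_mem V, by simp⟩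
      mul_mem' := by
        rintro _ _ ⟨u, hu, w, hw, rfl⟩ ⟨u', hu', w', hw', rfl⟩
        refine ⟨u * u', mul_mem hu hu', w * w', mul_mem hw hw', ?_⟩
        rw [← Subgroup.coe_mul]
        congr 1
        have c1 : Commute w u' := (hVc w hw u').symm
        have c2 : Commute w w' := (hVc w hw w').symm
        calc u * (w * w) * (u' * (w' * w')) = u * ((w * w) * u') * (w' * w') := by group
          _ = u * (u' * (w * w)) * (w' * w') := by rw [(c1.mul_left c1).eq]
          _ = u * u' * (w * w * (w' * w')) := by group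
          _ = u * u' * (w * w' * (w * w')) := by rw [mul_assoc w w, ← mul_assoc w w', ← c2.mul_mul_mul_comm]; group
      inv_mem' := by
        rintro _ ⟨u, hu, w, hw, rfl⟩
        refine ⟨u⁻¹, inv_mem hu, w⁻¹, inv_mem hw, ?_⟩
        rw [← Subgroup.coe_inv]
        congr 1
        rw [mul_inv_rev, mul_inv_rev, hVc (w⁻¹ * w⁻¹) (mul_mem (inv_mem hw) (inv_mem hw)) u⁻¹] }
  -- squares lie in `S`
  have hsq : ∀ y : (parity χ).ker, ((y * y : (parity χ).ker) : ∀ k, T k) ∈ S := by
    intro y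
    obtain ⟨u, hu, w, hw, rfl⟩ := exists_mul_of_commute hc hs y
    refine ⟨u * u, mul_mem hu hu, w, hw, ?_⟩
    congr 1
    calc u * w * (u * w) = u * (w * u) * w := by group
      _ = u * (u * w) * w := by rw [← hVc w hw u]
      _ = u * u * (w * w) := by group
  have hsingle : ∀ i (z : T i), z ∈ Subgroup.center (T i) → Pi.mulSingle i z ∈ S := by
    intro i z hzc
    obtain ⟨-, y, rfl⟩ := hz i z hzc
    obtain ⟨j, hj⟩ := Fintype.exists_ne_of_one_lt_card hι i
    obtain ⟨t, ht, hts⟩ := hodd j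
    obtain ⟨x, hx, hxk⟩ : ∃ x : (parity χ).ker, (x : ∀ k, T k) i = y ∧
        ∀ k, k ≠ i → (x : ∀ k, T k) k * (x : ∀ k, T k) k = 1 := by
      rcases Int.units_eq_one_or (χ i y) with h | h
      · refine ⟨⟨Pi.mulSingle i y, by rw [MonoidHom.mem_ker, parity_mulSingle, h]⟩, by simp, fun k hk => ?_⟩
        simp [Pi.mulSingle_eq_of_ne hk]
      · refine ⟨⟨Pi.mulSingle i y * Pi.mulSingle j t, by
          rw [MonoidHom.mem_ker, map_mul, parity_mulSingle, parity_mulSingle, h, hts]; rfl⟩,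
          by simp [Pi.mulSingle_eq_of_ne hj.symm], fun k hk => ?_⟩
        rcases eq_or_ne k j with rfl | hkj
        · simp [Pi.mulSingle_eq_of_ne hk, ht]
        · simp [Pi.mulSingle_eq_of_ne hk, Pi.mulSingle_eq_of_ne hkj]
    convert hsq x using 1
    funext k
    rcases eq_or_ne k i with rfl | hk
    · simp [hx]
    · simp [Pi.mulSingle_eq_of_ne hk, hxk k hk]
  have hVS : ∀ v ∈ V, (v : ∀ k, T k) ∈ S := by
    intro v hv
    have hfin : ∀ s : Finset ι, (fun k => if k ∈ s then (v : ∀ k, T k) k else 1) ∈ S := by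
      intro s
      induction s using Finset.induction_on with
      | empty => exact one_mem S
      | insert i s his ih =>
        convert mul_mem (hsingle i _ (hV v hv i)) ih using 1
        funext k
        rcases eq_or_ne k i with rfl | hk
        · simp [his]
        · simp [hk, Pi.mulSingle_eq_of_ne hk]
    simpa using hfin Finset.univ
  -- squaring is onto on `V`
  have hsurj : Function.Surjective fun w : V => w * w := by
    rintro ⟨v, hv⟩
    obtain ⟨u, hu, w, hw, h⟩ := hVS v hv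
    have h' : v = u * (w * w) := Subtype.ext h
    have huV : u ∈ U ⊓ V := ⟨hu, by
      have : u = v * (w * w)⁻¹ := by rw [h']; group
      rw [this]; exact V.mul_mem hv (V.inv_mem (V.mul_mem hw hw))⟩
    rw [hi, Subgroup.mem_bot] at huV
    exact ⟨⟨w, hw⟩, Subtype.ext (show w * w = v by rw [h', huV, one_mul])⟩
  have hinj := Finite.injective_iff_surjective.2 hsurj
  rw [Subgroup.eq_bot_iff_forall]
  intro v hv
  by_contra hne
  obtain ⟨w, hwV, hw2, hw1⟩ : ∃ w ∈ V, w * w = 1 ∧ w ≠ 1 := by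
    haveI : Fact (Nat.Prime 2) := ⟨Nat.prime_two⟩
    haveI : Nontrivial V := ⟨⟨⟨v, hv⟩, 1, fun h => hne (congrArg Subtype.val h)⟩⟩
    have hV2 : IsPGroup 2 V := by
      intro x
      have hex : ∀ i, ∃ k, ((x : (parity χ).ker) : ∀ k, T k) i ^ 2 ^ k = 1 := fun i => hp i _
      choose f hf using hex
      refine ⟨Finset.univ.sup f, Subtype.ext (Subtype.ext (funext fun i => ?_))⟩
      simp only [SubmonoidClass.coe_pow, Pi.pow_apply]
      obtain ⟨d, hd⟩ := pow_dvd_pow 2 (Finset.le_sup (f := f) (Finset.mem_univ i))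
      rw [hd, pow_mul, hf, one_pow]
      rfl
    obtain ⟨n, hn, hcard⟩ := hV2.nontrivial_iff_card.1 inferInstance
    obtain ⟨z, hzo⟩ := exists_prime_orderOf_dvd_card' (G := V) 2
      (by rw [hcard]; exact dvd_pow_self 2 hn.ne')
    refine ⟨z, z.2, ?_, fun h => ?_⟩
    · have := pow_orderOf_eq_one z
      rw [hzo, sq] at this
      exact congrArg Subtype.val this
    · have : z = 1 := Subtype.ext h
      simp [this] at hzo
  exact hw1 (congrArg Subtype.val (hinj (a₁ := ⟨w, hwV⟩) (a₂ := 1) (Subtype.ext (by simpa using hw2))))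

include hp hodd hz hι in
theorem not_decomposable_parity_ker (hprime : ∀ i, CentrallyPrime (T i)) :
    ¬ Decomposable (parity χ).ker := by
  classical
  rintro ⟨U, V, hU, hV, hc, hi, hs⟩
  let π : ∀ i, (parity χ).ker →* T i := fun i => (Pi.evalMonoidHom T i).comp (parity χ).ker.subtype
  have hsurj : ∀ i, Function.Surjective (π i) := fun i a => by
    obtain ⟨x, hx, -⟩ := exists_lift hodd hι i a
    exact ⟨x, hx⟩
  have hor : ∀ i, U.map (π i) = ⊤ ∨ V.map (π i) = ⊤ := by
    intro i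
    refine hprime i _ _ ?_ (by rw [← Subgroup.map_sup, hs, Subgroup.map_top_of_surjective _ (hsurj i)])
    rintro _ ⟨u, hu, rfl⟩ _ ⟨v, hv, rfl⟩
    rw [← map_mul, ← map_mul, hc u hu v hv]
  have hcenV : ∀ i, U.map (π i) = ⊤ → ∀ v ∈ V, π i v ∈ Subgroup.center (T i) := by
    intro i htop v hv
    refine Subgroup.mem_center_iff.2 fun g => ?_
    obtain ⟨u, hu, rfl⟩ : g ∈ U.map (π i) := by rw [htop]; exact Subgroup.mem_top g
    rw [← map_mul, ← map_mul, hc u hu v hv]
  have hcenU : ∀ i, V.map (π i) = ⊤ → ∀ u ∈ U, π i u ∈ Subgroup.center (T i) := by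
    intro i htop u hu
    refine Subgroup.mem_center_iff.2 fun g => ?_
    obtain ⟨v, hv, rfl⟩ : g ∈ V.map (π i) := by rw [htop]; exact Subgroup.mem_top g
    rw [← map_mul, ← map_mul, hc u hu v hv]
  by_cases hallU : ∀ i, U.map (π i) = ⊤
  · exact hV (eq_bot_of_all_top hp hodd hz hι hc hi hs fun v hv i => hcenV i (hallU i) v hv)
  by_cases hallV : ∀ i, V.map (π i) = ⊤
  · refine hU (eq_bot_of_all_top hp hodd hz hι (fun a ha b hb => (hc b hb a ha).symm)
      (by rw [inf_comm]; exact hi) (by rw [sup_comm]; exact hs) fun u hu i => hcenU i (hallV i) u hu)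
  simp only [not_forall] at hallU hallV
  obtain ⟨i₁, h₁⟩ := hallV
  obtain ⟨i₂, h₂⟩ := hallU
  let I : Finset ι := Finset.univ.filter fun i => U.map (π i) = ⊤
  have hI1 : i₁ ∈ I := Finset.mem_filter.2 ⟨Finset.mem_univ _, (hor i₁).resolve_right h₁⟩
  have hI2 : i₂ ∉ I := fun h => h₂ (Finset.mem_filter.1 h).2
  have hev : ∀ x : (parity χ).ker, ∏ i ∈ I, χ i (π i x) = 1 := by
    intro x
    obtain ⟨u, hu, v, hv, rfl⟩ := exists_mul_of_commute hc hs x
    have hu1 : ∀ i ∉ I, χ i (π i u) = 1 := fun i hi' => (hz i _ (hcenU i ((hor i).resolve_left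
      fun h => hi' (Finset.mem_filter.2 ⟨Finset.mem_univ _, h⟩)) u hu)).1
    have hv1 : ∀ i ∈ I, χ i (π i v) = 1 := fun i hi' =>
      (hz i _ (hcenV i (Finset.mem_filter.1 hi').2 v hv)).1
    have hpu : ∏ i ∈ I, χ i (π i u) = 1 := by
      rw [Finset.prod_subset (Finset.subset_univ I) fun i _ hi' => hu1 i hi']
      exact (parity_apply χ (u : ∀ k, T k)).symm.trans u.2
    simp only [map_mul, Finset.prod_mul_distrib, hpu, one_mul]
    exact Finset.prod_eq_one hv1
  obtain ⟨t₁, -, ht₁⟩ := hodd i₁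
  obtain ⟨t₂, -, ht₂⟩ := hodd i₂
  have hne : i₁ ≠ i₂ := fun h => hI2 (h ▸ hI1)
  have := hev ⟨Pi.mulSingle i₁ t₁ * Pi.mulSingle i₂ t₂, by
    rw [MonoidHom.mem_ker, map_mul, parity_mulSingle, parity_mulSingle, ht₁, ht₂]; rfl⟩
  rw [Finset.prod_eq_single i₁] at this
  · simp [π, Pi.mulSingle_eq_of_ne hne, ht₁] at this
  · intro k hk hk1
    have hk2 : k ≠ i₂ := fun h => hI2 (h ▸ hk)
    simp [π, Pi.mulSingle_eq_of_ne hk1, Pi.mulSingle_eq_of_ne hk2]
  · exact fun h => absurd hI1 h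

end Product

end CfsgLib.OutAut
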