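import Mathlib
import Cfsg.Agent.Lib.OutAut.ChevCentral
import Cfsg.Agent.Lib.Chevalley.ExtraData

/-!
The numerical hypotheses of the centraliser theorem for one root, as a computation on the tables.
-/

set_option autoImplicit false

namespace CfsgLib.OutAut

open Cfsg.Lie CfsgLib.Chevalley

/-- `r` pairs to `1` with exactly one fundamental root and to `0` with the others, its commutator
terms with positive roots are even, and `L` lists the negatives of the orthogonal fundamental
roots. -/
def centralRootB (D : ChevalleyDatum) (r : ℕ) (L : List ℕ) : Bool :=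
  Nat.ble (D.nroots / 2) r && Nat.blt r D.nroots &&
  (List.range D.rank).any (fun k =>
    (List.range D.rank).all fun i => D.cartan i r == if i = k then 1 else 0) &&
  ((List.range D.nroots).all fun s =>
    Nat.blt s (D.nroots / 2) || (D.commTerms r s).all fun c => c.2.1 % 2 == 0) &&
  ((List.range D.rank).all fun i => !(D.cartan i r == 0) || L.elem (D.neg (D.simple i))) &&
  (L.all fun s => (List.range D.rank).any fun i =>
    (D.cartan i r == 0) && (D.neg (D.simple i) == s))

variable {D : ChevalleyDatum} {F : Type*} [Field F]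

theorem centralizer_of_centralRootB [CharP F 2]
    (hD : D ∈ [chevG2, chevB2, chevD4, chevF4, chevE6, chevE7, chevE8]) {r : ℕ} {L : List ℕ}
    (hb : centralRootB D r L = true) {z : GL D.Idx F}
    (hz : (z : Matrix D.Idx D.Idx F) = D.x F r 1) :
    D.group F ⊓ Subgroup.centralizer {z} = D.posUnipotent F ⊔
      Subgroup.closure {g : GL D.Idx F | ∃ s ∈ L, ∃ c : F,
        (g : Matrix D.Idx D.Idx F) = D.x F s c} := by
  obtain ⟨A, h⟩ := exists_full hD
  simp only [centralRootB, Bool.and_eq_true, List.any_eq_true, List.all_eq_true, List.mem_range,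
    Bool.or_eq_true, Bool.not_eq_true', beq_eq_false_iff_ne, beq_iff_eq, Nat.blt_eq,
    List.elem_iff] at hb
  obtain ⟨⟨⟨⟨⟨h1, h2⟩, h3⟩, h4⟩, h5⟩, h6⟩ := hb
  have hpos : D.IsPosRoot r := h.pos.isPos_iff.2 ⟨Nat.le_of_ble_eq_true h1, h2⟩
  rw [centralizer_single h (r := ⟨r, h2⟩) hpos h3 (centralInU_of_even ?_) hz, orthGroup, rootsU]
  · have e : {s : ℕ | ∃ i, i < D.rank ∧ i ∈ orthSimple D [(⟨r, h2⟩ : Fin D.nroots)] ∧
        s = D.neg (D.simple i)} = {s | s ∈ L} := by
      ext s
      constructor
      · rintro ⟨i, hi, hiJ, rfl⟩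
        exact (h5 i hi).resolve_left fun hne => hne (hiJ _ (List.mem_singleton.2 rfl))
      · intro hs
        obtain ⟨i, hi, hc, rfl⟩ := h6 s hs
        exact ⟨i, hi, fun r' hr' => by rw [List.mem_singleton.1 hr']; exact hc, rfl⟩
    rw [e]
    congr 2
    ext g
    exact ⟨fun ⟨s, c, hs, e⟩ => ⟨s, hs, c, e⟩, fun ⟨s, hs, c, e⟩ => ⟨s, c, hs, e⟩⟩
  · intro r' hr' s hs hp c hc
    obtain rfl := List.mem_singleton.1 hr'
    rcases h4 s hs with hlt | hall
    · have := (h.pos.isPos_iff.1 hp).1; omega
    · exact Int.dvd_of_emod_eq_zero (hall c hc)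

end CfsgLib.OutAut
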