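import Mathlib
import Cfsg.Agent.Lib.OutAut.ChevCentral
import Cfsg.Agent.Lib.Chevalley.Core
import Cfsg.Agent.Lib.Chevalley.ExtraData
import Cfsg.Agent.Lib.ReflectionsSpinor.ChevFieldCent

/-!
The subgroup generated by the root elements with parameters fixed by an endomorphism `φ` of the
field: its centraliser in the Chevalley group is trivial and, together with the fixed diagonal
elements, it gives all fixed points.
-/

set_option autoImplicit false
set_option linter.unusedSectionVars false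
set_option linter.unusedSimpArgs false

namespace CfsgLib.OutAut

open Cfsg.Lie CfsgLib.Chevalley CfsgLib.ReflectionsSpinor.ChevField

variable {D : ChevalleyDatum} {A : Aux} {F : Type*} [Field F]

/-- Root elements with parameters fixed by `φ`. -/
def fixedRoots (D : ChevalleyDatum) (φ : F →+* F) : Subgroup (GL D.Idx F) :=
  Subgroup.closure {g | ∃ (s : ℕ) (t : F), φ t = t ∧ (g : Matrix D.Idx D.Idx F) = D.x F s t}

theorem xG_mem_fixedRoots (hC : Cert D A) {φ : F →+* F} (s : ℕ) {t : F} (ht : φ t = t) :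
    xG hC s t ∈ fixedRoots D φ :=
  Subgroup.subset_closure ⟨s, t, ht, coe_xG hC s t⟩

theorem nW_mem_fixedRoots (hC : Cert D A) (φ : F →+* F) (l : List (Fin D.rank)) :
    nW hC F l ∈ fixedRoots D φ := by
  refine Subgroup.list_prod_mem _ fun x hx => ?_
  obtain ⟨i, -, rfl⟩ := List.mem_map.1 hx
  exact mul_mem (mul_mem (xG_mem_fixedRoots hC _ (map_one φ))
    (xG_mem_fixedRoots hC _ (by rw [inv_one, map_neg, map_one])))
    (xG_mem_fixedRoots hC _ (map_one φ))

theorem pos_absorb (h : Full D A) (i : Fin D.rank) {r : ℕ} (hr : D.IsPosRoot r) :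
    ∀ s ∈ posButSimple D i, s ≠ r →
      s ≠ D.neg r ∧ ∀ c ∈ D.commTerms r s, c.1 ∈ posButSimple D i := by
  rintro s ⟨hs, hne⟩ hsr
  refine ⟨h.ne_neg hr hs, fun c hc => ?_⟩
  obtain ⟨hclt, a, b, ha, hb, e⟩ := h.commTerms_crd hr.1 hs.1 hc
  obtain ⟨k, hk, hki, hnz⟩ : ∃ k < D.rank, k ≠ i ∧ crd A k s ≠ 0 := by
    by_contra hcon
    simp only [not_exists, not_and, not_not] at hcon
    exact hne (h.eq_simple hs i.isLt hcon)
  have hpos : 0 < crd A k c.1 := by
    rw [e k hk]
    have := mul_pos (show (0 : ℤ) < b by omega) (lt_of_le_of_ne (h.crd_nonneg hs hk) (Ne.symm hnz))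
    have := mul_nonneg (show (0 : ℤ) ≤ a by omega) (h.crd_nonneg hr hk)
    omega
  refine ⟨h.isPos_of_crd_pos hclt hk hpos, fun e' => ?_⟩
  rw [e', crd_simple h.cert hk i.isLt, if_neg hki] at hpos
  exact lt_irrefl 0 hpos

/-- An element commuting with all the fundamental `x_p(1)` lies in `B`. -/
theorem mem_borel_of_commute (h : Full D A) {g : GL D.Idx F} (hg : g ∈ D.group F)
    (hc : ∀ i : Fin D.rank, Commute g (xG h.cert (D.simple i) (1 : F))) :
    g ∈ D.borelSubgroup F := by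
  obtain ⟨u, hu, n, hn, σ, η, hA, u', hu', rfl⟩ := exists_canonical h hg
  have hu'U : u' ∈ D.posUnipotent F :=
    rootsU_mono (T := {r | D.IsPosRoot r}) (fun r hr => hr.1) hu'
  refine mul_mem (mul_mem (Subgroup.mem_sup_left hu) (Subgroup.mem_sup_right ?_))
    (Subgroup.mem_sup_left hu'U)
  refine mem_diagonal_of_perm h hn hA fun i => ?_
  by_contra hnp
  set x := xG h.cert (D.simple i) (1 : F) with hx
  have hxU : x ∈ D.posUnipotent F :=
    xG_mem_rootsU (S := {r | D.IsPosRoot r}) h.cert (h.simple_pos i.isLt) 1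
  set w := u' * x * u'⁻¹ with hw
  have hwn : n * w * n⁻¹ = u⁻¹ * x * u := by
    rw [hw]
    calc n * (u' * x * u'⁻¹) * n⁻¹ = u⁻¹ * (u * n * u' * x) * u'⁻¹ * n⁻¹ := by group
      _ = u⁻¹ * x * u := by rw [hx, (hc i).eq]; group
  obtain ⟨a, ha, b, hb, e⟩ := split_pos h.toStd
    (P := {r | ∀ s : Fin D.nroots, (s : ℕ) = r → D.IsPosRoot (σ s)})
    (Q := invSet D σ) (fun r hr => by
      rcases h.pos.pos_or_neg (σ ⟨r, hr.1⟩).isLt with hp | hneg
      · exact Or.inl fun s hs => (show s = ⟨r, hr.1⟩ from Fin.ext hs) ▸ hp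
      · exact Or.inr ⟨hr, ⟨r, hr.1⟩, rfl, hneg⟩)
    (show w ∈ D.posUnipotent F from mul_mem (mul_mem hu'U hxU) (inv_mem hu'U))
  have haU : n * a * n⁻¹ ∈ D.posUnipotent F :=
    hA.conj_rootsU (T := {r | D.IsPosRoot r}) (fun s hs => hs.2 s rfl) a ha
  have hb1 : n * b * n⁻¹ = 1 := by
    rw [← Subgroup.mem_bot, ← borel_inf_negUnipotent h]
    refine ⟨Subgroup.mem_sup_left ?_, hA.conj_invSet h b (rootsU_mono (fun r hr => hr.2) hb)⟩
    rw [show n * b * n⁻¹ = (n * a * n⁻¹)⁻¹ * (n * w * n⁻¹) by rw [e]; group, hwn]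
    exact mul_mem (inv_mem haU) (mul_mem (mul_mem (inv_mem hu) hxU) hu)
  have hwP : w ∈ rootsU D F (posButSimple D i) := by
    rw [e, conj_eq_one_iff.1 hb1, mul_one]
    refine rootsU_mono (T := posButSimple D i) (fun r hr =>
      show D.IsPosRoot r ∧ r ≠ D.simple i from ⟨hr.1, fun hri => ?_⟩) ha
    exact hnp (hr.2 (smp h.cert i) hri.symm)
  have hxP : x ∈ rootsU D F (posButSimple D i) := by
    have hnorm : ∀ v ∈ D.posUnipotent F, ∀ z ∈ rootsU D F (posButSimple D i),
        v * z * v⁻¹ ∈ rootsU D F (posButSimple D i) := by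
      intro v hv
      rw [posUnipotent_eq] at hv
      induction hv using rootsU_induction h.cert with
      | h1 => intro z hz; simpa using hz
      | hx r hr t =>
        intro z hz
        exact xG_conj_rootsU h.toStd hr.1 (fun s hs => hs.1.1)
          (pos_absorb h i hr) t z hz
      | hmul v v' _ _ iha ihb =>
        intro z hz
        rw [show v * v' * z * (v * v')⁻¹ = v * (v' * z * v'⁻¹) * v⁻¹ by group]
        exact iha _ (ihb _ hz)
    have h1 := hnorm u'⁻¹ (inv_mem hu'U) w hwP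
    rwa [hw, inv_inv, show u'⁻¹ * (u' * x * u'⁻¹) * u' = x by group] at h1
  have hA' := acts_nG_simple (F := F) h i one_ne_zero
  have h2 := hA'.conj_rootsU (T := {r | D.IsPosRoot r})
    (fun s hs => by
      rw [rfPerm_apply]
      exact h.rf_ne_simple_pos i hs.1 (fun e' => hs.2 (by rw [e']; rfl))) x hxP
  rw [hx, show xG h.cert (D.simple i) (1 : F) = xG h.cert ((smp h.cert i : Fin D.nroots) : ℕ) 1 from rfl,
    hA'.conj, rfPerm_apply, rf_smp] at h2
  exact xG_notMem_posUnipotent h (h.toStd.neg_isNeg (h.simple_pos i.isLt))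
    (mul_ne_zero (hA'.ne_zero _) one_ne_zero) h2

/-- The centraliser of the fixed root elements is trivial. -/
theorem centralizer_fixedRoots (h : Full D A) (φ : F →+* F) :
    D.group F ⊓ Subgroup.centralizer (fixedRoots D φ : Set (GL D.Idx F)) = ⊥ := by
  rw [eq_bot_iff]
  rintro g ⟨hg, hgc⟩
  have hc : ∀ x ∈ fixedRoots D φ, Commute g x := fun x hx => (hgc x hx).symm
  have hx1 : ∀ s : ℕ, Commute g (xG h.cert s (1 : F)) :=
    fun s => hc _ (xG_mem_fixedRoots h.cert s (map_one φ))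
  have hB := mem_borel_of_commute h hg fun i => hx1 _
  obtain ⟨l, hl⟩ := exists_longest h
  obtain ⟨η, hη⟩ := acts_nW (F := F) h l
  have hD : g ∈ D.diagonalSubgroup F := by
    rw [← borel_inf_negBorel h]
    refine ⟨hB, ?_⟩
    obtain ⟨u, hu, t, ht, e⟩ := (mem_borel_iff h).1 hB
    have hfix : nW h.cert F l * g * (nW h.cert F l)⁻¹ = g := by
      rw [← (hc _ (nW_mem_fixedRoots h.cert φ l)).eq, mul_inv_cancel_right]
    rw [← hfix, e, show nW h.cert F l * (u * t) * (nW h.cert F l)⁻¹ =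
      (nW h.cert F l * u * (nW h.cert F l)⁻¹) * (nW h.cert F l * t * (nW h.cert F l)⁻¹) by group]
    exact Subgroup.mul_mem _
      (Subgroup.mem_sup_left (hη.conj_rootsU (S := {r | D.IsPosRoot r})
        (T := {r | D.IsNegRoot r}) (fun s hs => hl s hs) u hu))
      (Subgroup.mem_sup_right (monomial_conj_diagonal h (nW_mem_monomial h l) ht))
  rw [diagonalSubgroup_eq_range h] at hD
  obtain ⟨c, rfl⟩ := hD
  have hchi : ∀ s : Fin D.nroots, ((chi D s c : Fˣ) : F) = 1 := by
    intro s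
    have e := (acts_torus h.cert c).conj s (1 : F)
    rw [(hx1 s).eq, mul_inv_cancel_right, Equiv.Perm.one_apply, mul_one] at e
    exact (xG_injective h.cert s.isLt e).symm
  rw [Subgroup.mem_bot]
  apply Units.ext
  rw [coe_torusHom, Units.val_one, ← Matrix.diagonal_one]
  congr 1
  funext a
  rcases a with j | s
  · rfl
  · exact hchi s

theorem exists_fixed_prod (h : Full D A) {φ : F →+* F} {u : GL D.Idx F}
    (hu : u ∈ D.posUnipotent F) (hfix : push D φ u = u) : u ∈ fixedRoots D φ := by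
  obtain ⟨hpw, hset, -⟩ := h.toStd.posList
  have hc : IsClosedRoots D {r | r ∈ D.posRoots} := by rw [hset]; exact h.toStd.isClosed_pos
  obtain ⟨t, -, rfl⟩ := exists_prodU h.toStd hpw hc (show u ∈ rootsU D F {r | r ∈ D.posRoots} by
    rw [hset]; exact hu)
  rw [push_prodU] at hfix
  refine Subgroup.list_prod_mem _ fun x hx => ?_
  obtain ⟨r, hr, rfl⟩ := List.mem_map.1 hx
  exact xG_mem_fixedRoots h.cert r (prodU_injOn h.toStd hpw hc hfix r hr)

/-- Fixed diagonal elements normalise the fixed root elements. -/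
theorem fixed_diagonal_conj (h : Full D A) {φ : F →+* F} {t g : GL D.Idx F}
    (ht : t ∈ D.diagonalSubgroup F) (hfix : push D φ t = t) (hg : g ∈ fixedRoots D φ) :
    t * g * t⁻¹ ∈ fixedRoots D φ := by
  rw [diagonalSubgroup_eq_range h] at ht
  obtain ⟨c, rfl⟩ := ht
  have hchi : ∀ s : Fin D.nroots, φ ((chi D s c : Fˣ) : F) = ((chi D s c : Fˣ) : F) := fun s => by
    have e : (push D φ (torusHom D F c) : Matrix D.Idx D.Idx F) (Sum.inr s) (Sum.inr s) =
        (torusHom D F c : Matrix D.Idx D.Idx F) (Sum.inr s) (Sum.inr s) := by rw [hfix]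
    change φ ((torusHom D F c : Matrix D.Idx D.Idx F) (Sum.inr s) (Sum.inr s)) = _ at e
    simpa [coe_torusHom] using e
  have hle : fixedRoots D φ ≤
      (fixedRoots D φ).comap (MulAut.conj (torusHom D F c)).toMonoidHom := by
    rw [fixedRoots, Subgroup.closure_le]
    rintro x ⟨s, t, ht', hx⟩
    rw [(eq_xG_iff h.cert).1 hx]
    show torusHom D F c * xG h.cert s t * (torusHom D F c)⁻¹ ∈ fixedRoots D φ
    by_cases hs : s < D.nroots
    · rw [show s = ((⟨s, hs⟩ : Fin D.nroots) : ℕ) from rfl, (acts_torus h.cert c).conj]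
      exact xG_mem_fixedRoots h.cert _ (by rw [map_mul, hchi, ht'])
    · rw [show xG h.cert s t = 1 from Units.ext (by simp [ChevalleyDatum.x, hs])]
      simp
  exact hle hg

/-- A fixed element is a product of fixed root elements and a fixed diagonal element. -/
theorem fixed_decompose (h : Full D A) {φ : F →+* F} {g : GL D.Idx F} (hg : g ∈ D.group F)
    (hfix : push D φ g = g) :
    ∃ l ∈ fixedRoots D φ, ∃ t ∈ D.diagonalSubgroup F, push D φ t = t ∧ g = l * t := by
  obtain ⟨u, hu, n, hn, π, η, hA, u', hu', rfl⟩ := exists_canonical h hg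
  obtain ⟨l, t, ht, rfl⟩ := (mem_monomial_iff h).1 hn
  rw [diagonalSubgroup_eq_range h] at ht
  obtain ⟨c, rfl⟩ := ht
  obtain ⟨η₀, hη₀⟩ := acts_nW (F := F) h l
  have hA' := hη₀.mul (acts_torus h.cert fun k => Units.map (φ : F →* F) (c k))
  have hAc := hη₀.mul (acts_torus h.cert c)
  have hperm : π = wPerm h.cert l * 1 := hA.perm_eq hAc
  subst hperm
  have himg : push D φ (nW h.cert F l * torusHom D F c) =
      nW h.cert F l * torusHom D F (fun k => Units.map (φ : F →* F) (c k)) := by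
    rw [map_mul, push_nW, push_torus]
  have hm : push D φ (nW h.cert F l * torusHom D F c) ∈ D.monomialSubgroup F := by
    rw [himg]
    exact mul_mem (nW_mem_monomial h l) (diagonal_le_monomial (torus_mem_diagonal h _))
  rw [map_mul, map_mul] at hfix
  obtain ⟨e1, e2, e3⟩ := canonical_unique h (push_rootsU h.cert φ hu) hu hm hn
    (himg ▸ hA') hA (push_rootsU h.cert φ hu') hu' hfix
  rw [map_mul, push_nW] at e2
  have et : push D φ (torusHom D F c) = torusHom D F c := mul_left_cancel e2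
  have htd := torus_mem_diagonal (F := F) h c
  refine ⟨u * (nW h.cert F l) * (torusHom D F c * u' * (torusHom D F c)⁻¹), ?_, _, htd, et, by group⟩
  exact mul_mem (mul_mem (exists_fixed_prod h hu e1) (nW_mem_fixedRoots h.cert φ l))
    (fixed_diagonal_conj h htd et (exists_fixed_prod h
      (rootsU_mono (T := {r | D.IsPosRoot r}) (fun r hr => hr.1) hu') e3))

/-- The group of fixed points is abelian modulo the fixed root elements. -/
theorem fixed_commutator_mem (h : Full D A) {φ : F →+* F} {g x : GL D.Idx F}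
    (hg : g ∈ D.group F) (hgf : push D φ g = g) (hx : x ∈ D.group F) (hxf : push D φ x = x) :
    g * x * g⁻¹ * x⁻¹ ∈ fixedRoots D φ := by
  obtain ⟨l₁, hl₁, t₁, ht₁, f₁, rfl⟩ := fixed_decompose h hg hgf
  obtain ⟨l₂, hl₂, t₂, ht₂, f₂, rfl⟩ := fixed_decompose h hx hxf
  have hc : t₁ * t₂ * t₁⁻¹ = t₂ := by rw [torus_commute h ht₁ ht₂, mul_inv_cancel_right]
  rw [show l₁ * t₁ * (l₂ * t₂) * (l₁ * t₁)⁻¹ * (l₂ * t₂)⁻¹ =
    l₁ * (t₁ * l₂ * t₁⁻¹) * ((t₁ * t₂ * t₁⁻¹) * l₁⁻¹ * t₂⁻¹) * l₂⁻¹ by group, hc]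
  exact mul_mem (mul_mem (mul_mem hl₁ (fixed_diagonal_conj h ht₁ f₁ hl₂))
    (fixed_diagonal_conj h ht₂ f₂ (inv_mem hl₁))) (inv_mem hl₂)

/-- A group between the fixed root elements and the fixed points is normalised exactly by the
fixed points. -/
theorem normalizer_fixed (h : Full D A) {φ : F →+* F} {K : Subgroup (GL D.Idx F)}
    (hKG : K ≤ D.group F) (hLK : fixedRoots D φ ≤ K) (hK : ∀ x ∈ K, push D φ x = x)
    {g : GL D.Idx F} (hg : g ∈ D.group F) :
    g ∈ Subgroup.normalizer (K : Set (GL D.Idx F)) ↔ push D φ g = g := by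
  constructor
  · intro hn
    have hcent : g⁻¹ * push D φ g ∈ D.group F ⊓ Subgroup.centralizer (fixedRoots D φ : Set (GL D.Idx F)) := by
      refine ⟨mul_mem (Subgroup.inv_mem _ hg) (push_mem_group h.cert φ hg), fun x hx => ?_⟩
      have h1 : push D φ (g * x * g⁻¹) = g * x * g⁻¹ :=
        hK _ ((Subgroup.mem_normalizer_iff.1 hn x).1 (hLK hx))
      rw [map_mul, map_mul, map_inv, hK x (hLK hx)] at h1
      calc x * (g⁻¹ * push D φ g) = g⁻¹ * (g * x * g⁻¹) * push D φ g := by group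
        _ = g⁻¹ * push D φ g * x := by rw [← h1]; group
    rw [centralizer_fixedRoots h, Subgroup.mem_bot, inv_mul_eq_one] at hcent
    exact hcent.symm
  · intro hgf
    have key : ∀ a : GL D.Idx F, a ∈ D.group F → push D φ a = a → ∀ x ∈ K, a * x * a⁻¹ ∈ K := by
      intro a ha haf x hx
      rw [show a * x * a⁻¹ = (a * x * a⁻¹ * x⁻¹) * x by group]
      exact mul_mem (hLK (fixed_commutator_mem h ha haf (hKG hx) (hK x hx))) hx
    refine Subgroup.mem_normalizer_iff.2 fun x => ⟨key g hg hgf x, fun hx => ?_⟩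
    have h2 := key g⁻¹ (inv_mem hg) (by rw [map_inv, hgf]) _ hx
    rwa [show g⁻¹ * (g * x * g⁻¹) * g⁻¹⁻¹ = x by group] at h2

end CfsgLib.OutAut
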