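import Mathlib
import Cfsg.Agent.Lib.Classes.OmegaClasses

/-!
Membership in `Ω` in characteristic two by the parity of the rank of `g - 1`.
-/

set_option autoImplicit false

namespace CfsgLib.OutAut

open CfsgLib.Forms

theorem mem_omega_iff_even_rank {F : Type*} [Field F] [Finite F] [CharP F 2] {ι : Type} [Fintype ι]
    [DecidableEq ι] {f : (ι → F) → F} (Q : QuadraticForm F (ι → F)) (hQf : ∀ v, Q v = f v)
    (hn : 5 ≤ Fintype.card ι) (hQ : (QuadraticMap.polarBilin Q).Nondegenerate)
    (g : Cfsg.isometryGroup F f) :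
    g ∈ Cfsg.Omega F f ↔
      Even (((g : GL ι F) : Matrix ι ι F) - 1).rank := by
  obtain rfl : ⇑Q = f := funext hQf
  rw [CfsgLib.Classes.mem_omega_iff_dickson (by omega) hQ (Or.inr (by omega))]
  have h : subOne g = (((g : GL ι F) : Matrix ι ι F) - 1).mulVecLin := by
    refine LinearMap.ext fun v => ?_
    rw [subOne, LinearMap.sub_apply, Matrix.toLin'_apply, LinearMap.id_apply,
      Matrix.mulVecLin_apply, Matrix.sub_mulVec, Matrix.one_mulVec]
  rw [dicksonSign, h, Matrix.rank]
  exact ⟨fun h1 => (neg_one_pow_eq_one_iff_even (by decide)).1 h1, fun h1 => h1.neg_one_pow⟩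

end CfsgLib.OutAut
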