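import Mathlib
import Cfsg.Agent.Lib.OutAut.ChevCentralData

/-!
The involutions `x₄₇(1) x₄₄(1)` and `x₃₉(1) x₄₅(1)` of `F₄` in characteristic two and their
centralisers.
-/

set_option autoImplicit false
set_option linter.unusedSectionVars false
set_option linter.unusedSimpArgs false
set_option maxRecDepth 100000

namespace CfsgLib.OutAut.F4Pair

open Cfsg.Lie CfsgLib.Chevalley

theorem full : Full chevF4 auxF4 := ⟨⟨cert_F4, posF4, by simp⟩, extraF4⟩

variable {F : Type*} [Field F] [CharP F 2]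

local instance neZeroRankF : NeZero chevF4.rank := ⟨by decide⟩

local instance neZeroRootsF : NeZero chevF4.nroots := ⟨by decide⟩

/-- Root elements of `F₄`. -/
noncomputable abbrev X (k : ℕ) (t : F) : GL chevF4.Idx F := xG full.cert k t

theorem isPos_iff {r : ℕ} : chevF4.IsPosRoot r ↔ 24 ≤ r ∧ r < 48 :=
  full.pos.isPos_iff

theorem commute_of_even {r s : ℕ} (hr : chevF4.IsPosRoot r) (hs : chevF4.IsPosRoot s)
    (he : ((chevF4.commTerms r s).all fun c => c.2.1 % 2 == 0) = true) (t u : F) :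
    Commute (X r t) (X s u) := by
  by_cases hne : s = r
  · subst hne
    show X s t * X s u = X s u * X s t
    rw [xG_mul, xG_mul, add_comm]
  have e := x_mul_x full.mem hr.1 hs.1 hne (full.toStd.ne_neg hr hs) t u
  have h1 : chevF4.wordMat F (chevF4.commWord F r s t u) = 1 := by
    refine List.prod_eq_one fun x hx => ?_
    simp only [ChevalleyDatum.commWord, List.map_map, List.mem_map] at hx
    obtain ⟨c, hcm, rfl⟩ := hx
    have h2 : ((c.2.1 : ℤ) : F) = 0 := by
      rw [CharP.intCast_eq_zero_iff F 2]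
      exact_mod_cast Int.dvd_of_emod_eq_zero (beq_iff_eq.1 (List.all_eq_true.1 he c hcm))
    simp only [Function.comp_apply, h2, zero_mul]
    exact x_zero full.cert _
  rw [h1, mul_one] at e
  exact (Units.ext (by simpa using e.symm) : X r t * X s u = X s u * X r t)

theorem commute_rootsU {r : ℕ} (hr : chevF4.IsPosRoot r) {S : List ℕ}
    (hS : S.all (fun s => Nat.ble 24 s && Nat.blt s 48 &&
      (chevF4.commTerms r s).all fun c => c.2.1 % 2 == 0) = true) (t : F) {g : GL chevF4.Idx F}
    (hg : g ∈ rootsU chevF4 F {s | s ∈ S}) : Commute (X r t) g := by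
  suffices hle : rootsU chevF4 F {s | s ∈ S} ≤ Subgroup.centralizer ({X r t} : Set (GL chevF4.Idx F)) from
    (Subgroup.mem_centralizer_singleton_iff.1 (hle hg) : g * X r t = X r t * g).symm
  rw [rootsU_le_iff full.cert]
  intro s hs u
  have h := List.all_eq_true.1 hS s hs
  simp only [Bool.and_eq_true, Nat.blt_eq] at h
  exact Subgroup.mem_centralizer_singleton_iff.2
    (commute_of_even hr (isPos_iff.2 ⟨Nat.le_of_ble_eq_true h.1.1, h.1.2⟩) h.2 t u).eq.symm

/-- Long roots have even first two coordinates. -/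
noncomputable def isLong (r : ℕ) : Bool := crd auxF4 0 r % 2 == 0 && crd auxF4 1 r % 2 == 0

theorem long_iff {n : GL chevF4.Idx F} {σ : Equiv.Perm (Fin chevF4.nroots)}
    {η : Fin chevF4.nroots → F} (hn : n ∈ chevF4.monomialSubgroup F) (hA : Acts full.cert n σ η)
    (r : Fin chevF4.nroots) : isLong (σ r) = isLong r := by
  obtain ⟨l, t, ht, rfl⟩ := (mem_monomial_iff full).1 hn
  rw [diagonalSubgroup_eq_range full] at ht
  obtain ⟨c, rfl⟩ := ht
  obtain ⟨η', hη'⟩ := acts_nW (F := F) full l
  obtain rfl : σ = wPerm full.cert l := by simpa using hA.perm_eq (hη'.mul (acts_torus full.cert c))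
  clear hA hη' hn
  induction l with
  | nil => simp
  | cons i l ih =>
    rw [wPerm_cons, Equiv.Perm.mul_apply, rfPerm_apply, ← ih]
    show isLong (chevF4.reflectRoot i (wPerm full.cert l r)) = _
    generalize wPerm full.cert l r = x
    revert i x
    decide +kernel

theorem sum_rank (f : Fin chevF4.rank → ℤ) :
    ∑ j : Fin chevF4.rank, f j = f 0 + f 1 + f 2 + f 3 :=
  Fin.sum_univ_four f

theorem prodU_eq_one_of_zero (M : List ℕ) {t : ℕ → F} (h : ∀ r ∈ M, t r = 0) :
    prodU full.cert M t = 1 :=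
  List.prod_eq_one fun x hx => by
    obtain ⟨r, hr, rfl⟩ := List.mem_map.1 hx
    rw [h r hr, xG_zero]

/-- A product of pairwise commuting positive root elements is the ordered product of the zero
extension of its coefficients. -/
theorem prodU_extend {M : List ℕ} (hnd : M.Nodup) (hpos : ∀ r ∈ M, chevF4.IsPosRoot r)
    {t : ℕ → F} (hc : ∀ r ∈ M, ∀ s ∈ M, Commute (X r (t r)) (X s (t s))) :
    prodU full.cert M t =
      prodU full.cert chevF4.posRoots (fun r => if r ∈ M then t r else 0) := by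
  obtain ⟨hs, hset, -⟩ := full.toStd.posList
  have hmem : ∀ r, r ∈ chevF4.posRoots ↔ chevF4.IsPosRoot r := fun r => Set.ext_iff.1 hset r
  have hsplit : ∀ L : List ℕ, prodU full.cert L (fun r => if r ∈ M then t r else 0) =
      prodU full.cert (L.filter fun r => decide (r ∈ M)) t := by
    intro L
    induction L with
    | nil => rfl
    | cons k L ih =>
      rw [prodU_cons, ih]
      by_cases hk : k ∈ M
      · rw [List.filter_cons_of_pos (by simpa using hk), prodU_cons, if_pos hk]
      · rw [List.filter_cons_of_neg (by simpa using hk), if_neg hk, xG_zero, one_mul]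
  rw [hsplit]
  refine List.Perm.prod_eq' (List.Perm.map _ ?_) ?_
  · refine (List.perm_ext_iff_of_nodup hnd ((hs.imp fun {a b} (h : a < b) => Nat.ne_of_lt h).filter _)).2
      fun r => ?_
    simp only [List.mem_filter, decide_eq_true_eq, hmem]
    exact ⟨fun h => ⟨hpos r h, h⟩, fun h => h.2⟩
  · rw [List.pairwise_map]
    exact List.Pairwise.imp_of_mem (fun ha hb _ => hc _ ha _ hb) hnd

theorem coords_unique {M M' : List ℕ} (hnd : M.Nodup) (hnd' : M'.Nodup)
    (hpos : ∀ r ∈ M, chevF4.IsPosRoot r) (hpos' : ∀ r ∈ M', chevF4.IsPosRoot r) {t t' : ℕ → F}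
    (hc : ∀ r ∈ M, ∀ s ∈ M, Commute (X r (t r)) (X s (t s)))
    (hc' : ∀ r ∈ M', ∀ s ∈ M', Commute (X r (t' r)) (X s (t' s)))
    (e : prodU full.cert M t = prodU full.cert M' t') (r : ℕ) (hr : chevF4.IsPosRoot r) :
    (if r ∈ M then t r else 0) = (if r ∈ M' then t' r else 0) := by
  rw [prodU_extend hnd hpos hc, prodU_extend hnd' hpos' hc'] at e
  obtain ⟨hs, hset, -⟩ := full.toStd.posList
  exact prodU_injOn full.toStd hs (hset ▸ full.toStd.isClosed_pos) e r ((Set.ext_iff.1 hset r).2 hr)

/-- The roots that occur in conjugates of `x₃₉ x₄₅` under `U`. -/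
def supp : List ℕ := [39, 40, 44, 45, 46, 47]

theorem supp_pos {r : ℕ} (hr : r ∈ supp) : chevF4.IsPosRoot r := by
  simp [supp] at hr
  exact isPos_iff.2 (by omega)

theorem supp_commute {r s : ℕ} (hr : r ∈ supp) (hs : s ∈ supp) (t u : F) :
    Commute (X r t) (X s u) := by
  refine commute_of_even (supp_pos hr) (supp_pos hs) ?_ t u
  have key : ∀ r ∈ supp, ∀ s ∈ supp,
      ((chevF4.commTerms r s).all fun c => c.2.1 % 2 == 0) = true := by decide +kernel
  exact key r hr s hs

/-- `x₃₉(1) x₄₅(1)`. -/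
noncomputable def pairElt : GL chevF4.Idx F := X 39 1 * X 45 1

theorem supp_product (c : ℕ → F) : prodU full.cert supp c =
    X 39 (c 39) * (X 40 (c 40) * (X 44 (c 44) * (X 45 (c 45) * (X 46 (c 46) * (X 47 (c 47) * 1))))) :=
  rfl

/-- Commutator formula, ignoring the terms with even coefficient. -/
theorem conj_even {r s : ℕ} (hr : chevF4.IsPosRoot r) (hs : chevF4.IsPosRoot s) (hne : s ≠ r)
    {T : Set ℕ} (hT : ∀ c ∈ chevF4.commTerms r s, c.1 ∈ T ∨ c.2.1 % 2 = 0) (t u : F) :
    ∃ W ∈ rootsU chevF4 F T, X r t * X s u * (X r t)⁻¹ = X s u * W := by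
  refine ⟨((chevF4.commTerms r s).map fun c =>
    X c.1 ((c.2.1 : F) * t ^ c.2.2.1 * u ^ c.2.2.2)).prod, ?_, ?_⟩
  · refine Subgroup.list_prod_mem _ fun x hx => ?_
    obtain ⟨c, hc, rfl⟩ := List.mem_map.1 hx
    rcases hT c hc with h | h
    · exact xG_mem_rootsU full.cert h _
    · rw [show ((c.2.1 : F)) = 0 from (CharP.intCast_eq_zero_iff F 2 _).2
        (by exact_mod_cast Int.dvd_of_emod_eq_zero h), zero_mul, zero_mul, X, xG_zero]
      exact one_mem _
  · have h := x_mul_x full.mem hr.1 hs.1 hne (full.toStd.ne_neg hr hs) (-t) u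
    rw [wordMat_eq_prod full.cert] at h
    simp only [ChevalleyDatum.commWord, List.map_map, neg_neg, Function.comp_def] at h
    have h' : X s u * X r (-t) = X r (-t) * X s u * ((chevF4.commTerms r s).map fun c =>
        X c.1 ((c.2.1 : F) * t ^ c.2.2.1 * u ^ c.2.2.2)).prod :=
      Units.ext (by simpa using h)
    simp only [X] at h' ⊢
    rw [← xG_inv] at h'
    rw [mul_assoc, h', ← mul_assoc, ← mul_assoc, mul_inv_cancel, one_mul]

/-- `U` fixes the coset of `x₃₉ x₄₅` by the higher root groups. -/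
theorem conj_pair {u : GL chevF4.Idx F} (hu : u ∈ chevF4.posUnipotent F) :
    ∃ c : ℕ → F, c 39 = 1 ∧ c 45 = 1 ∧ u * pairElt * u⁻¹ = prodU full.cert supp c := by
  set M := rootsU chevF4 F {r | r ∈ [40, 44, 46, 47]} with hM
  have hnorm : ∀ k, chevF4.IsPosRoot k → ∀ (t : F), ∀ m ∈ M, X k t * m * (X k t)⁻¹ ∈ M := by
    intro k hk t
    refine rootsU_conj_le full.cert fun s hs u => ?_
    by_cases hne : s = k
    · subst hne
      rw [xG_mul, xG_inv, xG_mul, add_right_comm, add_neg_cancel, zero_add]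
      exact xG_mem_rootsU full.cert hs u
    · obtain ⟨h1, h2⟩ := isPos_iff.1 hk
      have key : ∀ a ∈ List.range 48, 24 ≤ a → ∀ b ∈ [40, 44, 46, 47],
          ∀ c ∈ chevF4.commTerms a b, c.1 ∈ [40, 44, 46, 47] ∨ c.2.1 % 2 = 0 := by decide +kernel
      obtain ⟨W, hW, e⟩ := conj_even hk (isPos_iff.2 (by simp at hs; omega)) hne
        (T := {r | r ∈ [40, 44, 46, 47]}) (fun c hc => key k (List.mem_range.2 h2) h1 s hs c hc) t u
      rw [e]; exact mul_mem (xG_mem_rootsU full.cert hs u) hW
  have hgen : ∀ k, chevF4.IsPosRoot k → ∀ (t : F), ∃ m ∈ M,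
      X k t * pairElt * (X k t)⁻¹ = pairElt * m := by
    intro k hk t
    have hone : ∀ s, s = 39 ∨ s = 45 → ∃ m ∈ M, X k t * X s 1 * (X k t)⁻¹ = X s 1 * m := by
      intro s hs
      by_cases hne : s = k
      · subst hne
        exact ⟨1, one_mem _, by rw [xG_mul, xG_inv, xG_mul, mul_one]; congr 1; ring⟩
      have hsp : chevF4.IsPosRoot s := isPos_iff.2 (by omega)
      refine conj_even hk hsp hne (T := {r | r ∈ [40, 44, 46, 47]}) ?_ t 1
      obtain ⟨h1, h2⟩ := isPos_iff.1 hk
      have key : ∀ a ∈ List.range 48, 24 ≤ a → ∀ b ∈ [39, 45],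
          ∀ c ∈ chevF4.commTerms a b, c.1 ∈ [40, 44, 46, 47] ∨ c.2.1 % 2 = 0 := by decide +kernel
      exact fun c hc => key k (List.mem_range.2 h2) h1 s (by simpa using hs) c hc
    obtain ⟨a, ha, hae⟩ := hone 39 (Or.inl rfl)
    obtain ⟨b, hb, hbe⟩ := hone 45 (Or.inr rfl)
    have hac : Commute (X 45 (1 : F)) a :=
      commute_rootsU (supp_pos (by simp [supp])) (by decide +kernel) 1 ha
    refine ⟨a * b, mul_mem ha hb, ?_⟩
    calc X k t * pairElt * (X k t)⁻¹
        = (X k t * X 39 1 * (X k t)⁻¹) * (X k t * X 45 1 * (X k t)⁻¹) := by rw [pairElt]; group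
      _ = X 39 1 * (a * X 45 1) * b := by rw [hae, hbe]; group
      _ = pairElt * (a * b) := by rw [← hac.eq, pairElt]; group
  have key : ∃ m ∈ M, u * pairElt * u⁻¹ = pairElt * m ∧ ∀ m' ∈ M, u * m' * u⁻¹ ∈ M := by
    rw [posUnipotent_eq] at hu
    induction hu using rootsU_induction full.cert with
    | h1 => exact ⟨1, one_mem _, by simp, fun m' hm' => by simpa using hm'⟩
    | hx r hr t =>
      obtain ⟨m, hm, he⟩ := hgen r hr t
      exact ⟨m, hm, he, hnorm r hr t⟩
    | hmul a b _ _ ha hb =>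
      obtain ⟨m, hm, he, hma⟩ := ha
      obtain ⟨m', hm', he', hmb⟩ := hb
      refine ⟨m * (a * m' * a⁻¹), mul_mem hm (hma m' hm'), ?_, fun x hx => ?_⟩
      · calc a * b * pairElt * (a * b)⁻¹ = a * (b * pairElt * b⁻¹) * a⁻¹ := by group
          _ = (a * pairElt * a⁻¹) * (a * m' * a⁻¹) := by rw [he']; group
          _ = pairElt * (m * (a * m' * a⁻¹)) := by rw [he]; group
      · rw [show a * b * x * (a * b)⁻¹ = a * (b * x * b⁻¹) * a⁻¹ by group]
        exact hma _ (hmb x hx)
  obtain ⟨m, hm, he, -⟩ := key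
  obtain ⟨t, -, rfl⟩ := exists_prodU full.toStd (L := [40, 44, 46, 47]) (by decide)
    ⟨fun r hr => isPos_iff.2 (by simp at hr; omega), by
      intro r hr s hs hne c hc
      revert hne c
      simp only [List.mem_cons, List.not_mem_nil, or_false, Set.mem_ofPred_eq] at hr hs
      rcases hr with rfl | rfl | rfl | rfl <;> rcases hs with rfl | rfl | rfl | rfl <;> decide +kernel⟩
    hm
  refine ⟨fun r => if r = 39 ∨ r = 45 then 1 else t r, by simp, by simp, ?_⟩
  rw [he, supp_product]
  norm_num [prodU, pairElt]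
  have h1 := (supp_commute (F := F) (r := 45) (s := 40) (by simp [supp]) (by simp [supp]) 1 (t 40)).eq
  have h2 := (supp_commute (F := F) (r := 45) (s := 44) (by simp [supp]) (by simp [supp]) 1 (t 44)).eq
  simp only [X] at h1 h2 ⊢
  rw [mul_assoc, ← mul_assoc (xG full.cert 45 1), h1, mul_assoc,
    ← mul_assoc (xG full.cert 45 1), h2, mul_assoc]

/-- A monomial element between two such elements fixes the two roots and their parameters. -/
theorem monomial_pair {n : GL chevF4.Idx F} (hn : n ∈ chevF4.monomialSubgroup F)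
    {σ : Equiv.Perm (Fin chevF4.nroots)} {η : Fin chevF4.nroots → F} (hA : Acts full.cert n σ η)
    {c c' : ℕ → F} (h39 : c 39 = 1) (h45 : c 45 = 1) (h39' : c' 39 = 1) (h45' : c' 45 = 1)
    (h : n * prodU full.cert supp c * n⁻¹ = prodU full.cert supp c') :
    σ 39 = 39 ∧ σ 45 = 45 ∧ η 39 = 1 ∧ η 45 = 1 := by
  classical
  let img : ℕ → ℕ := fun r => if h : r < chevF4.nroots then (σ ⟨r, h⟩ : ℕ) else 0
  let par : ℕ → F := fun r => if h : r < chevF4.nroots then η ⟨r, h⟩ * c r else 0
  have hlt : ∀ r ∈ supp, r < chevF4.nroots := fun r hr => (supp_pos hr).1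
  have hconj : ∀ r ∈ supp, n * X r (c r) * n⁻¹ = X (img r) (par r) := fun r hr => by
    simp only [img, par, dif_pos (hlt r hr)]
    exact hA.conj ⟨r, hlt r hr⟩ (c r)
  have hprod : ∀ M : List ℕ, (∀ r ∈ M, r ∈ supp) →
      n * prodU full.cert M c * n⁻¹ = (M.map fun r => X (img r) (par r)).prod := by
    intro M hM
    induction M with
    | nil => simp [prodU]
    | cons k M ih =>
      rw [prodU_cons, List.map_cons, List.prod_cons, ← ih fun r hr => hM r (List.mem_cons_of_mem _ hr),
        ← hconj k (hM k (List.mem_cons_self ..))]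
      group
  set Mn := supp.filter (fun r => decide (¬ chevF4.IsPosRoot (img r))) with hMn
  set Mp := supp.filter (fun r => decide (chevF4.IsPosRoot (img r))) with hMp
  have hsub : ∀ r ∈ Mn, r ∈ supp := fun r hr => List.mem_of_mem_filter hr
  have hsubp : ∀ r ∈ Mp, r ∈ supp := fun r hr => List.mem_of_mem_filter hr
  have hnd : supp.Nodup := by decide
  have hsplit : prodU full.cert supp c = prodU full.cert Mn c * prodU full.cert Mp c := by
    rw [prodU, prodU, prodU, ← List.prod_append, ← List.map_append]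
    refine List.Perm.prod_eq' (List.Perm.map _ ?_) ?_
    · have := List.filter_append_perm (fun r => decide (¬ chevF4.IsPosRoot (img r))) supp
      refine this.symm.trans (List.Perm.append_left _ (List.Perm.of_eq (List.filter_congr fun r _ => ?_)))
      simp
    · rw [List.pairwise_map]
      exact List.Pairwise.imp_of_mem (fun ha hb _ => supp_commute ha hb _ _) hnd
  have hN : n * prodU full.cert Mn c * n⁻¹ ∈ chevF4.negUnipotent F := by
    rw [hprod Mn hsub]
    refine Subgroup.list_prod_mem _ fun x hx => ?_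
    obtain ⟨r, hr, rfl⟩ := List.mem_map.1 hx
    have hnp : ¬ chevF4.IsPosRoot (img r) := by simpa using (List.mem_filter.1 hr).2
    refine xG_mem_rootsU (S := {r | chevF4.IsNegRoot r}) full.cert ?_ _
    show chevF4.IsNegRoot (img r)
    simp only [img, dif_pos (hlt r (hsub r hr))] at hnp ⊢
    exact (full.pos.pos_or_neg (σ ⟨r, hlt r (hsub r hr)⟩).isLt).resolve_left hnp
  have hP : n * prodU full.cert Mp c * n⁻¹ ∈ chevF4.posUnipotent F := by
    rw [hprod Mp hsubp]
    refine Subgroup.list_prod_mem _ fun x hx => ?_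
    obtain ⟨r, hr, rfl⟩ := List.mem_map.1 hx
    exact xG_mem_rootsU (S := {r | chevF4.IsPosRoot r}) full.cert (by simpa using (List.mem_filter.1 hr).2) _
  have hR : prodU full.cert supp c' ∈ chevF4.posUnipotent F :=
    rootsU_mono (T := {r | chevF4.IsPosRoot r}) (fun r hr => supp_pos hr) (prodU_mem _ _)
  have h1 : n * prodU full.cert Mn c * n⁻¹ = 1 := by
    rw [← Subgroup.mem_bot, ← borel_inf_negUnipotent full]
    refine ⟨Subgroup.mem_sup_left ?_, hN⟩
    rw [show n * prodU full.cert Mn c * n⁻¹ = (n * prodU full.cert supp c * n⁻¹) *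
      (n * prodU full.cert Mp c * n⁻¹)⁻¹ by rw [hsplit]; group, h]
    exact mul_mem hR (inv_mem hP)
  have hzero : ∀ r ∈ Mn, c r = 0 := by
    intro r hr
    have h2 := coords_unique (F := F) (hnd.filter _) List.nodup_nil (fun r hr => supp_pos (hsub r hr))
      (by simp) (t := c) (t' := c) (fun a ha b hb => supp_commute (hsub a ha) (hsub b hb) _ _)
      (by simp) ((conj_eq_one_iff.1 h1).trans (by simp [prodU])) r (supp_pos (hsub r hr))
    rw [if_pos (show r ∈ supp.filter _ from hr)] at h2
    simpa using h2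
  have hpos : ∀ r ∈ supp, c r ≠ 0 → r ∈ Mp := fun r hr hcr => by
    by_contra hne
    refine hcr (hzero r (List.mem_filter.2 ⟨hr, ?_⟩))
    simpa [hMp, hr] using hne
  have hinj : ∀ a ∈ supp, ∀ b ∈ supp, img a = img b → a = b := fun a ha b hb e => by
    simp only [img, dif_pos (hlt a ha), dif_pos (hlt b hb)] at e
    exact congrArg Fin.val (σ.injective (Fin.ext e))
  let par' : ℕ → F := fun s =>
    if h : s < chevF4.nroots then par (σ.symm ⟨s, h⟩ : Fin chevF4.nroots) else 0
  have hpar' : ∀ r ∈ supp, par' (img r) = par r := fun r hr => by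
    have hs : img r < chevF4.nroots := by simp only [img, dif_pos (hlt r hr)]; exact Fin.isLt _
    simp only [par', dif_pos hs]
    have : (⟨img r, hs⟩ : Fin chevF4.nroots) = σ ⟨r, hlt r hr⟩ :=
      Fin.ext (by simp only [img, dif_pos (hlt r hr)])
    rw [this, Equiv.symm_apply_apply]
  have hmap : prodU full.cert (Mp.map img) par' = prodU full.cert supp c' := by
    rw [← h, hsplit, show n * (prodU full.cert Mn c * prodU full.cert Mp c) * n⁻¹ =
      (n * prodU full.cert Mn c * n⁻¹) * (n * prodU full.cert Mp c * n⁻¹) by group, h1, one_mul,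
      hprod Mp hsubp, prodU, List.map_map]
    refine congrArg List.prod (List.map_congr_left fun r hr => ?_)
    simp only [Function.comp_apply, hpar' r (hsubp r hr)]
  have hndM : (Mp.map img).Nodup :=
    (hnd.filter _).map_on fun a ha b hb e => hinj a (hsubp a ha) b (hsubp b hb) e
  have key := fun s hs => coords_unique (F := F) hndM hnd
    (fun s hs => by
      obtain ⟨r, hr, rfl⟩ := List.mem_map.1 hs
      simpa using (List.mem_filter.1 hr).2)
    (fun s hs => supp_pos hs) (t := par') (t' := c')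
    (fun a ha b hb => by
      obtain ⟨r, hr, rfl⟩ := List.mem_map.1 ha
      obtain ⟨r', hr', rfl⟩ := List.mem_map.1 hb
      rw [hpar' r (hsubp r hr), hpar' r' (hsubp r' hr'), ← hconj r (hsubp r hr), ← hconj r' (hsubp r' hr')]
      exact ((supp_commute (hsubp r hr) (hsubp r' hr') _ _).map (MulAut.conj n).toMonoidHom :))
    (fun a ha b hb => supp_commute ha hb _ _) hmap s hs
  have himg : ∀ (a : Fin chevF4.nroots), (a : ℕ) ∈ supp → c a = 1 →
      (σ a : ℕ) ∈ supp ∧ η a = c' (σ a) := by
    intro a ha hca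
    have hmem : (a : ℕ) ∈ Mp := hpos _ ha (by rw [hca]; exact one_ne_zero)
    have e1 : img a = (σ a : ℕ) := by simp only [img, dif_pos a.isLt, Fin.eta]
    have hp : chevF4.IsPosRoot (σ a) := by
      rw [← e1]; simpa using (List.mem_filter.1 hmem).2
    have h2 := key (σ a) hp
    rw [← e1, if_pos (List.mem_map.2 ⟨_, hmem, rfl⟩), hpar' _ ha] at h2
    simp only [par, dif_pos a.isLt, Fin.eta, hca, mul_one] at h2
    rw [e1] at h2
    by_cases hin : (σ a : ℕ) ∈ supp
    · rw [if_pos hin] at h2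
      exact ⟨hin, h2⟩
    · rw [if_neg hin] at h2
      exact absurd h2 (hA.ne_zero a)
  obtain ⟨m39, e39⟩ := himg 39 (by decide) h39
  obtain ⟨m45, e45⟩ := himg 45 (by decide) h45
  have hdiff : ∀ z : Fin chevF4.nroots, ¬ ∀ i : Fin chevF4.rank,
      crd auxF4 i z = crd auxF4 i (σ 45) - crd auxF4 i (σ 39) := by
    intro z hz
    obtain ⟨σi, ηi, hAi⟩ := exists_acts full (Subgroup.inv_mem _ hn)
    have hσi : σi * σ = 1 := by
      have h2 := hAi.mul hA
      rw [inv_mul_cancel] at h2
      exact h2.perm_eq (acts_one full.cert)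
    have hback : ∀ a, σi (σ a) = a := fun a => by
      rw [← Equiv.Perm.mul_apply, hσi, Equiv.Perm.one_apply]
    have hcomb : ∀ i : Fin chevF4.rank,
        crd auxF4 i (σi z) = crd auxF4 i (45 : Fin chevF4.nroots) - crd auxF4 i (39 : Fin chevF4.nroots) := by
      intro i
      rw [hAi.crd_comb full (r := σ 45) (s := σ 39) (q := z) (a := 1) (b := -1)
        (fun k hk => by rw [hz ⟨k, hk⟩]; ring) i.isLt, hback, hback]
      ring
    revert hcomb
    generalize σi z = w
    revert w
    decide +kernel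
  have hlong39 := long_iff hn hA 39
  have hlong45 := long_iff hn hA 45
  have hboth : σ 39 = 39 ∧ σ 45 = 45 := by
    revert m39 m45 hdiff hlong39 hlong45
    generalize σ 39 = x
    generalize σ 45 = y
    clear h hA e39 e45 himg key hmap hndM hpar' hinj hpos hzero h1 hR hP hN hsplit hnd hprod hconj
    revert x y
    decide +kernel
  refine ⟨hboth.1, hboth.2, ?_, ?_⟩
  · rw [e39, hboth.1]
    exact h39'
  · rw [e45, hboth.2]
    exact h45'

/-- Generators of the centraliser of `x₃₉ x₄₅`. -/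
def centSet : Set ℕ :=
  {r | r = 33 ∨ r = 14 ∨ r = 24 ∨ r = 23 ∨ (chevF4.IsPosRoot r ∧ r ∉ [27, 25, 34, 26])}

theorem pos_mem_centSet {r : ℕ} (hr : chevF4.IsPosRoot r) (hne : r ∉ [27, 25, 34, 26]) :
    r ∈ centSet := Or.inr (Or.inr (Or.inr (Or.inr ⟨hr, hne⟩)))

theorem simple_move (i : Fin chevF4.rank) :
    ∃ n ∈ chevF4.monomialSubgroup F, ∀ (s : Fin chevF4.nroots) (t : F),
      n * X s t * n⁻¹ = X (chevF4.reflectRoot i s) t := by
  refine ⟨nG full.cert (chevF4.simple i) 1, nG_simple_mem_monomial full i, fun s t => ?_⟩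
  rw [(acts_nG_simple (F := F) full i one_ne_zero).conj, one_zpow, mul_one]
  rcases (refl_spec full.cert i.isLt s.isLt).1 with e | e <;> rw [e] <;>
    simp [CharTwo.neg_eq, rf]

theorem commute_centSet {g : GL chevF4.Idx F} (hg : g ∈ rootsU chevF4 F centSet) :
    Commute g pairElt := by
  suffices hle : rootsU chevF4 F centSet ≤ Subgroup.centralizer ({pairElt} : Set (GL chevF4.Idx F)) from
    Subgroup.mem_centralizer_singleton_iff.1 (hle hg)
  rw [rootsU_le_iff full.cert]
  intro r hr t
  rw [Subgroup.mem_centralizer_singleton_iff]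
  have hgood : ∀ k, chevF4.IsPosRoot k → k ∉ [27, 25, 34, 26] → ∀ u : F,
      Commute (X k u) pairElt := by
    intro k hk hne u
    have he : (chevF4.commTerms k 39).all (fun c => c.2.1 % 2 == 0) = true ∧
        (chevF4.commTerms k 45).all (fun c => c.2.1 % 2 == 0) = true := by
      obtain ⟨h1, h2⟩ := isPos_iff.1 hk
      have key : ∀ a ∈ List.range 48, 24 ≤ a → a ∉ [27, 25, 34, 26] →
          (chevF4.commTerms a 39).all (fun c => c.2.1 % 2 == 0) = true ∧
          (chevF4.commTerms a 45).all (fun c => c.2.1 % 2 == 0) = true := by decide +kernel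
      exact key k (List.mem_range.2 h2) h1 hne
    exact (commute_of_even hk (supp_pos (by simp [supp])) he.1 u 1).mul_right
      (commute_of_even hk (supp_pos (by simp [supp])) he.2 u 1)
  have hneg : ∀ (i : Fin chevF4.rank) (k : Fin chevF4.nroots), chevF4.IsPosRoot k →
      (k : ℕ) ∉ [27, 25, 34, 26] → chevF4.reflectRoot i 39 = 39 → chevF4.reflectRoot i 45 = 45 →
      ∀ u : F, Commute (X (chevF4.reflectRoot i k) u) pairElt := by
    intro i k hk hne h39 h45 u
    obtain ⟨n, -, hB⟩ := simple_move (F := F) i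
    have hp : n * pairElt * n⁻¹ = pairElt := by
      rw [pairElt, show n * (X 39 (1 : F) * X 45 1) * n⁻¹ =
        (n * X ((39 : Fin chevF4.nroots) : ℕ) 1 * n⁻¹) * (n * X ((45 : Fin chevF4.nroots) : ℕ) 1 * n⁻¹) by
          simp [mul_assoc, show chevF4.nroots = 48 from rfl], hB, hB]
      rw [show chevF4.reflectRoot i ((39 : Fin chevF4.nroots) : ℕ) = 39 from h39,
        show chevF4.reflectRoot i ((45 : Fin chevF4.nroots) : ℕ) = 45 from h45]
    show X (chevF4.reflectRoot i k) u * pairElt = pairElt * X (chevF4.reflectRoot i k) u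
    rw [← hB k u]
    calc n * X k u * n⁻¹ * pairElt = n * X k u * n⁻¹ * (n * pairElt * n⁻¹) := by rw [hp]
      _ = n * (X k u * pairElt) * n⁻¹ := by group
      _ = n * (pairElt * X k u) * n⁻¹ := by rw [(hgood k hk hne u).eq]
      _ = (n * pairElt * n⁻¹) * (n * X k u * n⁻¹) := by group
      _ = pairElt * (n * X k u * n⁻¹) := by rw [hp]
  rcases hr with rfl | rfl | rfl | rfl | ⟨hk, hne⟩
  · exact (hgood 33 (isPos_iff.2 (by omega)) (by decide) t).eq
  · have := hneg 0 33 (isPos_iff.2 (by decide)) (by decide) (by decide +kernel) (by decide +kernel) t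
    rw [show chevF4.reflectRoot ((0 : Fin chevF4.rank) : ℕ) ((33 : Fin chevF4.nroots) : ℕ) = 14 by decide +kernel] at this
    exact this.eq
  · exact (hgood 24 (isPos_iff.2 (by omega)) (by decide) t).eq
  · have := hneg 3 24 (isPos_iff.2 (by decide)) (by decide) (by decide +kernel) (by decide +kernel) t
    rw [show chevF4.reflectRoot ((3 : Fin chevF4.rank) : ℕ) ((24 : Fin chevF4.nroots) : ℕ) = 23 by decide +kernel] at this
    exact this.eq
  · exact (hgood r hk hne t).eq

/-- Monomial elements fixing both roots. -/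
theorem monomial_mem_cent {n : GL chevF4.Idx F} (hn : n ∈ chevF4.monomialSubgroup F)
    {σ : Equiv.Perm (Fin chevF4.nroots)} {η : Fin chevF4.nroots → F} (hA : Acts full.cert n σ η)
    (h39 : σ 39 = 39) (h45 : σ 45 = 45) (e39 : η 39 = 1) (e45 : η 45 = 1) :
    n ∈ rootsU chevF4 F centSet ∧
      ∀ r : Fin chevF4.nroots, (r : ℕ) ∈ [27, 25, 34, 26] → chevF4.IsPosRoot (σ r) := by
  set K := rootsU chevF4 F centSet with hK
  have hnG : ∀ i : Fin chevF4.rank, i = 0 ∨ i = 3 → ∀ c : F,
      nG full.cert (chevF4.simple i) c ∈ K := by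
    intro i hi c
    rcases hi with rfl | rfl
    · exact mul_mem (mul_mem (xG_mem_rootsU (S := centSet) full.cert (Or.inl rfl) _)
        (xG_mem_rootsU (S := centSet) full.cert (r := chevF4.neg (chevF4.simple ((0 : Fin chevF4.rank) : ℕ))) (Or.inr (Or.inl (by decide +kernel))) _))
        (xG_mem_rootsU (S := centSet) full.cert (Or.inl rfl) _)
    · exact mul_mem (mul_mem (xG_mem_rootsU (S := centSet) full.cert (Or.inr (Or.inr (Or.inl rfl))) _)
        (xG_mem_rootsU (S := centSet) full.cert (r := chevF4.neg (chevF4.simple ((3 : Fin chevF4.rank) : ℕ))) (Or.inr (Or.inr (Or.inr (Or.inl (by decide +kernel))))) _))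
        (xG_mem_rootsU (S := centSet) full.cert (Or.inr (Or.inr (Or.inl rfl))) _)
  have hposimg : ∀ {τ : Equiv.Perm (Fin chevF4.nroots)} {θ : Fin chevF4.nroots → F}
      {m : GL chevF4.Idx F}, m ∈ chevF4.monomialSubgroup F → Acts full.cert m τ θ → τ 39 = 39 → τ 45 = 45 →
      chevF4.IsPosRoot (τ 27) ∧ chevF4.IsPosRoot (τ 25) ∧ chevF4.IsPosRoot (τ 34) ∧
        chevF4.IsPosRoot (τ 26) := by
    intro τ θ m hm hB k39 k45
    have hl : ∀ (r : Fin chevF4.nroots) (i : Fin chevF4.rank), crd auxF4 i (τ r) =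
        crd auxF4 0 r * crd auxF4 i (τ (smp full.cert 0)) + crd auxF4 1 r * crd auxF4 i (τ (smp full.cert 1)) +
        crd auxF4 2 r * crd auxF4 i (τ (smp full.cert 2)) + crd auxF4 3 r * crd auxF4 i (τ (smp full.cert 3)) := by
      intro r i
      rw [hB.lin i i.isLt r, sum_rank]
      rfl
    have h2 : ∀ i : Fin chevF4.rank,
        crd auxF4 i (τ (smp full.cert 0)) + 2 * crd auxF4 i (τ (smp full.cert 1)) = crd auxF4 i 45 - crd auxF4 i 39 ∧
        2 * crd auxF4 i (τ (smp full.cert 2)) + crd auxF4 i (τ (smp full.cert 3)) = 2 * crd auxF4 i 39 - crd auxF4 i 45 := by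
      intro i
      have a := hl 39 i
      have b := hl 45 i
      rw [k39] at a
      rw [k45] at b
      simp only [show ((39 : Fin chevF4.nroots) : ℕ) = 39 from rfl, show ((45 : Fin chevF4.nroots) : ℕ) = 45 from rfl,
        show crd auxF4 0 39 = 1 by decide +kernel, show crd auxF4 1 39 = 2 by decide +kernel,
        show crd auxF4 2 39 = 2 by decide +kernel, show crd auxF4 3 39 = 1 by decide +kernel,
        show crd auxF4 0 45 = 2 by decide +kernel, show crd auxF4 1 45 = 4 by decide +kernel,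
        show crd auxF4 2 45 = 2 by decide +kernel, show crd auxF4 3 45 = 1 by decide +kernel] at a b
      omega
    have s1 : ∀ x y : Fin chevF4.nroots,
        (∀ i : Fin chevF4.rank, crd auxF4 i x + 2 * crd auxF4 i y = crd auxF4 i 45 - crd auxF4 i 39) →
        chevF4.nroots / 2 ≤ (y : ℕ) ∧ 0 < crd auxF4 1 x + crd auxF4 1 y := by decide +kernel
    have s2 : ∀ x y : Fin chevF4.nroots, isLong x = true →
        (∀ i : Fin chevF4.rank, 2 * crd auxF4 i x + crd auxF4 i y = 2 * crd auxF4 i 39 - crd auxF4 i 45) →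
        chevF4.nroots / 2 ≤ (x : ℕ) ∧ 0 < crd auxF4 2 x + crd auxF4 2 y := by decide +kernel
    obtain ⟨p27, q34⟩ := s1 _ _ fun i => (h2 i).1
    obtain ⟨p25, q26⟩ := s2 _ _ ((long_iff hm hB (smp full.cert 2)).trans (by decide +kernel))
      fun i => (h2 i).2
    refine ⟨?_, ?_, ?_, ?_⟩
    · rw [show (27 : Fin chevF4.nroots) = smp full.cert 1 by decide +kernel]
      exact full.pos.isPos_iff.2 ⟨p27, Fin.isLt _⟩
    · rw [show (25 : Fin chevF4.nroots) = smp full.cert 2 by decide +kernel]
      exact full.pos.isPos_iff.2 ⟨p25, Fin.isLt _⟩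
    · refine full.isPos_of_crd_pos (Fin.isLt _) (i := 1) (by decide) ?_
      have := hl 34 1
      simp only [show ((34 : Fin chevF4.nroots) : ℕ) = 34 from rfl,
        show crd auxF4 0 34 = 1 by decide +kernel, show crd auxF4 1 34 = 1 by decide +kernel,
        show crd auxF4 2 34 = 0 by decide +kernel, show crd auxF4 3 34 = 0 by decide +kernel] at this
      rw [show ((1 : Fin chevF4.rank) : ℕ) = 1 from rfl] at this
      omega
    · refine full.isPos_of_crd_pos (Fin.isLt _) (i := 2) (by decide) ?_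
      have := hl 26 2
      simp only [show ((26 : Fin chevF4.nroots) : ℕ) = 26 from rfl,
        show crd auxF4 0 26 = 0 by decide +kernel, show crd auxF4 1 26 = 0 by decide +kernel,
        show crd auxF4 2 26 = 1 by decide +kernel, show crd auxF4 3 26 = 1 by decide +kernel] at this
      rw [show ((2 : Fin chevF4.rank) : ℕ) = 2 from rfl] at this
      omega
  refine ⟨?_, fun r hr => ?_⟩
  swap
  · obtain ⟨a, b, c, d⟩ := hposimg hn hA h39 h45
    simp only [List.mem_cons, List.not_mem_nil, or_false] at hr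
    rcases hr with e | e | e | e
    · rwa [show r = 27 from Fin.ext e]
    · rwa [show r = 25 from Fin.ext e]
    · rwa [show r = 34 from Fin.ext e]
    · rwa [show r = 26 from Fin.ext e]
  have diag : ∀ {m : GL chevF4.Idx F} {τ : Equiv.Perm (Fin chevF4.nroots)} {θ : Fin chevF4.nroots → F},
      m ∈ chevF4.monomialSubgroup F → Acts full.cert m τ θ → τ 39 = 39 → τ 45 = 45 → θ 39 = 1 → θ 45 = 1 →
      chevF4.IsPosRoot (τ (smp full.cert 0)) → chevF4.IsPosRoot (τ (smp full.cert 3)) → m ∈ K := by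
    intro m τ θ hm hB k39 k45 t39 t45 p0 p3
    obtain ⟨a, b, -, -⟩ := hposimg hm hB k39 k45
    rw [show (27 : Fin chevF4.nroots) = smp full.cert 1 by decide +kernel] at a
    rw [show (25 : Fin chevF4.nroots) = smp full.cert 2 by decide +kernel] at b
    have ht := mem_diagonal_of_perm full hm hB fun i => by
      have hi : i = 0 ∨ i = 1 ∨ i = 2 ∨ i = 3 := by revert i; decide
      rcases hi with rfl | rfl | rfl | rfl
      exacts [p0, a, b, p3]
    rw [diagonalSubgroup_eq_range full] at ht
    obtain ⟨c, rfl⟩ := ht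
    have hT := acts_torus full.cert c
    have hval : ∀ r : Fin chevF4.nroots, θ r = ((chi chevF4 r c : Fˣ) : F) := fun r => by
      have h1 := hB.col (Sum.inr (τ r)) r
      rw [if_pos rfl, hT.col, hB.perm_eq hT, if_pos rfl] at h1
      exact h1.symm
    have chi_eq : ∀ r : Fin chevF4.nroots, chi chevF4 r c =
        c 0 ^ chevF4.cartan 0 r * c 1 ^ chevF4.cartan 1 r * c 2 ^ chevF4.cartan 2 r * c 3 ^ chevF4.cartan 3 r :=
      fun r => Fin.prod_univ_four fun j : Fin chevF4.rank => c j ^ chevF4.cartan (j : ℕ) r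
    have u39 : (c 1)⁻¹ * c 2 = 1 := by
      have := hval 39
      rw [t39, chi_eq] at this
      rw [show chevF4.cartan 0 ((39 : Fin chevF4.nroots) : ℕ) = 0 by decide +kernel,
        show chevF4.cartan 1 ((39 : Fin chevF4.nroots) : ℕ) = -1 by decide +kernel,
        show chevF4.cartan 2 ((39 : Fin chevF4.nroots) : ℕ) = 1 by decide +kernel,
        show chevF4.cartan 3 ((39 : Fin chevF4.nroots) : ℕ) = 0 by decide +kernel] at this
      simp only [zpow_zero, zpow_one, zpow_neg, one_mul, mul_one] at this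
      exact Units.val_eq_one.1 this.symm
    have u45 : c 1 ^ 2 * (c 2)⁻¹ = 1 := by
      have := hval 45
      rw [t45, chi_eq] at this
      rw [show chevF4.cartan 0 ((45 : Fin chevF4.nroots) : ℕ) = 0 by decide +kernel,
        show chevF4.cartan 1 ((45 : Fin chevF4.nroots) : ℕ) = 2 by decide +kernel,
        show chevF4.cartan 2 ((45 : Fin chevF4.nroots) : ℕ) = -1 by decide +kernel,
        show chevF4.cartan 3 ((45 : Fin chevF4.nroots) : ℕ) = 0 by decide +kernel] at this
      simp only [zpow_zero, zpow_one, zpow_neg, one_mul, mul_one, zpow_ofNat, pow_one, pow_zero] at this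
      exact Units.val_eq_one.1 this.symm
    have hc12 : c 2 = c 1 := (inv_mul_eq_one.1 u39).symm
    have hc1 : c 1 = 1 := by rw [hc12] at u45; simpa [pow_two] using u45
    have hc : c = Pi.mulSingle (0 : Fin chevF4.rank) (c 0) * Pi.mulSingle (3 : Fin chevF4.rank) (c 3) := by
      funext j
      have hj : j = 0 ∨ j = 1 ∨ j = 2 ∨ j = 3 := by revert j; decide
      rw [Pi.mul_apply]
      rcases hj with rfl | rfl | rfl | rfl
      · rw [Pi.mulSingle_eq_same, Pi.mulSingle_eq_of_ne (by decide), mul_one]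
      · rw [Pi.mulSingle_eq_of_ne (by decide), Pi.mulSingle_eq_of_ne (by decide), hc1, mul_one]
      · rw [Pi.mulSingle_eq_of_ne (by decide), Pi.mulSingle_eq_of_ne (by decide), hc12, hc1, mul_one]
      · rw [Pi.mulSingle_eq_same, Pi.mulSingle_eq_of_ne (by decide), one_mul]
    rw [hc, map_mul, torusHom_mulSingle full.cert, torusHom_mulSingle full.cert]
    exact mul_mem (mul_mem (hnG 0 (Or.inl rfl) _) (hnG 0 (Or.inl rfl) _))
      (mul_mem (hnG 3 (Or.inr rfl) _) (hnG 3 (Or.inr rfl) _))
  -- absorb the two reflections one after the other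
  have step : ∀ i : Fin chevF4.rank, i = 0 ∨ i = 3 → ∀ {m : GL chevF4.Idx F}
      {τ : Equiv.Perm (Fin chevF4.nroots)} {θ : Fin chevF4.nroots → F},
      m ∈ chevF4.monomialSubgroup F → Acts full.cert m τ θ → τ 39 = 39 → τ 45 = 45 → θ 39 = 1 → θ 45 = 1 →
      ∃ (m' : GL chevF4.Idx F) (τ' : Equiv.Perm (Fin chevF4.nroots)) (θ' : Fin chevF4.nroots → F),
        m' ∈ chevF4.monomialSubgroup F ∧ Acts full.cert m' τ' θ' ∧ τ' 39 = 39 ∧ τ' 45 = 45 ∧ θ' 39 = 1 ∧
        θ' 45 = 1 ∧ chevF4.IsPosRoot (τ' (smp full.cert i)) ∧ (m' ∈ K → m ∈ K) ∧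
        ∀ r, rf full.cert i r = r → τ' r = τ r := by
    intro i hi m τ θ hm hB k39 k45 t39 t45
    rcases full.pos.pos_or_neg (τ (smp full.cert i)).isLt with hp | hneg
    · exact ⟨m, τ, θ, hm, hB, k39, k45, t39, t45, hp, id, fun _ _ => rfl⟩
    · have hA' := acts_nG_simple (F := F) full i one_ne_zero
      have f39 : rf full.cert i 39 = 39 := by rcases hi with rfl | rfl <;> decide +kernel
      have f45 : rf full.cert i 45 = 45 := by rcases hi with rfl | rfl <;> decide +kernel
      have h1 : ∀ s : Fin chevF4.nroots, ((etaAt auxF4 (i : ℕ) (s : ℕ) : ℤ) : F) * (1 : F) ^ (-chevF4.cartan i s) = 1 := by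
        intro s
        rcases (refl_spec full.cert i.isLt s.isLt).1 with e | e <;> rw [e] <;> simp [CharTwo.neg_eq]
      refine ⟨m * nG full.cert (chevF4.simple i) 1, _, _, mul_mem hm (nG_simple_mem_monomial full i),
        hB.mul hA', by simp [f39, k39], by simp [f45, k45], ?_, ?_, ?_, fun hk => ?_, fun r hr => by simp [hr]⟩
      · show θ (rfPerm full.cert i 39) * _ = 1
        rw [h1, rfPerm_apply, f39, t39, mul_one]
      · show θ (rfPerm full.cert i 45) * _ = 1
        rw [h1, rfPerm_apply, f45, t45, mul_one]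
      · rw [Equiv.Perm.mul_apply, rfPerm_apply, rf_smp, hB.neg]
        exact full.neg_isPos hneg
      · rw [← mul_inv_cancel_right m (nG full.cert (chevF4.simple i) 1)]
        exact mul_mem hk (inv_mem (hnG i hi 1))
  obtain ⟨m₀, τ₀, θ₀, g1, g2, g3, g4, g5, g6, g7, g8, -⟩ := step 0 (Or.inl rfl) hn hA h39 h45 e39 e45
  obtain ⟨m₃, τ₃, θ₃, k1, k2, k3, k4, k5, k6, k7, k8, k9⟩ := step 3 (Or.inr rfl) g1 g2 g3 g4 g5 g6
  exact g8 (k8 (diag k1 k2 k3 k4 k5 k6 (by rw [k9 _ (by decide +kernel)]; exact g7) k7))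

theorem mem_cent_of_commute {u : GL chevF4.Idx F} (hu : u ∈ chevF4.posUnipotent F)
    (hcom : Commute u pairElt) : u ∈ rootsU chevF4 F centSet := by
  obtain ⟨hs, hset, -⟩ := full.toStd.posList
  rw [posUnipotent_eq, ← hset] at hu
  obtain ⟨t, -, rfl⟩ := exists_prodU full.toStd hs (hset ▸ full.toStd.isClosed_pos) hu
  have hlist : chevF4.posRoots =
      [24, 25, 26, 27] ++ ([28, 29, 30, 31, 32, 33] ++ (34 :: [35, 36, 37, 38, 39, 40, 41, 42, 43, 44, 45, 46, 47])) := by
    decide +kernel
  set P := prodU full.cert [28, 29, 30, 31, 32, 33] t with hP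
  set Q := prodU full.cert [35, 36, 37, 38, 39, 40, 41, 42, 43, 44, 45, 46, 47] t with hQ
  have e : prodU full.cert chevF4.posRoots t =
      X 24 (t 24) * (X 25 (t 25) * (X 26 (t 26) * (X 27 (t 27) * (P * (X 34 (t 34) * Q))))) := by
    rw [hlist]
    simp only [prodU, hP, hQ, List.map_append, List.map_cons, List.map_nil, List.prod_append,
      List.prod_cons, List.prod_nil, mul_one, mul_assoc]
  rw [e] at hcom ⊢
  set v : GL chevF4.Idx F := pairElt with hv
  have hPc : P ∈ rootsU chevF4 F centSet := rootsU_mono (fun r hr => pos_mem_centSet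
    (isPos_iff.2 (by simp at hr; omega)) (by simp at hr ⊢; omega)) (prodU_mem _ _)
  have hQc : Q ∈ rootsU chevF4 F centSet := rootsU_mono (fun r hr => pos_mem_centSet
    (isPos_iff.2 (by simp at hr; omega)) (by simp at hr ⊢; omega)) (prodU_mem _ _)
  have h24 : X 24 (t 24) ∈ rootsU chevF4 F centSet :=
    xG_mem_rootsU (S := centSet) full.cert (Or.inr (Or.inr (Or.inl rfl))) _
  have hstep : ∀ k w, [(25, 46), (26, 47), (27, 40), (34, 44)].contains (k, w) = true → ∀ a : F,
      v * X k a = X k a * (v * X w a) := by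
    intro k w hkw a
    have hk : chevF4.IsPosRoot k ∧ (k = 25 ∧ w = 46 ∨ k = 26 ∧ w = 47 ∨ k = 27 ∧ w = 40 ∨ k = 34 ∧ w = 44) := by
      simp at hkw
      exact ⟨isPos_iff.2 (by omega), by omega⟩
    have hw : w ∈ supp := by simp [supp]; omega
    -- one of the two factors commutes, the other produces `x_w(a)`
    have hco : ∀ s ∈ [39, 45], ∀ (T : List (ℕ × ℤ × ℕ × ℕ)), chevF4.commTerms k s = T → s ≠ k →
        X s (1 : F) * X k a =
          X k a * X s 1 * (T.map fun c => X c.1 ((c.2.1 : F) * a ^ c.2.2.1 * (1 : F) ^ c.2.2.2)).prod := by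
      intro s hsm T hT hne
      subst hT
      have hsp : chevF4.IsPosRoot s := isPos_iff.2 (by simp at hsm; omega)
      have h := x_mul_x full.mem hk.1.1 hsp.1 hne (full.toStd.ne_neg hk.1 hsp) a 1
      rw [wordMat_eq_prod full.cert] at h
      simp only [ChevalleyDatum.commWord, List.map_map, Function.comp_def, CharTwo.neg_eq] at h
      exact Units.ext (by simpa using h)
    have c45 : ∀ b, Commute (X 45 (1 : F)) (X w b) := supp_commute (by simp [supp]) hw 1
    rcases hk.2 with ⟨rfl, rfl⟩ | ⟨rfl, rfl⟩ | ⟨rfl, rfl⟩ | ⟨rfl, rfl⟩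
    · have a1 := hco 39 (by simp) [] (by decide +kernel) (by decide)
      have a2 := hco 45 (by simp) [(46, 1, 1, 1)] (by decide +kernel) (by decide)
      simp at a1 a2
      rw [hv, pairElt, mul_assoc, a2, ← mul_assoc, ← mul_assoc, a1]; group
    · have a1 := hco 39 (by simp) [] (by decide +kernel) (by decide)
      have a2 := hco 45 (by simp) [(47, 1, 1, 1)] (by decide +kernel) (by decide)
      simp at a1 a2
      rw [hv, pairElt, mul_assoc, a2, ← mul_assoc, ← mul_assoc, a1]; group
    · have a1 := hco 39 (by simp) [(40, 1, 1, 1)] (by decide +kernel) (by decide)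
      have a2 := hco 45 (by simp) [] (by decide +kernel) (by decide)
      simp at a1 a2
      rw [hv, pairElt, mul_assoc, a2, ← mul_assoc, a1, mul_assoc, ← (c45 a).eq]; group
    · have a1 := hco 39 (by simp) [(44, 1, 1, 1)] (by decide +kernel) (by decide)
      have a2 := hco 45 (by simp) [] (by decide +kernel) (by decide)
      simp at a1 a2
      rw [hv, pairElt, mul_assoc, a2, ← mul_assoc, a1, mul_assoc, ← (c45 a).eq]; group
  have hcP : Commute v P := (commute_centSet hPc).symm
  have hcQ : Commute v Q := (commute_centSet hQc).symm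
  have hc24 : Commute v (X 24 (t 24)) := (commute_centSet h24).symm
  have hL : ∀ (w : ℕ) (L : List ℕ), chevF4.IsPosRoot w → L.all (fun s => Nat.ble 24 s && Nat.blt s 48 &&
      (chevF4.commTerms w s).all fun c => c.2.1 % 2 == 0) = true → ∀ a : F,
      Commute (X w a) (prodU full.cert L t) :=
    fun w L hw h a => commute_rootsU hw h a (prodU_mem _ _)
  have p46 := hL 46 [26, 27] (supp_pos (by simp [supp])) (by decide +kernel) (t 25)
  have p46' := hL 46 ([28, 29, 30, 31, 32, 33] ++ (34 :: [35, 36, 37, 38, 39, 40, 41, 42, 43, 44, 45, 46, 47]))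
    (supp_pos (by simp [supp])) (by decide +kernel) (t 25)
  have p47 := hL 47 [27] (supp_pos (by simp [supp])) (by decide +kernel) (t 26)
  have p47' := hL 47 ([28, 29, 30, 31, 32, 33] ++ (34 :: [35, 36, 37, 38, 39, 40, 41, 42, 43, 44, 45, 46, 47]))
    (supp_pos (by simp [supp])) (by decide +kernel) (t 26)
  -- commutation of `x₄₀` with the rest
  obtain ⟨ψ, hψ, hψ0⟩ : ∃ ψ : F, (X 40 (t 27) * (P * (X 34 (t 34) * Q)) =
      P * (X 34 (t 34) * Q) * (X 40 (t 27) * X 44 ψ)) ∧ (t 27 = 0 → ψ = 0) := by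
    have hlow := hL 40 [28, 29, 30, 31, 32] (supp_pos (by simp [supp])) (by decide +kernel) (t 27)
    have h34 : Commute (X 40 (t 27)) (X 34 (t 34)) :=
      commute_of_even (supp_pos (by simp [supp])) (isPos_iff.2 (by omega)) (by decide +kernel) _ _
    have hQ40 : Commute (X 40 (t 27)) Q := hL 40 [35, 36, 37, 38, 39, 40, 41, 42, 43, 44, 45, 46, 47] (supp_pos (by simp [supp]))
      (by decide +kernel) (t 27)
    refine ⟨t 27 * t 33, ?_, fun h0 => by rw [h0, zero_mul]⟩
    set ψ := t 27 * t 33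
    have h33 : X 40 (t 27) * X 33 (t 33) = X 33 (t 33) * X 40 (t 27) * X 44 ψ := by
      have h := x_mul_x full.mem (F := F) (r := 33) (s := 40) (by decide) (by decide) (by decide)
        (by decide +kernel) (t 33) (t 27)
      rw [wordMat_eq_prod full.cert] at h
      simp only [ChevalleyDatum.commWord, List.map_map, Function.comp_def, CharTwo.neg_eq] at h
      have h' : X 40 (t 27) * X 33 (t 33) = X 33 (t 33) * X 40 (t 27) *
          ((chevF4.commTerms 33 40).map fun c => X c.1 ((c.2.1 : F) * t 33 ^ c.2.2.1 * t 27 ^ c.2.2.2)).prod :=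
        Units.ext (by simpa using h)
      rw [show chevF4.commTerms 33 40 = [(44, 1, 1, 1)] by decide +kernel] at h'
      simpa [ψ, mul_comm (t 27)] using h'
    have h44 : Commute (X 44 ψ) (X 34 (t 34)) :=
      commute_of_even (supp_pos (by simp [supp])) (isPos_iff.2 (by omega)) (by decide +kernel) _ _
    have hQ44 : Commute (X 44 ψ) Q := hL 44 [35, 36, 37, 38, 39, 40, 41, 42, 43, 44, 45, 46, 47] (supp_pos (by simp [supp]))
      (by decide +kernel) ψ
    have hP33 : P = prodU full.cert [28, 29, 30, 31, 32] t * X 33 (t 33) := by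
      simp [hP, prodU, mul_assoc]
    rw [hP33]
    set L := prodU full.cert [28, 29, 30, 31, 32] t
    calc X 40 (t 27) * (L * X 33 (t 33) * (X 34 (t 34) * Q))
        = (X 40 (t 27) * L) * X 33 (t 33) * (X 34 (t 34) * Q) := by group
      _ = L * (X 40 (t 27) * X 33 (t 33)) * (X 34 (t 34) * Q) := by rw [hlow.eq]; group
      _ = L * X 33 (t 33) * X 40 (t 27) * (X 44 ψ * X 34 (t 34)) * Q := by rw [h33]; group
      _ = L * X 33 (t 33) * (X 40 (t 27) * X 34 (t 34)) * (X 44 ψ * Q) := by rw [h44.eq]; group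
      _ = L * X 33 (t 33) * X 34 (t 34) * (X 40 (t 27) * Q) * X 44 ψ := by rw [h34.eq, hQ44.eq]; group
      _ = _ := by rw [hQ40.eq]; group
  set R := P * (X 34 (t 34) * Q) with hR
  have hRprod : prodU full.cert ([28, 29, 30, 31, 32, 33] ++ (34 :: [35, 36, 37, 38, 39, 40, 41, 42, 43, 44, 45, 46, 47])) t = R := by
    simp only [hR, hP, hQ, prodU, List.map_append, List.map_cons, List.map_nil, List.prod_append,
      List.prod_cons, List.prod_nil, mul_one, mul_assoc]
  rw [hRprod] at p46' p47'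
  have h2627 : prodU full.cert [26, 27] t = X 26 (t 26) * X 27 (t 27) := by simp [prodU]
  have h27 : prodU full.cert [27] t = X 27 (t 27) := by simp [prodU]
  rw [h2627] at p46
  rw [h27] at p47
  have hvR : v * R = R * (v * X 44 (t 34)) := by
    have hq44 : Commute (X 44 (t 34)) Q := hL 44 [35, 36, 37, 38, 39, 40, 41, 42, 43, 44, 45, 46, 47]
      (supp_pos (by simp [supp])) (by decide +kernel) (t 34)
    calc v * R = (v * P) * (X 34 (t 34) * Q) := by rw [hR]; group
      _ = P * (v * X 34 (t 34)) * Q := by rw [hcP.eq]; group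
      _ = P * X 34 (t 34) * v * (X 44 (t 34) * Q) := by rw [hstep 34 44 (by decide) (t 34)]; group
      _ = P * X 34 (t 34) * (v * Q) * X 44 (t 34) := by rw [hq44.eq]; group
      _ = R * (v * X 44 (t 34)) := by rw [hcQ.eq, hR]; group
  set u := X 24 (t 24) * (X 25 (t 25) * (X 26 (t 26) * (X 27 (t 27) * R))) with hu'
  have hW : v * u = u * (v * (X 44 (t 34) * ((X 40 (t 27)) * X 44 ψ) * (X 47 (t 26)) * (X 46 (t 25)))) := by
    calc v * u = (v * X 24 (t 24)) * (X 25 (t 25) * (X 26 (t 26) * (X 27 (t 27) * R))) := by rw [hu']; group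
      _ = X 24 (t 24) * (v * X 25 (t 25)) * (X 26 (t 26) * X 27 (t 27) * R) := by rw [hc24.eq]; group
      _ = X 24 (t 24) * X 25 (t 25) * v * ((X 46 (t 25)) * (X 26 (t 26) * X 27 (t 27))) * R := by
          rw [hstep 25 46 (by decide) (t 25)]; group
      _ = X 24 (t 24) * X 25 (t 25) * v * X 26 (t 26) * X 27 (t 27) * ((X 46 (t 25)) * R) := by rw [p46.eq]; group
      _ = X 24 (t 24) * X 25 (t 25) * (v * X 26 (t 26)) * X 27 (t 27) * R * (X 46 (t 25)) := by rw [p46'.eq]; group
      _ = X 24 (t 24) * X 25 (t 25) * X 26 (t 26) * v * ((X 47 (t 26)) * X 27 (t 27)) * R * (X 46 (t 25)) := by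
          rw [hstep 26 47 (by decide) (t 26)]; group
      _ = X 24 (t 24) * X 25 (t 25) * X 26 (t 26) * (v * X 27 (t 27)) * ((X 47 (t 26)) * R) * (X 46 (t 25)) := by rw [p47.eq]; group
      _ = X 24 (t 24) * X 25 (t 25) * X 26 (t 26) * X 27 (t 27) * v * ((X 40 (t 27)) * R) * (X 47 (t 26)) * (X 46 (t 25)) := by
          rw [p47'.eq, hstep 27 40 (by decide) (t 27)]; group
      _ = X 24 (t 24) * X 25 (t 25) * X 26 (t 26) * X 27 (t 27) * (v * R) * ((X 40 (t 27)) * X 44 ψ) * (X 47 (t 26)) * (X 46 (t 25)) := by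
          rw [hψ]; group
      _ = _ := by rw [hvR, hu']; group
  have hW1 : X 44 (t 34) * ((X 40 (t 27)) * X 44 ψ) * (X 47 (t 26)) * (X 46 (t 25)) = 1 := by
    have h' : u * v = u * (v * (X 44 (t 34) * ((X 40 (t 27)) * X 44 ψ) * (X 47 (t 26)) * (X 46 (t 25)))) := by rw [← hW]; exact hcom.eq
    exact mul_left_cancel (a := v) (by rw [mul_one]; exact (mul_left_cancel h').symm)
  have e44 : X 44 (t 34) * ((X 40 (t 27)) * X 44 ψ) * (X 47 (t 26)) * (X 46 (t 25)) =
      prodU full.cert [40, 44, 47, 46] (fun r => if r = 40 then t 27 else if r = 44 then t 34 + ψ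
        else if r = 47 then t 26 else t 25) := by
    have hc := supp_commute (F := F) (r := 44) (s := 40) (by simp [supp]) (by simp [supp]) (t 34) (t 27)
    simp only [prodU, List.map_cons, List.map_nil, List.prod_cons, List.prod_nil, mul_one,
      show (44 : ℕ) ≠ 40 by decide, show (47 : ℕ) ≠ 40 by decide, show (47 : ℕ) ≠ 44 by decide,
      show (46 : ℕ) ≠ 40 by decide, show (46 : ℕ) ≠ 44 by decide, show (46 : ℕ) ≠ 47 by decide,
      if_true, if_false]
    rw [← xG_mul, ← mul_assoc (X 44 (t 34)), hc.eq]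
    group
  rw [e44] at hW1
  have hz := coords_unique (F := F) (M := [40, 44, 47, 46]) (M' := []) (by decide) List.nodup_nil
    (fun r hr => isPos_iff.2 (by simp at hr; omega)) (by simp)
    (fun a ha b hb => supp_commute (by simp [supp] at ha ⊢; omega) (by simp [supp] at hb ⊢; omega) _ _)
    (t' := fun _ => 0) (by simp) (hW1.trans (by simp [prodU]))
  have z27 : t 27 = 0 := by simpa using hz 40 (isPos_iff.2 (by omega))
  have z26 : t 26 = 0 := by simpa using hz 47 (isPos_iff.2 (by omega))
  have z25 : t 25 = 0 := by simpa using hz 46 (isPos_iff.2 (by omega))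
  have z34 : t 34 = 0 := by simpa [hψ0 z27] using hz 44 (isPos_iff.2 (by omega))
  rw [hu', hR, z25, z26, z27, z34]
  simp only [xG_zero, one_mul]
  exact mul_mem h24 (mul_mem hPc hQc)

theorem centralizer_pair :
    chevF4.group F ⊓ Subgroup.centralizer {(pairElt : GL chevF4.Idx F)} = rootsU chevF4 F centSet := by
  refine le_antisymm ?_ (le_inf (rootsU_le_group full.cert _) fun g hg =>
    Subgroup.mem_centralizer_singleton_iff.2 (commute_centSet hg).eq)
  rintro g ⟨hg, hgc⟩
  have hgc' := Subgroup.mem_centralizer_singleton_iff.1 hgc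
  obtain ⟨u, hu, n, hn, v, hv, rfl⟩ := exists_bnu full hg
  obtain ⟨σ, η, hA⟩ := exists_acts full hn
  obtain ⟨c, c39, c45, hc⟩ := conj_pair hv
  obtain ⟨c', c39', c45', hc'⟩ := conj_pair (inv_mem hu)
  rw [inv_inv] at hc'
  have h3 : n * prodU full.cert supp c * n⁻¹ = prodU full.cert supp c' := by
    rw [← hc, ← hc']
    calc n * (v * pairElt * v⁻¹) * n⁻¹ = u⁻¹ * (u * n * v * pairElt) * v⁻¹ * n⁻¹ := by group
      _ = u⁻¹ * pairElt * u := by rw [hgc']; group
  obtain ⟨f39, f45, e39, e45⟩ := monomial_pair hn hA c39 c45 c39' c45' h3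
  obtain ⟨hnK, himg⟩ := monomial_mem_cent hn hA f39 f45 e39 e45
  obtain ⟨a, ha, b, hb, rfl⟩ := split_pos full.toStd
    (P := {r | r ∈ [27, 25, 34, 26]}) (Q := {r | r ∉ [27, 25, 34, 26]}) (fun r _ => Classical.em _) hv
  have haU : n * a * n⁻¹ ∈ chevF4.posUnipotent F :=
    hA.conj_rootsU (T := {r | chevF4.IsPosRoot r}) (fun s hs => himg s hs.2) a ha
  have hbK : b ∈ rootsU chevF4 F centSet :=
    rootsU_mono (fun r hr => pos_mem_centSet hr.1 hr.2) hb
  rw [show u * n * (a * b) = (u * (n * a * n⁻¹)) * (n * b) by group]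
  refine mul_mem (mem_cent_of_commute (mul_mem hu haU) ?_) (mul_mem hnK hbK)
  have h4 := (commute_centSet (mul_mem hnK hbK)).eq
  show u * (n * a * n⁻¹) * pairElt = pairElt * (u * (n * a * n⁻¹))
  calc u * (n * a * n⁻¹) * pairElt = u * (n * a * n⁻¹) * (pairElt * (n * b)) * (n * b)⁻¹ := by group
    _ = u * n * (a * b) * pairElt * (n * b)⁻¹ := by rw [← h4]; group
    _ = pairElt * (u * (n * a * n⁻¹)) := by rw [hgc']; group

/-- The centraliser of `x₄₇(1) x₄₄(1)`. -/
theorem centralizer_central :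
    chevF4.group F ⊓ Subgroup.centralizer {X 47 (1 : F) * X 44 1} =
      orthGroup chevF4 F [(47 : Fin chevF4.nroots), (44 : Fin chevF4.nroots)] := by
  have hR : ∀ r ∈ [(47 : Fin chevF4.nroots), (44 : Fin chevF4.nroots)],
      ∃ k < chevF4.rank, ∀ i < chevF4.rank, chevF4.cartan i r = if i = k then 1 else 0 := by
    intro r hr
    simp only [List.mem_cons, List.not_mem_nil, or_false] at hr
    rcases hr with rfl | rfl
    · exact ⟨3, by decide, by decide +kernel⟩
    · exact ⟨0, by decide, by decide +kernel⟩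
  have hpos : ∀ r ∈ [(47 : Fin chevF4.nroots), (44 : Fin chevF4.nroots)], chevF4.IsPosRoot (r : ℕ) := by
    intro r hr
    simp only [List.mem_cons, List.not_mem_nil, or_false] at hr
    rcases hr with rfl | rfl <;> exact isPos_iff.2 (by decide)
  have hc : CentralInU chevF4 F [(47 : Fin chevF4.nroots), (44 : Fin chevF4.nroots)] := by
    refine centralInU_of_even fun r hr s hs hp c hcm => Int.dvd_of_emod_eq_zero ?_
    have hall : (chevF4.commTerms r s).all (fun c => c.2.1 % 2 == 0) = true := by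
      simp only [List.mem_cons, List.not_mem_nil, or_false] at hr
      obtain ⟨h1, h2⟩ := isPos_iff.1 hp
      clear hcm hp hs
      revert h1 h2
      rcases hr with rfl | rfl <;> revert s <;> decide +kernel
    exact beq_iff_eq.1 (List.all_eq_true.1 hall c hcm)
  refine centralizer_eq_orthGroup full hR (commute_orthGroup full hc hpos) (fun g hg => ?_) ?_
  · exact (hg 47 (by simp)).mul_right (hg 44 (by simp))
  intro n hn σ η hA e
  have h47 : ((47 : Fin chevF4.nroots) : ℕ) = 47 := rfl
  have h44 : ((44 : Fin chevF4.nroots) : ℕ) = 44 := rfl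
  have e' : X (σ 47) (η 47) * X (σ 44) (η 44) = X 47 1 * X 44 1 := by
    rw [← e, show n * (X 47 (1 : F) * X 44 1) * n⁻¹ =
      (n * X ((47 : Fin chevF4.nroots) : ℕ) 1 * n⁻¹) * (n * X ((44 : Fin chevF4.nroots) : ℕ) 1 * n⁻¹) by
        rw [h47, h44]; group, hA.conj, hA.conj, mul_one, mul_one]
  have hU : X 47 (1 : F) * X 44 1 ∈ chevF4.posUnipotent F :=
    mul_mem (xG_mem_rootsU (S := {r | chevF4.IsPosRoot r}) full.cert (isPos_iff.2 (by omega)) _)
      (xG_mem_rootsU (S := {r | chevF4.IsPosRoot r}) full.cert (isPos_iff.2 (by omega)) _)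
  have hne : (σ 47 : ℕ) ≠ σ 44 := fun h => by
    have := σ.injective (Fin.ext h)
    revert this
    decide
  have hposs : chevF4.IsPosRoot (σ 47) ∧ chevF4.IsPosRoot (σ 44) := by
    rcases full.pos.pos_or_neg (σ 47).isLt with p | p <;> rcases full.pos.pos_or_neg (σ 44).isLt with q | q
    · exact ⟨p, q⟩
    · exact absurd (show X (σ 44) (η 44) ∈ chevF4.posUnipotent F by
        rw [show X (σ 44) (η 44) = (X (σ 47) (η 47))⁻¹ * (X 47 1 * X 44 1) by rw [← e']; group]
        exact mul_mem (inv_mem (xG_mem_rootsU (S := {r | chevF4.IsPosRoot r}) full.cert p _)) hU)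
        (xG_notMem_posUnipotent full q (hA.ne_zero _))
    · exact absurd (show X (σ 47) (η 47) ∈ chevF4.posUnipotent F by
        rw [show X (σ 47) (η 47) = (X 47 1 * X 44 1) * (X (σ 44) (η 44))⁻¹ by rw [← e']; group]
        exact mul_mem hU (inv_mem (xG_mem_rootsU (S := {r | chevF4.IsPosRoot r}) full.cert q _)))
        (xG_notMem_posUnipotent full p (hA.ne_zero _))
    · exfalso
      have h1 : X 47 (1 : F) * X 44 1 = 1 := by
        rw [← Subgroup.mem_bot, ← borel_inf_negUnipotent full]
        refine ⟨Subgroup.mem_sup_left hU, ?_⟩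
        rw [← e']
        exact mul_mem (xG_mem_rootsU (S := {r | chevF4.IsNegRoot r}) full.cert p _)
          (xG_mem_rootsU (S := {r | chevF4.IsNegRoot r}) full.cert q _)
      have := coords_unique (F := F) (M := [47, 44]) (M' := []) (by decide) List.nodup_nil
        (fun r hr => isPos_iff.2 (by simp at hr; omega)) (by simp) (t := fun _ => 1) (t' := fun _ => 0)
        (fun a ha b hb => supp_commute (by simp [supp] at ha ⊢; omega) (by simp [supp] at hb ⊢; omega) _ _)
        (by simp) (by simpa [prodU] using h1) 47 (isPos_iff.2 (by omega))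
      simp at this
  let t : ℕ → F := fun r => if r = (σ 47 : ℕ) then η 47 else η 44
  have hcomm : Commute (X (σ 47) (η 47)) (X (σ 44) (η 44)) := by
    have h := (supp_commute (F := F) (r := 47) (s := 44) (by simp [supp]) (by simp [supp]) 1 1).map
      (MulAut.conj n).toMonoidHom
    simp only [MulEquiv.coe_toMonoidHom, MulAut.conj_apply] at h
    rw [show (47 : ℕ) = ((47 : Fin chevF4.nroots) : ℕ) from rfl, show (44 : ℕ) = ((44 : Fin chevF4.nroots) : ℕ) from rfl,
      hA.conj, hA.conj, mul_one, mul_one] at h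
    exact h
  have key := coords_unique (F := F) (M := [(σ 47 : ℕ), (σ 44 : ℕ)]) (M' := [47, 44]) (by simp [hne])
    (by decide) (fun r hr => by
      simp only [List.mem_cons, List.not_mem_nil, or_false] at hr
      rcases hr with rfl | rfl; exacts [hposs.1, hposs.2])
    (fun r hr => isPos_iff.2 (by simp at hr; omega)) (t := t) (t' := fun _ => 1)
    (fun a ha b hb => by
      simp only [List.mem_cons, List.not_mem_nil, or_false] at ha hb
      rcases ha with rfl | rfl <;> rcases hb with rfl | rfl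
      · exact Commute.refl _
      · simpa [t, Ne.symm hne] using hcomm
      · simpa [t, Ne.symm hne] using hcomm.symm
      · exact Commute.refl _)
    (fun a ha b hb => supp_commute (by simp [supp] at ha ⊢; omega) (by simp [supp] at hb ⊢; omega) _ _)
    (by simpa [prodU, t, Ne.symm hne] using e')
  have k1 := key _ hposs.1
  have k2 := key _ hposs.2
  simp only [List.mem_cons, true_or, or_true, if_true, List.not_mem_nil, or_false, t,
    if_neg (Ne.symm hne)] at k1 k2
  have m1 : (σ 47 : ℕ) = 47 ∨ (σ 47 : ℕ) = 44 := by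
    by_contra h; rw [if_neg h] at k1; exact hA.ne_zero _ k1
  have m2 : (σ 44 : ℕ) = 47 ∨ (σ 44 : ℕ) = 44 := by
    by_contra h; rw [if_neg h] at k2; exact hA.ne_zero _ k2
  rw [if_pos m1] at k1
  rw [if_pos m2] at k2
  have l1 := long_iff hn hA 47
  have l2 := long_iff hn hA 44
  have hfix : σ 47 = 47 ∧ σ 44 = 44 := by
    revert m1 m2 l1 l2
    generalize σ 47 = x
    generalize σ 44 = y
    clear hcomm key hposs hne e' e hA hU k1 k2 t
    revert x y
    decide +kernel
  intro r hr
  simp only [List.mem_cons, List.not_mem_nil, or_false] at hr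
  rcases hr with rfl | rfl
  exacts [⟨hfix.1, k1⟩, ⟨hfix.2, k2⟩]

end CfsgLib.OutAut.F4Pair
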