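import Mathlib
import Cfsg.Agent.Lib.OutAut.ChevCentral
import Cfsg.Agent.Lib.Chevalley.ExtraData

/-!
The positive unipotent subgroup of `G₂` in characteristic two in coordinates: rewriting rules that
bring products of root elements to the ordered normal form.
-/

set_option autoImplicit false
set_option linter.unusedSectionVars false
set_option linter.unusedSimpArgs false

namespace CfsgLib.OutAut.G2Two

open Cfsg.Lie CfsgLib.Chevalley

theorem full : Full chevG2 auxG2 := ⟨⟨cert_G2, posG2, by simp⟩, extraG2⟩

variable {F : Type*} [Field F] [CharP F 2]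

/-- Root elements of `G₂`. -/
noncomputable abbrev X (k : ℕ) (t : F) : GL chevG2.Idx F := xG full.cert k t

/-- Products in the order of the roots, with a trailing unit for rewriting. -/
noncomputable def N (e a b c d f : F) : GL chevG2.Idx F :=
  X 6 e * (X 7 a * (X 8 b * (X 9 c * (X 10 d * (X 11 f * 1)))))

theorem merge (k : ℕ) (t u : F) (R : GL chevG2.Idx F) : X k t * (X k u * R) = X k (t + u) * R := by
  rw [← mul_assoc, xG_mul]

theorem swap {r s : ℕ} (hr : r < chevG2.nroots) (hs : s < chevG2.nroots) (hne : s ≠ r)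
    (hneg : s ≠ chevG2.neg r) (t u : F) (R : GL chevG2.Idx F) :
    X s u * (X r t * R) = X r t * (X s u *
      (((chevG2.commTerms r s).map fun c => X c.1 ((c.2.1 : F) * t ^ c.2.2.1 * u ^ c.2.2.2)).prod * R)) := by
  have h := x_mul_x full.mem hr hs hne hneg t u
  rw [wordMat_eq_prod full.cert] at h
  simp only [ChevalleyDatum.commWord, List.map_map, Function.comp_def, CharTwo.neg_eq] at h
  have h' : X s u * X r t = X r t * X s u *
      ((chevG2.commTerms r s).map fun c => X c.1 ((c.2.1 : F) * t ^ c.2.2.1 * u ^ c.2.2.2)).prod :=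
    Units.ext (by simpa using h)
  rw [← mul_assoc, h', mul_assoc, mul_assoc]

variable (t u : F) (R : GL chevG2.Idx F)

theorem r76 : X 7 u * (X 6 t * R) = X 6 t * (X 7 u *
    (X 8 (t * u) * (X 9 (t * u ^ 2) * (X 10 (t * u ^ 3) * R)))) := by
  rw [swap (r := 6) (s := 7) (by decide) (by decide) (by decide) (by decide),
    show chevG2.commTerms 6 7 = [(8, 1, 1, 1), (9, 1, 1, 2), (10, -1, 1, 3), (11, -2, 2, 3)] from rfl]
  simp [mul_assoc, xG_zero, CharTwo.neg_eq, CharTwo.two_eq_zero]

theorem r86 : X 8 u * (X 6 t * R) = X 6 t * (X 8 u * R) := by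
  rw [swap (r := 6) (s := 8) (by decide) (by decide) (by decide) (by decide),
    show chevG2.commTerms 6 8 = [] from rfl]
  simp

theorem r96 : X 9 u * (X 6 t * R) = X 6 t * (X 9 u * R) := by
  rw [swap (r := 6) (s := 9) (by decide) (by decide) (by decide) (by decide),
    show chevG2.commTerms 6 9 = [] from rfl]
  simp

theorem r106 : X 10 u * (X 6 t * R) = X 6 t * (X 10 u * (X 11 (t * u) * R)) := by
  rw [swap (r := 6) (s := 10) (by decide) (by decide) (by decide) (by decide),
    show chevG2.commTerms 6 10 = [(11, 1, 1, 1)] from rfl]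
  simp

theorem r116 : X 11 u * (X 6 t * R) = X 6 t * (X 11 u * R) := by
  rw [swap (r := 6) (s := 11) (by decide) (by decide) (by decide) (by decide),
    show chevG2.commTerms 6 11 = [] from rfl]
  simp

theorem r87 : X 8 u * (X 7 t * R) = X 7 t * (X 8 u * (X 10 (t ^ 2 * u) * (X 11 (t * u ^ 2) * R))) := by
  rw [swap (r := 7) (s := 8) (by decide) (by decide) (by decide) (by decide),
    show chevG2.commTerms 7 8 = [(9, -2, 1, 1), (10, -3, 2, 1), (11, 3, 1, 2)] from rfl]
  simp [mul_assoc, xG_zero, CharTwo.neg_eq, CharTwo.two_eq_zero,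
    show (3 : F) = 1 by linear_combination CharTwo.two_eq_zero (R := F)]

theorem r97 : X 9 u * (X 7 t * R) = X 7 t * (X 9 u * (X 10 (t * u) * R)) := by
  rw [swap (r := 7) (s := 9) (by decide) (by decide) (by decide) (by decide),
    show chevG2.commTerms 7 9 = [(10, 3, 1, 1)] from rfl]
  simp [show (3 : F) = 1 by linear_combination CharTwo.two_eq_zero (R := F)]

theorem r107 : X 10 u * (X 7 t * R) = X 7 t * (X 10 u * R) := by
  rw [swap (r := 7) (s := 10) (by decide) (by decide) (by decide) (by decide),
    show chevG2.commTerms 7 10 = [] from rfl]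
  simp

theorem r117 : X 11 u * (X 7 t * R) = X 7 t * (X 11 u * R) := by
  rw [swap (r := 7) (s := 11) (by decide) (by decide) (by decide) (by decide),
    show chevG2.commTerms 7 11 = [] from rfl]
  simp

theorem r98 : X 9 u * (X 8 t * R) = X 8 t * (X 9 u * (X 11 (t * u) * R)) := by
  rw [swap (r := 8) (s := 9) (by decide) (by decide) (by decide) (by decide),
    show chevG2.commTerms 8 9 = [(11, 3, 1, 1)] from rfl]
  simp [show (3 : F) = 1 by linear_combination CharTwo.two_eq_zero (R := F)]

theorem r108 : X 10 u * (X 8 t * R) = X 8 t * (X 10 u * R) := by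
  rw [swap (r := 8) (s := 10) (by decide) (by decide) (by decide) (by decide),
    show chevG2.commTerms 8 10 = [] from rfl]
  simp

theorem r118 : X 11 u * (X 8 t * R) = X 8 t * (X 11 u * R) := by
  rw [swap (r := 8) (s := 11) (by decide) (by decide) (by decide) (by decide),
    show chevG2.commTerms 8 11 = [] from rfl]
  simp

theorem r109 : X 10 u * (X 9 t * R) = X 9 t * (X 10 u * R) := by
  rw [swap (r := 9) (s := 10) (by decide) (by decide) (by decide) (by decide),
    show chevG2.commTerms 9 10 = [] from rfl]
  simp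

theorem r119 : X 11 u * (X 9 t * R) = X 9 t * (X 11 u * R) := by
  rw [swap (r := 9) (s := 11) (by decide) (by decide) (by decide) (by decide),
    show chevG2.commTerms 9 11 = [] from rfl]
  simp

theorem r1110 : X 11 u * (X 10 t * R) = X 10 t * (X 11 u * R) := by
  rw [swap (r := 10) (s := 11) (by decide) (by decide) (by decide) (by decide),
    show chevG2.commTerms 10 11 = [] from rfl]
  simp

end CfsgLib.OutAut.G2Two
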