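import Mathlib
import Cfsg.Agent.Lib.OutAut.G2TwoRules
import Cfsg.Agent.Lib.OutAut.ChevSylow

/-!
The two classes of involutions of `G₂` in characteristic two and the centraliser of a short root
involution.
-/

set_option autoImplicit false
set_option linter.unusedSectionVars false
set_option linter.unusedSimpArgs false
set_option maxRecDepth 10000

namespace CfsgLib.OutAut.G2Two

open Cfsg.Lie CfsgLib.Chevalley

local instance neZeroRank : NeZero chevG2.rank := ⟨by decide⟩

local instance neZeroRoots : NeZero chevG2.nroots := ⟨by decide⟩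

variable {F : Type*} [Field F] [CharP F 2]

/-- Normalisation of products in `U`. -/
macro "g2_norm" : tactic => `(tactic| simp only [N, mul_assoc, one_mul, merge, r76, r86, r96, r106,
  r116, r87, r97, r107, r117, r98, r108, r118, r109, r119, r1110])

theorem N_congr {e a b c d f e' a' b' c' d' f' : F} (h1 : e = e') (h2 : a = a') (h3 : b = b')
    (h4 : c = c') (h5 : d = d') (h6 : f = f') : N e a b c d f = N e' a' b' c' d' f' := by
  subst_vars; rfl

theorem isPos_iff {r : ℕ} : chevG2.IsPosRoot r ↔ r ∈ [6, 7, 8, 9, 10, 11] := by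
  rw [full.pos.isPos_iff]
  simp [show chevG2.nroots = 12 from rfl]
  omega

theorem set_pos : {r | chevG2.IsPosRoot r} = {r | r ∈ [6, 7, 8, 9, 10, 11]} := by
  ext r
  exact isPos_iff

theorem N_eq_prodU (t : ℕ → F) :
    prodU full.cert [6, 7, 8, 9, 10, 11] t = N (t 6) (t 7) (t 8) (t 9) (t 10) (t 11) := by
  simp only [prodU, N, List.map_cons, List.map_nil, List.prod_cons, List.prod_nil]

theorem exists_N {u : GL chevG2.Idx F} (hu : u ∈ chevG2.posUnipotent F) :
    ∃ e a b c d f, u = N e a b c d f := by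
  rw [posUnipotent_eq, set_pos] at hu
  obtain ⟨t, -, e⟩ := exists_prodU full.toStd (by decide) (set_pos ▸ full.toStd.isClosed_pos) hu
  exact ⟨_, _, _, _, _, _, e.trans (N_eq_prodU t)⟩

theorem N_mem (e a b c d f : F) : N e a b c d f ∈ chevG2.posUnipotent F := by
  have h := prodU_mem full.cert (L := [6, 7, 8, 9, 10, 11])
    (fun r => [e, a, b, c, d, f].getD (r - 6) 0)
  rw [N_eq_prodU, ← set_pos, ← posUnipotent_eq] at h
  simpa using h

theorem N_inj {e a b c d f e' a' b' c' d' f' : F} (h : N e a b c d f = N e' a' b' c' d' f') :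
    e = e' ∧ a = a' ∧ b = b' ∧ c = c' ∧ d = d' ∧ f = f' := by
  have key := prodU_injOn full.toStd (L := [6, 7, 8, 9, 10, 11]) (by decide)
    (set_pos ▸ full.toStd.isClosed_pos) (F := F)
    (t := fun r => [e, a, b, c, d, f].getD (r - 6) 0)
    (t' := fun r => [e', a', b', c', d', f'].getD (r - 6) 0)
    (by rw [N_eq_prodU, N_eq_prodU]; simpa using h)
  exact ⟨by simpa using key 6 (by simp), by simpa using key 7 (by simp), by simpa using key 8 (by simp),
    by simpa using key 9 (by simp), by simpa using key 10 (by simp), by simpa using key 11 (by simp)⟩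

theorem N_zero : (N 0 0 0 0 0 0 : GL chevG2.Idx F) = 1 := by
  simp [N, xG_zero]

theorem N_nine (c : F) : N 0 0 0 c 0 0 = X 9 c := by
  simp [N, xG_zero]

theorem N_eleven (f : F) : N 0 0 0 0 0 f = X 11 f := by
  simp [N, xG_zero]

/-- Conjugation in the group. -/
def Rel (g y : GL chevG2.Idx F) : Prop := ∃ h ∈ chevG2.group F, h * g * h⁻¹ = y

theorem Rel.trans {g y z : GL chevG2.Idx F} (h₁ : Rel g y) (h₂ : Rel y z) : Rel g z := by
  obtain ⟨a, ha, rfl⟩ := h₁
  obtain ⟨b, hb, rfl⟩ := h₂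
  exact ⟨b * a, mul_mem hb ha, by group⟩

theorem rel_of_conj {g h h' y : GL chevG2.Idx F} (hh : h ∈ chevG2.posUnipotent F) (hinv : h * h' = 1)
    (e : h * g * h' = y) : Rel g y :=
  ⟨h, rootsU_le_group full.cert _ hh, by rw [← e, inv_eq_of_mul_eq_one_right hinv]⟩

/-- A fundamental reflection moves root elements without change of parameter. -/
theorem acts_simple (i : Fin chevG2.rank) :
    ∃ n ∈ chevG2.group F, ∀ (s : Fin chevG2.nroots) (t : F),
      n * X s t * n⁻¹ = X (chevG2.reflectRoot i s) t := by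
  refine ⟨nG full.cert (chevG2.simple i) 1, nG_mem_group full.cert _ _, fun s t => ?_⟩
  rw [(acts_nG_simple (F := F) full i one_ne_zero).conj, one_zpow, mul_one]
  rcases (refl_spec full.cert i.isLt s.isLt).1 with e | e <;> rw [e] <;>
    simp [CharTwo.neg_eq, rf]

theorem rel_refl (i : Fin chevG2.rank) {r r' : ℕ} (hr : r < chevG2.nroots)
    (hi : chevG2.reflectRoot i r = r') (t : F) : Rel (X r t) (X r' t) := by
  obtain ⟨n, hn, h⟩ := acts_simple (F := F) i
  exact ⟨n, hn, by rw [h ⟨r, hr⟩ t, hi]⟩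

theorem rel_scale (i : Fin chevG2.rank) (r : Fin chevG2.nroots) (hc : chevG2.cartan i r = 1) {t : F}
    (ht : t ≠ 0) : Rel (X r t) (X r 1) := by
  refine ⟨torusHom chevG2 F (Pi.mulSingle i (Units.mk0 t ht)⁻¹),
    diagonal_le_group full.cert (torus_mem_diagonal full _), ?_⟩
  rw [(acts_torus full.cert _).conj, Equiv.Perm.one_apply, chi_mulSingle, hc, zpow_one]
  simp [ht]

theorem rel_seven {t : F} (ht : t ≠ 0) : Rel (X 7 t) (X 9 1) :=
  ((rel_refl 1 (by decide) (by decide) t).trans (rel_refl (r := 8) 0 (by decide) (by decide) t)).trans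
    (rel_scale 0 9 (by decide) ht)

theorem rel_ten {t : F} (ht : t ≠ 0) : Rel (X 10 t) (X 11 1) :=
  (rel_refl 1 (by decide) (by decide) t).trans (rel_scale 1 11 (by decide) ht)

theorem rel_six {t : F} (ht : t ≠ 0) : Rel (X 6 t) (X 11 1) :=
  (rel_refl 0 (by decide) (by decide) t).trans (rel_ten ht)

theorem sq_eq (e a b c d f : F) : ∃ c' d' f', N e a b c d f * N e a b c d f = N 0 0 (e * a) c' d' f' ∧
    (e * a = 0 → d' = a ^ 2 * b + a * c ∧ f' = a * b ^ 2 + b * c + e * d) := by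
  refine ⟨e * a ^ 2, a ^ 2 * (e * a) + (a * (e * a ^ 2) + (e * a ^ 3 + (a ^ 2 * b + a * c))),
    a * (e * a) ^ 2 + (a * b ^ 2 + (b * c + e * d)), ?_, fun h => ⟨?_, ?_⟩⟩
  · g2_norm
    simp [CharTwo.add_self_eq_zero, xG_zero]
  · linear_combination (3 * a ^ 2) * h
  · linear_combination (a * e * a) * h

theorem sq_one {e a b c d f : F} (h : N e a b c d f * N e a b c d f = 1) :
    e * a = 0 ∧ a ^ 2 * b + a * c = 0 ∧ a * b ^ 2 + b * c + e * d = 0 := by
  obtain ⟨c', d', f', he, hd⟩ := sq_eq e a b c d f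
  rw [he, ← N_zero] at h
  obtain ⟨-, -, h3, -, h5, h6⟩ := N_inj h
  exact ⟨h3, (hd h3).1 ▸ h5, (hd h3).2 ▸ h6⟩

theorem sq_conj {g h y : GL chevG2.Idx F} (hg : g * g = 1) (e : h * g * h⁻¹ = y) : y * y = 1 := by
  rw [← e, show h * g * h⁻¹ * (h * g * h⁻¹) = h * (g * g) * h⁻¹ by group, hg, mul_one, mul_inv_cancel]

/-- An involution with non-zero coordinate at the short fundamental root is a short root element up
to conjugation. -/
theorem rel_of_a [PerfectRing F 2] {a b c d f : F} (ha : a ≠ 0)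
    (hg : N 0 a b c d f * N 0 a b c d f = 1) : Rel (N 0 a b c d f) (X 9 1) := by
  set s := b / a with hs
  obtain ⟨c', d', f', he⟩ : ∃ c' d' f',
      N s 0 0 0 0 0 * N 0 a b c d f * N s 0 0 0 0 0 = N 0 a 0 c' d' f' := by
    refine ⟨s * a ^ 2 + c, s * a ^ 3 + d, b * (s * a ^ 2) + (s * d + f), ?_⟩
    g2_norm
    have h0 : s * a + b = 0 := by rw [hs, div_mul_cancel₀ _ ha, CharTwo.add_self_eq_zero]
    simp [CharTwo.add_self_eq_zero, xG_zero, h0]
  have hi : (N s 0 0 0 0 0 : GL chevG2.Idx F) * N s 0 0 0 0 0 = 1 := by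
    simp [N, xG_zero, xG_mul, CharTwo.add_self_eq_zero]
  have h2 := sq_conj hg (show N s 0 0 0 0 0 * N 0 a b c d f * (N s 0 0 0 0 0)⁻¹ = N 0 a 0 c' d' f' by
    rw [inv_eq_of_mul_eq_one_right hi, he])
  have hc' : c' = 0 := by
    have := (sq_one h2).2.1
    rw [mul_zero, zero_add] at this
    exact (mul_eq_zero.1 this).resolve_left ha
  subst hc'
  refine (rel_of_conj (N_mem s 0 0 0 0 0) hi he).trans ?_
  obtain ⟨q, hq⟩ : ∃ q : F, q ^ 2 = f' / a := ⟨(frobeniusEquiv F 2).symm (f' / a),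
    frobeniusEquiv_symm_pow_p (R := F) (p := 2) (f' / a)⟩
  set r := (a ^ 2 * q + d') / a with hr
  have h1 : a ^ 2 * q + (a * r + d') = 0 := by
    rw [hr, mul_div_cancel₀ _ ha]
    linear_combination (a ^ 2 * q + d') * CharTwo.two_eq_zero (R := F)
  have h3 : q * r + (a * q ^ 2 + f' + q * r) = 0 := by
    rw [hq, mul_div_cancel₀ _ ha]
    linear_combination (f' + q * r) * CharTwo.two_eq_zero (R := F)
  refine (rel_of_conj (h := N 0 0 q r 0 0) (h' := N 0 0 0 r 0 0 * N 0 0 q 0 0 0) (y := X 7 a)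
    (N_mem _ _ _ _ _ _) ?_ ?_).trans (rel_seven ha)
  · g2_norm
    simp [CharTwo.add_self_eq_zero, xG_zero]
  · g2_norm
    simp [CharTwo.add_self_eq_zero, xG_zero, h1, h3]

/-- Every involution of `U` is conjugate to a long or to a short root element. -/
theorem rel_of_involution [PerfectRing F 2] {g : GL chevG2.Idx F} (hg : g ∈ chevG2.posUnipotent F)
    (h2 : g * g = 1) (h1 : g ≠ 1) : Rel g (X 11 1) ∨ Rel g (X 9 1) := by
  obtain ⟨e, a, b, c, d, f, rfl⟩ := exists_N hg
  obtain ⟨hea, -, hbc⟩ := sq_one h2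
  by_cases he : e = 0
  swap
  · obtain rfl : a = 0 := (mul_eq_zero.1 hea).resolve_left he
    set s := b / e with hs
    obtain ⟨c', d', f', he1⟩ : ∃ c' d' f',
        N 0 s 0 0 0 0 * N e 0 b c d f * N 0 s 0 0 0 0 = N e 0 0 c' d' f' := by
      refine ⟨e * s ^ 2 + c, s ^ 2 * (e * s + b) + (s * (e * s ^ 2 + c) + (e * s ^ 3 + d)),
        s * (e * s + b) ^ 2 + (b * (e * s ^ 2) + f), ?_⟩
      g2_norm
      have h0 : e * s + b = 0 := by rw [hs, mul_div_cancel₀ _ he, CharTwo.add_self_eq_zero]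
      simp [CharTwo.add_self_eq_zero, xG_zero, h0]
    have hi : (N 0 s 0 0 0 0 : GL chevG2.Idx F) * N 0 s 0 0 0 0 = 1 := by
      simp [N, xG_zero, xG_mul, CharTwo.add_self_eq_zero]
    have hsq := sq_conj h2 (show N 0 s 0 0 0 0 * N e 0 b c d f * (N 0 s 0 0 0 0)⁻¹ = N e 0 0 c' d' f' by
      rw [inv_eq_of_mul_eq_one_right hi, he1])
    have hd' : d' = 0 := by
      have := (sq_one hsq).2.2
      simp only [zero_pow two_ne_zero, mul_zero, zero_mul, zero_add] at this
      exact (mul_eq_zero.1 this).resolve_left he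
    subst hd'
    set q := f' / e with hq
    have hfinal : Rel (N e 0 b c d f) (X 6 e * X 9 c') := by
      refine (rel_of_conj (N_mem 0 s 0 0 0 0) hi he1).trans
        (rel_of_conj (h := N 0 0 0 0 q 0) (h' := N 0 0 0 0 q 0) (N_mem _ _ _ _ _ _) ?_ ?_)
      · simp [N, xG_zero, xG_mul, CharTwo.add_self_eq_zero]
      · g2_norm
        have h0 : e * q + f' = 0 := by rw [hq, mul_div_cancel₀ _ he, CharTwo.add_self_eq_zero]
        simp [CharTwo.add_self_eq_zero, xG_zero, h0]
    by_cases hc : c' = 0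
    · left
      rw [hc, show X 9 (0 : F) = 1 from xG_zero _ _, mul_one] at hfinal
      exact hfinal.trans (rel_six he)
    · right
      obtain ⟨n, hn, hA⟩ := acts_simple (F := F) 0
      obtain ⟨m, hm, hB⟩ := acts_simple (F := F) 1
      have hrel : Rel (X 6 e * X 9 c') (N 0 c' 0 0 0 e) := by
        refine ⟨m * n, mul_mem hm hn, ?_⟩
        calc m * n * (X 6 e * X 9 c') * (m * n)⁻¹
            = m * ((n * X ((6 : Fin chevG2.nroots) : ℕ) e * n⁻¹) *
                (n * X ((9 : Fin chevG2.nroots) : ℕ) c' * n⁻¹)) * m⁻¹ := by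
              simp only [show ((6 : Fin chevG2.nroots) : ℕ) = 6 from rfl,
                show ((9 : Fin chevG2.nroots) : ℕ) = 9 from rfl]
              group
          _ = (m * X ((10 : Fin chevG2.nroots) : ℕ) e * m⁻¹) *
                (m * X ((8 : Fin chevG2.nroots) : ℕ) c' * m⁻¹) := by
              rw [hA, hA, show chevG2.reflectRoot ((0 : Fin chevG2.rank) : ℕ) ((6 : Fin chevG2.nroots) : ℕ) = 10 by decide,
                show chevG2.reflectRoot ((0 : Fin chevG2.rank) : ℕ) ((9 : Fin chevG2.nroots) : ℕ) = 8 by decide]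
              simp only [show ((10 : Fin chevG2.nroots) : ℕ) = 10 from rfl,
                show ((8 : Fin chevG2.nroots) : ℕ) = 8 from rfl]
              group
          _ = X 11 e * (X 7 c' * 1) := by
              rw [hB, hB, show chevG2.reflectRoot ((1 : Fin chevG2.rank) : ℕ) ((10 : Fin chevG2.nroots) : ℕ) = 11 by decide,
                show chevG2.reflectRoot ((1 : Fin chevG2.rank) : ℕ) ((8 : Fin chevG2.nroots) : ℕ) = 7 by decide,
                mul_one]
          _ = N 0 c' 0 0 0 e := by rw [r117]; simp [N, xG_zero]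
      refine (hfinal.trans hrel).trans (rel_of_a hc ?_)
      obtain ⟨k, -, hk'⟩ := hfinal.trans hrel
      exact sq_conj h2 hk'
  subst he
  by_cases ha : a = 0
  swap
  · exact Or.inr (rel_of_a ha h2)
  subst ha
  simp only [zero_pow two_ne_zero, zero_mul, zero_add, add_zero] at hbc
  by_cases hb : b = 0
  swap
  · obtain rfl : c = 0 := (mul_eq_zero.1 hbc).resolve_left hb
    obtain ⟨m, hm, hB⟩ := acts_simple (F := F) 1
    have hrel : Rel (N 0 0 b 0 d f) (N 0 b 0 0 f d) := by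
      refine ⟨m, hm, ?_⟩
      have e0 : N 0 0 b 0 d f = X ((8 : Fin chevG2.nroots) : ℕ) b * X ((10 : Fin chevG2.nroots) : ℕ) d *
          X ((11 : Fin chevG2.nroots) : ℕ) f := by
        simp [N, xG_zero, mul_assoc, show chevG2.nroots = 12 from rfl, show ((8 : Fin chevG2.nroots) : ℕ) = 8 from rfl,
          show ((10 : Fin chevG2.nroots) : ℕ) = 10 from rfl, show ((11 : Fin chevG2.nroots) : ℕ) = 11 from rfl]
      calc m * N 0 0 b 0 d f * m⁻¹
          = (m * X ((8 : Fin chevG2.nroots) : ℕ) b * m⁻¹) * (m * X ((10 : Fin chevG2.nroots) : ℕ) d * m⁻¹) *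
            (m * X ((11 : Fin chevG2.nroots) : ℕ) f * m⁻¹) := by rw [e0]; group
        _ = X 7 b * (X 11 d * (X 10 f * 1)) := by
            rw [hB, hB, hB, show chevG2.reflectRoot ((1 : Fin chevG2.rank) : ℕ) ((8 : Fin chevG2.nroots) : ℕ) = 7 by decide,
              show chevG2.reflectRoot ((1 : Fin chevG2.rank) : ℕ) ((10 : Fin chevG2.nroots) : ℕ) = 11 by decide,
              show chevG2.reflectRoot ((1 : Fin chevG2.rank) : ℕ) ((11 : Fin chevG2.nroots) : ℕ) = 10 by decide]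
            simp [mul_assoc]
        _ = N 0 b 0 0 f d := by rw [r1110]; simp [N, xG_zero]
    refine Or.inr (hrel.trans (rel_of_a hb ?_))
    obtain ⟨k, -, hk⟩ := hrel
    exact sq_conj h2 hk
  subst hb
  by_cases hc : c = 0
  swap
  · refine Or.inr ((rel_of_conj (h := N 0 (d / c) (f / c) 0 0 0)
      (h' := N 0 0 (f / c) 0 0 0 * N 0 (d / c) 0 0 0 0) (y := X 9 c) (N_mem _ _ _ _ _ _) ?_ ?_).trans
      (rel_scale 0 9 (by decide) hc))
    · g2_norm
      simp [CharTwo.add_self_eq_zero, xG_zero]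
    · g2_norm
      set s := d / c with hs
      set r := f / c with hr
      have h3 : s ^ 2 * r + (s * c + (d + s ^ 2 * r)) = 0 := by
        rw [hs, div_mul_cancel₀ _ hc]
        linear_combination ((d / c) ^ 2 * r + d) * CharTwo.two_eq_zero (R := F)
      have h4 : s * r ^ 2 + (r * c + (f + s * r ^ 2)) = 0 := by
        rw [hr, div_mul_cancel₀ _ hc]
        linear_combination (s * (f / c) ^ 2 + f) * CharTwo.two_eq_zero (R := F)
      simp [CharTwo.add_self_eq_zero, xG_zero, h3, h4]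
  subst hc
  left
  by_cases hd : d = 0
  · subst hd
    have hf : f ≠ 0 := fun hf => h1 (by rw [hf, N_zero])
    rw [N_eleven]
    exact rel_scale 1 11 (by decide) hf
  · refine (rel_of_conj (h := N (f / d) 0 0 0 0 0) (h' := N (f / d) 0 0 0 0 0) (y := X 10 d)
      (N_mem _ _ _ _ _ _) ?_ ?_).trans (rel_ten hd)
    · simp [N, xG_zero, xG_mul, CharTwo.add_self_eq_zero]
    · g2_norm
      simp [CharTwo.add_self_eq_zero, xG_zero, div_mul_cancel₀ _ hd]

/-- Conjugating `x₉(γ) x₁₁(φ)` by `u ∈ U` keeps the coordinate at the short root. -/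
theorem conj_short (γ φ : F) {u : GL chevG2.Idx F} (hu : u ∈ chevG2.posUnipotent F) :
    ∃ δ ψ, N 0 0 0 γ 0 φ * u = u * N 0 0 0 γ δ ψ := by
  obtain ⟨e, a, b, c, d, f, rfl⟩ := exists_N hu
  refine ⟨γ * a, γ * b + φ, ?_⟩
  g2_norm
  simp [xG_zero]
  ring_nf

theorem long_iff {n : GL chevG2.Idx F} {σ : Equiv.Perm (Fin chevG2.nroots)}
    {η : Fin chevG2.nroots → F} (hn : n ∈ chevG2.monomialSubgroup F) (hA : Acts full.cert n σ η)
    (r : Fin chevG2.nroots) : crd auxG2 0 (σ r) % 3 = 0 ↔ crd auxG2 0 r % 3 = 0 := by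
  obtain ⟨l, t, ht, rfl⟩ := (mem_monomial_iff full).1 hn
  rw [diagonalSubgroup_eq_range full] at ht
  obtain ⟨c, rfl⟩ := ht
  obtain ⟨η', hη'⟩ := acts_nW (F := F) full l
  obtain rfl : σ = wPerm full.cert l := by simpa using hA.perm_eq (hη'.mul (acts_torus full.cert c))
  clear hA hη' hn
  induction l with
  | nil => simp
  | cons i l ih =>
    rw [wPerm_cons, Equiv.Perm.mul_apply, rfPerm_apply, ← ih]
    show crd auxG2 0 (chevG2.reflectRoot i (wPerm full.cert l r)) % 3 = 0 ↔ _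
    generalize wPerm full.cert l r = x
    revert i x
    decide

/-- The image of a short root element under a monomial element, inside `U`. -/
theorem short_image {n : GL chevG2.Idx F} (hn : n ∈ chevG2.monomialSubgroup F) {σ : Equiv.Perm (Fin chevG2.nroots)}
    {η : Fin chevG2.nroots → F} (hA : Acts full.cert n σ η) {α β γ δ φ : F}
    (h : n * N 0 0 0 1 α β * n⁻¹ = N 0 0 0 γ δ φ) : σ 9 = 9 ∧ η 9 = γ := by
  have hlong : ∀ k : Fin chevG2.nroots, ((k : ℕ) = 10 ∨ (k : ℕ) = 11) → ∀ v : F, ∃ w,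
      n * X k w * n⁻¹ ∈ chevG2.negUnipotent F ∧
      n * X k (v + w) * n⁻¹ ∈ rootsU chevG2 F {r | r ∈ [6, 10, 11]} := by
    intro k hk v
    rcases full.pos.pos_or_neg (σ k).isLt with hp | hneg
    · refine ⟨0, by simp [xG_zero], ?_⟩
      rw [hA.conj]
      refine xG_mem_rootsU full.cert ?_ _
      have hc2 : crd auxG2 0 (σ k) % 3 = 0 := (long_iff hn hA k).2 (by
        rcases hk with e | e <;> rw [e] <;> decide)
      revert hp hc2
      rw [isPos_iff]
      generalize σ k = x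
      revert x
      decide
    · refine ⟨v, ?_, by simp [CharTwo.add_self_eq_zero, xG_zero]⟩
      rw [hA.conj]
      exact xG_mem_rootsU (S := {r | chevG2.IsNegRoot r}) full.cert hneg _
  obtain ⟨w10, hw10, hp10⟩ := hlong 10 (Or.inl rfl) α
  obtain ⟨w11, hw11, hp11⟩ := hlong 11 (Or.inr rfl) β
  rw [show ((10 : Fin chevG2.nroots) : ℕ) = 10 from rfl] at hw10 hp10
  rw [show ((11 : Fin chevG2.nroots) : ℕ) = 11 from rfl] at hw11 hp11
  set L := n * X 10 (α + w10) * n⁻¹ * (n * X 11 (β + w11) * n⁻¹) with hL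
  have hLmem : L ∈ rootsU chevG2 F {r | r ∈ [6, 10, 11]} := mul_mem hp10 hp11
  have hLU : L ∈ chevG2.posUnipotent F :=
    rootsU_mono (T := {r | chevG2.IsPosRoot r})
      (fun r hr => isPos_iff.2 (by simp at hr ⊢; omega)) hLmem
  have hLe : L = n * N 0 0 0 0 (α + w10) (β + w11) * n⁻¹ := by
    rw [hL]; simp [N, xG_zero, mul_assoc]
  have hsplit : n * N 0 0 0 1 w10 w11 * n⁻¹ = N 0 0 0 γ δ φ * L⁻¹ := by
    rw [eq_mul_inv_iff_mul_eq, hLe, show n * N 0 0 0 1 w10 w11 * n⁻¹ *
      (n * N 0 0 0 0 (α + w10) (β + w11) * n⁻¹) =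
      n * (N 0 0 0 1 w10 w11 * N 0 0 0 0 (α + w10) (β + w11)) * n⁻¹ by group, ← h]
    congr 2
    g2_norm
    simp [xG_zero]
    rw [show w10 + (α + w10) = α by linear_combination w10 * CharTwo.two_eq_zero (R := F),
      show w11 + (β + w11) = β by linear_combination w11 * CharTwo.two_eq_zero (R := F)]
  have hbot : ∀ {x : GL chevG2.Idx F}, x ∈ chevG2.posUnipotent F → x ∈ chevG2.negUnipotent F → x = 1 := by
    intro x hx hx'
    rw [← Subgroup.mem_bot, ← borel_inf_negUnipotent full]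
    exact ⟨Subgroup.mem_sup_left hx, hx'⟩
  have hsum : N 0 0 0 γ δ φ * L⁻¹ ∈ chevG2.posUnipotent F := mul_mem (N_mem _ _ _ _ _ _) (inv_mem hLU)
  have h9 : ((9 : Fin chevG2.nroots) : ℕ) = 9 := rfl
  have hpos : chevG2.IsPosRoot (σ 9) := by
    refine (full.pos.pos_or_neg (σ 9).isLt).resolve_right fun hneg => ?_
    have hneg' : n * N 0 0 0 1 w10 w11 * n⁻¹ ∈ chevG2.negUnipotent F := by
      rw [show n * N 0 0 0 1 w10 w11 * n⁻¹ =
        n * X ((9 : Fin chevG2.nroots) : ℕ) 1 * n⁻¹ * (n * X 10 w10 * n⁻¹) * (n * X 11 w11 * n⁻¹) by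
          simp [N, xG_zero, mul_assoc, h9, show chevG2.nroots = 12 from rfl]]
      refine mul_mem (mul_mem ?_ hw10) hw11
      rw [hA.conj]
      exact xG_mem_rootsU (S := {r | chevG2.IsNegRoot r}) full.cert hneg _
    have h1 := hbot (hsplit ▸ hsum) hneg'
    rw [conj_eq_one_iff, ← N_zero] at h1
    exact one_ne_zero (N_inj h1).2.2.2.1
  have hlw : n * N 0 0 0 0 w10 w11 * n⁻¹ = 1 := by
    refine hbot ?_ ?_
    · rw [show n * N 0 0 0 0 w10 w11 * n⁻¹ = (n * X ((9 : Fin chevG2.nroots) : ℕ) 1 * n⁻¹)⁻¹ *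
        (n * N 0 0 0 1 w10 w11 * n⁻¹) by simp [N, xG_zero, mul_assoc, h9, show chevG2.nroots = 12 from rfl], hA.conj, hsplit]
      exact mul_mem (inv_mem (xG_mem_rootsU (S := {r | chevG2.IsPosRoot r}) full.cert hpos _)) hsum
    · rw [show n * N 0 0 0 0 w10 w11 * n⁻¹ = n * X 10 w10 * n⁻¹ * (n * X 11 w11 * n⁻¹) by
        simp [N, xG_zero, mul_assoc]]
      exact mul_mem hw10 hw11
  rw [conj_eq_one_iff, ← N_zero] at hlw
  obtain ⟨-, -, -, -, rfl, rfl⟩ := N_inj hlw
  rw [show (N 0 0 0 1 0 0 : GL chevG2.Idx F) = X ((9 : Fin chevG2.nroots) : ℕ) 1 by rw [N_nine, h9],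
    hA.conj, mul_one] at hsplit
  have hcl : IsClosedRoots chevG2 {r | r ∈ [6, 10, 11]} := by
    refine ⟨fun r hr => isPos_iff.2 (by simp at hr ⊢; omega), ?_⟩
    intro r hr s hs hne c hc
    revert hne c
    simp only [List.mem_cons, List.not_mem_nil, or_false, Set.mem_ofPred_eq] at hr hs
    rcases hr with rfl | rfl | rfl <;> rcases hs with rfl | rfl | rfl <;> decide
  obtain ⟨t, -, ht⟩ := exists_prodU full.toStd (L := [6, 10, 11]) (by decide) hcl (inv_mem hLmem)
  have hcoord : ∃ e' d' f', N 0 0 0 γ δ φ * L⁻¹ = N e' 0 0 γ d' f' := by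
    refine ⟨t 6, δ + t 10, δ * t 6 + (φ + t 11), ?_⟩
    rw [ht]
    simp only [prodU, List.map_cons, List.map_nil, List.prod_cons, List.prod_nil]
    g2_norm
    simp [xG_zero]
    ring_nf
  obtain ⟨e', d', f', he⟩ := hcoord
  rw [he] at hsplit
  have h7 : ∀ r : Fin chevG2.nroots, chevG2.IsPosRoot r → r.1 = 6 ∨ r.1 = 7 ∨ r.1 = 8 ∨ r.1 = 9 ∨ r.1 = 10 ∨ r.1 = 11 :=
    fun r hr => by simpa using isPos_iff.1 hr
  have hne := hA.ne_zero 9
  have hshort : crd auxG2 0 (σ 9) % 3 ≠ 0 := fun h0 => by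
    have := (long_iff hn hA 9).1 h0
    revert this
    decide
  rcases h7 (σ 9) hpos with e | e | e | e | e | e
  · exact absurd (by rw [e]; decide) hshort
  · have e2 : (N 0 (η 9) 0 0 0 0 : GL chevG2.Idx F) = N e' 0 0 γ d' f' := by
      rw [show N 0 (η 9) 0 0 0 0 = X 7 (η 9) by simp [N, xG_zero], ← e]
      exact hsplit
    exact absurd (N_inj e2).2.1 hne
  · have e2 : (N 0 0 (η 9) 0 0 0 : GL chevG2.Idx F) = N e' 0 0 γ d' f' := by
      rw [show N 0 0 (η 9) 0 0 0 = X 8 (η 9) by simp [N, xG_zero], ← e]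
      exact hsplit
    exact absurd (N_inj e2).2.2.1 hne
  · have e2 : (N 0 0 0 (η 9) 0 0 : GL chevG2.Idx F) = N e' 0 0 γ d' f' := by
      rw [N_nine, ← e]
      exact hsplit
    exact ⟨Fin.ext e, (N_inj e2).2.2.2.1⟩
  · exact absurd (by rw [e]; decide) hshort
  · exact absurd (by rw [e]; decide) hshort

end CfsgLib.OutAut.G2Two
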