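import Mathlib
import Cfsg.Agent.Lib.OutAut.G2Two

/-!
The centraliser of a short root involution of `G₂` in characteristic two, and the two classes are
different.
-/

set_option autoImplicit false
set_option linter.unusedSectionVars false
set_option linter.unusedSimpArgs false
set_option maxRecDepth 10000

namespace CfsgLib.OutAut.G2Two

open Cfsg.Lie CfsgLib.Chevalley

local instance neZeroRankC : NeZero chevG2.rank := ⟨by decide⟩

local instance neZeroRootsC : NeZero chevG2.nroots := ⟨by decide⟩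

variable {F : Type*} [Field F] [CharP F 2]

theorem sum_rank (f : Fin chevG2.rank → ℤ) : ∑ j : Fin chevG2.rank, f j = f 0 + f 1 :=
  Fin.sum_univ_two f

theorem not_rel_eleven_nine : ¬ Rel (X 9 (1 : F)) (X 11 1) := by
  rintro ⟨g, hg, hgz⟩
  obtain ⟨u, hu, n, hn, v, hv, rfl⟩ := exists_bnu full hg
  obtain ⟨σ, η, hA⟩ := exists_acts full hn
  obtain ⟨δ, ψ, hδ⟩ := conj_short (1 : F) 0 (inv_mem hv)
  obtain ⟨δ', ψ', hδ'⟩ := conj_short (0 : F) 1 hu
  rw [N_nine] at hδ
  rw [N_eleven] at hδ'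
  have h1 : v * X 9 1 * v⁻¹ = N 0 0 0 1 δ ψ := by rw [mul_assoc, hδ, mul_inv_cancel_left]
  have h2 : u⁻¹ * X 11 1 * u = N 0 0 0 0 δ' ψ' := by rw [mul_assoc, hδ', inv_mul_cancel_left]
  have h3 : n * N 0 0 0 1 δ ψ * n⁻¹ = N 0 0 0 0 δ' ψ' := by
    rw [← h1, ← h2, ← hgz]; group
  exact hA.ne_zero 9 (short_image hn hA h3).2

theorem commute_short {g : GL chevG2.Idx F}
    (hg : g ∈ rootsU chevG2 F {r | r ∈ [9, 10, 11, 6, 5]}) : Commute g (X 9 1) := by
  suffices hle : rootsU chevG2 F {r | r ∈ [9, 10, 11, 6, 5]} ≤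
      Subgroup.centralizer ({X 9 (1 : F)} : Set (GL chevG2.Idx F)) from
    Subgroup.mem_centralizer_singleton_iff.1 (hle hg)
  rw [rootsU_le_iff full.cert]
  intro r hr t
  rw [Subgroup.mem_centralizer_singleton_iff]
  simp only [List.mem_cons, List.not_mem_nil, or_false, Set.mem_ofPred_eq] at hr
  rcases hr with rfl | rfl | rfl | rfl | rfl
  · rw [xG_mul, xG_mul, add_comm]
  · have := r109 (F := F) 1 t 1
    simpa using this
  · have := r119 (F := F) 1 t 1
    simpa using this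
  · have := r96 (F := F) t 1 1
    simpa using this.symm
  · obtain ⟨n, -, hB⟩ := acts_simple (F := F) (1 : Fin chevG2.rank)
    have h6 := hB (6 : Fin chevG2.nroots) t
    have h9 := hB (9 : Fin chevG2.nroots) 1
    rw [show chevG2.reflectRoot ((1 : Fin chevG2.rank) : ℕ) ((6 : Fin chevG2.nroots) : ℕ) = 5 by decide,
      show ((6 : Fin chevG2.nroots) : ℕ) = 6 from rfl] at h6
    rw [show chevG2.reflectRoot ((1 : Fin chevG2.rank) : ℕ) ((9 : Fin chevG2.nroots) : ℕ) = 9 by decide,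
      show ((9 : Fin chevG2.nroots) : ℕ) = 9 from rfl] at h9
    have := r96 (F := F) t 1 1
    simp only [mul_one] at this
    calc X 5 t * X 9 1 = (n * X 6 t * n⁻¹) * (n * X 9 1 * n⁻¹) := by rw [h6, h9]
      _ = n * (X 9 1 * X 6 t) * n⁻¹ := by rw [this]; group
      _ = (n * X 9 1 * n⁻¹) * (n * X 6 t * n⁻¹) := by group
      _ = X 9 1 * X 5 t := by rw [h6, h9]

/-- A monomial element fixing the short root with parameter one. -/
theorem monomial_short {n : GL chevG2.Idx F} (hn : n ∈ chevG2.monomialSubgroup F)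
    {σ : Equiv.Perm (Fin chevG2.nroots)} {η : Fin chevG2.nroots → F} (hA : Acts full.cert n σ η)
    (h9 : σ 9 = 9) (hη : η 9 = 1) :
    n ∈ rootsU chevG2 F {r | r ∈ [9, 10, 11, 6, 5]} ∧ invSet chevG2 σ ⊆ {6} := by
  set K := rootsU chevG2 F {r | r ∈ [9, 10, 11, 6, 5]} with hK
  have hX : ∀ r ∈ [9, 10, 11, 6, 5], ∀ t : F, X r t ∈ K := fun r hr t => xG_mem_rootsU full.cert hr t
  have hnb : ∀ c : F, nG full.cert (chevG2.simple ((1 : Fin chevG2.rank) : ℕ)) c ∈ K := fun c =>
    mul_mem (mul_mem (hX 6 (by simp) c) (hX 5 (by simp) _)) (hX 6 (by simp) c)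
  have hhb : ∀ c : Fˣ, torusHom chevG2 F (Pi.mulSingle (1 : Fin chevG2.rank) c) ∈ K := fun c => by
    rw [torusHom_mulSingle full.cert]
    exact mul_mem (hnb _) (hnb _)
  have diag : ∀ {m : GL chevG2.Idx F} {τ : Equiv.Perm (Fin chevG2.nroots)} {θ : Fin chevG2.nroots → F},
      m ∈ chevG2.monomialSubgroup F → Acts full.cert m τ θ →
      (∀ i, chevG2.IsPosRoot (τ (smp full.cert i))) → θ 9 = 1 → m ∈ K ∧ τ = 1 := by
    intro m τ θ hm hB hp hθ
    have ht := mem_diagonal_of_perm full hm hB hp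
    rw [diagonalSubgroup_eq_range full] at ht
    obtain ⟨c, rfl⟩ := ht
    have hT := acts_torus full.cert c
    refine ⟨?_, hB.perm_eq hT⟩
    have e : θ 9 = ((chi chevG2 ((9 : Fin chevG2.nroots) : ℕ) c : Fˣ) : F) := by
      have h1 := hB.col (Sum.inr (τ 9)) 9
      rw [if_pos rfl, hT.col, hB.perm_eq hT, if_pos rfl] at h1
      exact h1.symm
    have h0 : c 0 = 1 := by
      rw [hθ] at e
      have e' : chi chevG2 ((9 : Fin chevG2.nroots) : ℕ) c = c 0 := by
        show ∏ j : Fin chevG2.rank, c j ^ chevG2.cartan j ((9 : Fin chevG2.nroots) : ℕ) = c 0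
        rw [Finset.prod_eq_single (0 : Fin chevG2.rank)]
        · rw [show chevG2.cartan ((0 : Fin chevG2.rank) : ℕ) ((9 : Fin chevG2.nroots) : ℕ) = 1 by decide,
            zpow_one]
        · intro j _ hj
          rw [show chevG2.cartan (j : ℕ) ((9 : Fin chevG2.nroots) : ℕ) = 0 by revert hj; revert j; decide,
            zpow_zero]
        · simp
      rw [e'] at e
      exact Units.val_eq_one.1 e.symm
    have hc : c = Pi.mulSingle (1 : Fin chevG2.rank) (c 1) := by
      funext j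
      have hj : j = 0 ∨ j = 1 := by revert j; decide
      rcases hj with rfl | rfl
      · rw [h0, Pi.mulSingle_eq_of_ne (by decide)]
      · rw [Pi.mulSingle_eq_same]
    rw [hc]
    exact hhb _
  -- the possible images of the fundamental roots
  obtain ⟨x, hx⟩ : ∃ x, x = σ (smp full.cert 0) := ⟨_, rfl⟩
  obtain ⟨y, hy⟩ : ∃ y, y = σ (smp full.cert 1) := ⟨_, rfl⟩
  have hxy : (x : ℕ) = 7 ∧ (y : ℕ) = 6 ∨ (x : ℕ) = 8 ∧ (y : ℕ) = 5 := by
    have l0 := hA.lin 0 (by decide) 9
    have l1 := hA.lin 1 (by decide) 9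
    have m0 := hA.lin 0 (by decide) 8
    have m1 := hA.lin 1 (by decide) 8
    rw [sum_rank, h9] at l0 l1
    rw [sum_rank] at m0 m1
    rw [show (σ (smp full.cert 0)) = x from hx.symm, show (σ (smp full.cert 1)) = y from hy.symm] at l0 l1 m0 m1
    revert l0 l1 m0 m1
    generalize σ 8 = z
    clear hx hy
    revert x y z
    decide +kernel
  rcases hxy with ⟨hx7, hy6⟩ | ⟨hx8, hy5⟩
  · obtain ⟨hmem, hperm⟩ := diag hn hA (fun i => by
      have hi : i = 0 ∨ i = 1 := by revert i; decide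
      rcases hi with rfl | rfl
      · rw [← hx, hx7]; exact isPos_iff.2 (by simp)
      · rw [← hy, hy6]; exact isPos_iff.2 (by simp)) hη
    refine ⟨hmem, ?_⟩
    rintro r ⟨hr, s, rfl, hneg⟩
    rw [hperm, Equiv.Perm.one_apply] at hneg
    exact absurd hneg (full.pos_not_neg hr)
  · have hB := acts_nG_simple (F := F) full (1 : Fin chevG2.rank) one_ne_zero
    have hcomp := hA.mul hB
    have h90 : rfPerm full.cert (1 : Fin chevG2.rank) 9 = 9 := by decide +kernel
    obtain ⟨hmem, hperm⟩ := diag (Subgroup.mul_mem _ hn (nG_simple_mem_monomial full 1)) hcomp (fun i => by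
      have hi : i = 0 ∨ i = 1 := by revert i; decide
      rcases hi with rfl | rfl
      · rw [Equiv.Perm.mul_apply]
        have l0 := hA.lin 0 (by decide) (rfPerm full.cert (1 : Fin chevG2.rank) (smp full.cert 0))
        have l1 := hA.lin 1 (by decide) (rfPerm full.cert (1 : Fin chevG2.rank) (smp full.cert 0))
        rw [sum_rank, ← hx, ← hy] at l0 l1
        have hx' : x = (8 : Fin chevG2.nroots) := Fin.ext hx8
        have hy' : y = (5 : Fin chevG2.nroots) := Fin.ext hy5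
        rw [hx', hy'] at l0 l1
        revert l0 l1
        generalize σ (rfPerm full.cert (1 : Fin chevG2.rank) (smp full.cert 0)) = z
        rw [isPos_iff]
        revert z
        decide +kernel
      · rw [Equiv.Perm.mul_apply, rfPerm_apply, rf_smp, hA.neg, ← hy]
        show chevG2.IsPosRoot (chevG2.neg (y : ℕ))
        rw [hy5]
        exact isPos_iff.2 (by decide))
      (by
        show η (rfPerm full.cert (1 : Fin chevG2.rank) 9) *
          (((etaAt auxG2 ((1 : Fin chevG2.rank) : ℕ) ((9 : Fin chevG2.nroots) : ℕ) : ℤ) : F) * (1 : F) ^ _) = 1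
        rw [h90, hη, one_mul, one_zpow, mul_one]
        rcases (refl_spec full.cert (1 : Fin chevG2.rank).isLt (9 : Fin chevG2.nroots).isLt).1 with e | e <;>
          rw [e] <;> simp [CharTwo.neg_eq])
    refine ⟨by
      rw [← mul_inv_cancel_right n (nG full.cert (chevG2.simple ((1 : Fin chevG2.rank) : ℕ)) 1)]
      exact mul_mem hmem (inv_mem (hnb 1)), ?_⟩
    have hσ : σ = rfPerm full.cert (1 : Fin chevG2.rank) := by
      rw [← mul_one σ, ← rfPerm_mul_self full.cert (1 : Fin chevG2.rank), ← mul_assoc, hperm, one_mul]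
    rintro r ⟨hr, s, rfl, hneg⟩
    rw [hσ, full.pos.isNeg_iff] at hneg
    rw [isPos_iff] at hr
    show (s : ℕ) = 6
    clear hσ hperm hcomp
    revert hr hneg
    revert s
    decide +kernel

/-- The centraliser of `x₉(1)`. -/
theorem centralizer_short :
    chevG2.group F ⊓ Subgroup.centralizer {X 9 (1 : F)} = rootsU chevG2 F {r | r ∈ [9, 10, 11, 6, 5]} := by
  refine le_antisymm ?_ (le_inf (rootsU_le_group full.cert _) fun g hg =>
    Subgroup.mem_centralizer_singleton_iff.2 (commute_short hg).eq)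
  rintro g ⟨hg, hgc⟩
  have hgc' := Subgroup.mem_centralizer_singleton_iff.1 hgc
  obtain ⟨u, hu, n, hn, σ, η, hA, v, hv, rfl⟩ := exists_canonical full hg
  obtain ⟨δ, ψ, hδ⟩ := conj_short (1 : F) 0
    (inv_mem (rootsU_mono (T := {r | chevG2.IsPosRoot r}) (fun r hr => hr.1) hv))
  obtain ⟨δ', ψ', hδ'⟩ := conj_short (1 : F) 0 hu
  rw [N_nine] at hδ hδ'
  have h1 : v * X 9 1 * v⁻¹ = N 0 0 0 1 δ ψ := by rw [mul_assoc, hδ, mul_inv_cancel_left]
  have h2 : u⁻¹ * X 9 1 * u = N 0 0 0 1 δ' ψ' := by rw [mul_assoc, hδ', inv_mul_cancel_left]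
  have h3 : n * N 0 0 0 1 δ ψ * n⁻¹ = N 0 0 0 1 δ' ψ' := by
    rw [← h1, ← h2]
    calc n * (v * X 9 1 * v⁻¹) * n⁻¹ = u⁻¹ * (u * n * v * X 9 1) * v⁻¹ * n⁻¹ := by group
      _ = u⁻¹ * X 9 1 * u := by rw [hgc']; group
  obtain ⟨h9, hη⟩ := short_image hn hA h3
  obtain ⟨hnK, hinv⟩ := monomial_short hn hA h9 hη
  have hvK : v ∈ rootsU chevG2 F {r | r ∈ [9, 10, 11, 6, 5]} :=
    rootsU_mono (fun r hr => by rw [Set.mem_singleton_iff.1 (hinv hr)]; simp) hv
  refine mul_mem (mul_mem ?_ hnK) hvK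
  have hcu : u * X 9 1 = X 9 1 * u := by
    have hnv := (commute_short (mul_mem hnK hvK)).eq
    calc u * X 9 1 = u * (X 9 1 * (n * v)) * (n * v)⁻¹ := by group
      _ = (u * n * v * X 9 1) * (n * v)⁻¹ := by rw [← hnv]; group
      _ = X 9 1 * u := by rw [hgc']; group
  obtain ⟨e, a, b, c, d, f, rfl⟩ := exists_N hu
  have hh : N 0 0 0 (1 : F) 0 0 * N e a b c d f = N e a b c d f * N 0 0 0 1 0 0 := by
    rw [N_nine]; exact hcu.symm
  have hl : N 0 0 0 (1 : F) 0 0 * N e a b c d f = N e a b (1 + c) (a + d) (b + f) := by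
    g2_norm
    simp [xG_zero]
  have hr : N e a b c d f * N 0 0 0 (1 : F) 0 0 = N e a b (c + 1) d f := by
    g2_norm
    simp [xG_zero]
  rw [hl, hr] at hh
  obtain ⟨-, -, -, -, h5, h6⟩ := N_inj hh
  obtain rfl : a = 0 := by simpa using h5
  obtain rfl : b = 0 := by simpa using h6
  have hX : ∀ r ∈ [9, 10, 11, 6, 5], ∀ t : F,
      X r t ∈ rootsU chevG2 F {r | r ∈ [9, 10, 11, 6, 5]} := fun r hr t => xG_mem_rootsU full.cert hr t
  simp only [N, xG_zero, one_mul]
  exact mul_mem (hX 6 (by simp) e) (mul_mem (hX 9 (by simp) c) (mul_mem (hX 10 (by simp) d)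
    (mul_mem (hX 11 (by simp) f) (one_mem _))))

end CfsgLib.OutAut.G2Two
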