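import Mathlib
import Cfsg.Agent.Lib.Classes.InvolutionOrth
import Cfsg.Agent.Lib.Classes.InvolutionForms

/-!
Involutions of orthogonal groups in characteristic two: fusion under the symplectic group of the
polar form and splitting of classes in `Ω`.
-/

set_option autoImplicit false
set_option linter.unusedSectionVars false

namespace CfsgLib.OutAut

open Module QuadraticMap CfsgLib.OrthGen CfsgLib.Forms CfsgLib.Classes CfsgLib.Classes.InvTwo

variable {F : Type*} [Field F] [Finite F] [CharP F 2] {ι : Type} [Fintype ι] [DecidableEq ι]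

theorem isConj_iff_preserving {f : (ι → F) → F} (Q : QuadraticForm F (ι → F)) (hQf : ∀ v, Q v = f v)
    (hQ : (polarBilin Q).Nondegenerate) {t s : Cfsg.isometryGroup F f} (ht : orderOf t = 2)
    (hs : orderOf s = 2) :
    IsConj t s ↔ ∃ g ∈ Cfsg.preserving (Units.coeHom (Matrix ι ι F))
      (fun u v => f (u + v) - f u - f v), g * (t : GL ι F) * g⁻¹ = (s : GL ι F) := by
  obtain rfl : ⇑Q = f := funext hQf
  constructor
  · intro h
    obtain ⟨c, hc⟩ := isConj_iff.1 h
    refine ⟨(c : GL ι F), fun u v => ?_, congrArg Subtype.val hc⟩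
    exact pf_act c u v
  · rintro ⟨g, hg, hgts⟩
    let e : (ι → F) ≃ₗ[F] (ι → F) := LinearEquiv.ofLinearMap
      (Matrix.toLin' (g : Matrix ι ι F)) (Matrix.toLin' ((g⁻¹ : GL ι F) : Matrix ι ι F))
      (by rw [← Matrix.toLin'_mul, ← Units.val_mul, mul_inv_cancel, Units.val_one, Matrix.toLin'_one])
      (by rw [← Matrix.toLin'_mul, ← Units.val_mul, inv_mul_cancel, Units.val_one, Matrix.toLin'_one])
    have he : ∀ v, e v = (g : Matrix ι ι F).mulVec v := fun v => Matrix.toLin'_apply _ v
    have h2 : (g : Matrix ι ι F) * ((t : GL ι F) : Matrix ι ι F) =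
        ((s : GL ι F) : Matrix ι ι F) * (g : Matrix ι ι F) := by
      rw [← Units.val_mul, ← Units.val_mul]
      exact congrArg Units.val (mul_inv_eq_iff_eq_mul.1 hgts)
    exact (isConj_iff_invariants hQ ht hs).2 (invariants_eq (B := polarBilin Q) e
      (fun u v => by rw [he, he]; exact hg u v) (fun v => by
        rw [subOne_apply, subOne_apply, map_sub, he, he]
        show (g : Matrix ι ι F).mulVec (((t : GL ι F) : Matrix ι ι F).mulVec v) - _ =
          ((s : GL ι F) : Matrix ι ι F).mulVec ((g : Matrix ι ι F).mulVec v) - _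
        rw [Matrix.mulVec_mulVec, Matrix.mulVec_mulVec, h2]))

variable {Q : QuadraticForm F (ι → F)}

theorem range_subOne_of_intertwine {c g g' : Cfsg.isometryGroup F (⇑Q)} (h : c * g = g' * c) :
    LinearMap.range (subOne g') = Classes.mapSub c (LinearMap.range (subOne g)) := by
  ext y
  constructor
  · rintro ⟨v, rfl⟩
    exact ⟨subOne g (act Q c⁻¹ v), LinearMap.mem_range_self _ _,
      (subOne_intertwine h _).trans (by rw [act_act_inv])⟩
  · rintro ⟨_, ⟨v, rfl⟩, rfl⟩
    exact ⟨act Q c v, (subOne_intertwine h v).symm⟩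

theorem conj_omega_of_not_full (hQ : (polarBilin Q).Nondegenerate) (hgen : reflClosure Q = ⊤)
    {t s : Cfsg.isometryGroup F (⇑Q)} (ht : orderOf t = 2) (hconj : IsConj t s)
    (h : ¬(IsAltType (polarBilin Q) (subOne t) ∧
      2 * finrank F (LinearMap.range (subOne t)) = Fintype.card ι)) :
    ∃ g ∈ Cfsg.Omega F (⇑Q), g * t * g⁻¹ = s := by
  obtain ⟨c, hc⟩ := isConj_iff.1 hconj
  by_cases hd : dicksonSign c = 1
  · exact ⟨c, (mem_omega_iff_of_gen hQ hgen c).2 hd, hc⟩
  · obtain ⟨r, hr, hr1⟩ := exists_odd_commute hQ ht h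
    refine ⟨c * r, (mem_omega_iff_of_gen hQ hgen _).2 ?_, ?_⟩
    · rw [dicksonSign_mul hQ hgen, hr1, (Int.units_eq_one_or _).resolve_left hd]; rfl
    · calc c * r * t * (c * r)⁻¹ = c * (r * t) * r⁻¹ * c⁻¹ := by group
        _ = s := by rw [hr.eq, ← hc]; group

theorem conj_omega_iff_of_full (hQ : (polarBilin Q).Nondegenerate) (hgen : reflClosure Q = ⊤)
    {t s : Cfsg.isometryGroup F (⇑Q)} (ht : orderOf t = 2) (htO : t ∈ Cfsg.Omega F (⇑Q))
    (hconj : IsConj t s) (ha : IsAltType (polarBilin Q) (subOne t))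
    (hr : 2 * finrank F (LinearMap.range (subOne t)) = Fintype.card ι) :
    (∃ g ∈ Cfsg.Omega F (⇑Q), g * t * g⁻¹ = s) ↔
      Even (finrank F ↥(LinearMap.range (subOne t) ⊓ LinearMap.range (subOne s))) := by
  set U := LinearMap.range (subOne t) with hU
  have hmax : IsMaxSingular Q U := ⟨(orderOf_two_spec ht).1.singular_range ha, hr⟩
  have heven : Even (finrank F U) := by
    have h1 := (mem_omega_iff_of_gen hQ hgen t).1 htO
    exact (neg_one_pow_eq_one_iff_even (by decide)).1 h1
  have key : ∀ g, g * t * g⁻¹ = s → (dicksonSign g = 1 ↔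
      Even (finrank F ↥(U ⊓ LinearMap.range (subOne s)))) := by
    intro g hg
    rw [range_subOne_of_intertwine (mul_inv_eq_iff_eq_mul.1 hg), ← even_sub_finrank_iff hQ hgen hmax g,
      Nat.even_sub (Submodule.finrank_mono inf_le_left)]
    exact ⟨fun h => h.1 heven, fun h => ⟨fun _ => h, fun _ => heven⟩⟩
  constructor
  · rintro ⟨g, hg, hgts⟩
    exact (key g hgts).1 ((mem_omega_iff_of_gen hQ hgen g).1 hg)
  · intro h
    obtain ⟨c, hc⟩ := isConj_iff.1 hconj
    exact ⟨c, (mem_omega_iff_of_gen hQ hgen c).2 ((key c hc).2 h), hc⟩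

theorem isAltType_iff {t : Cfsg.isometryGroup F (⇑Q)} (ht : orderOf t = 2) :
    IsAltType (polarBilin Q) (subOne t) ↔
      ∀ v, Q (v + Matrix.mulVec ((t : GL ι F) : Matrix ι ι F) v) = 0 := by
  refine forall_congr' fun v => ?_
  have h : v + act Q t v = subOne t v := by
    rw [subOne_apply]; funext i
    simp [CharTwo.sub_eq_add, add_comm]
  rw [← (orderOf_two_spec ht).1.value, ← h]
  rfl

end CfsgLib.OutAut
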