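import Mathlib
import Cfsg.Agent.Lib.OutAut.NilpotentArith

/-!
The orders of nilpotent subgroups of symmetric and alternating groups.
-/

set_option autoImplicit false
set_option linter.style.haveILetI false
set_option linter.unusedSectionVars false

namespace CfsgLib.OutAut

open Equiv NilArith
open scoped Classical Pointwise

universe u

variable {α : Type u} [Fintype α] [DecidableEq α]

/-- Every element is a product with a factor in a normal Sylow subgroup and one centralising it. -/
theorem sylow_sup_centralizer {G : Type*} [Group G] [Finite G] (hG : Group.IsNilpotent G) {p : ℕ}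
    [Fact p.Prime] (P : Sylow p G) :
    (P : Subgroup G) ⊔ Subgroup.centralizer ((P : Subgroup G) : Set G) = ⊤ := by
  have hnorm : ∀ (q : ℕ) [Fact q.Prime] (Q : Sylow q G), (Q : Subgroup G).Normal := fun q _ Q =>
    ((Group.isNilpotent_of_finite_tfae (G := G)).out 0 3 rfl rfl).1 hG q inferInstance Q
  by_contra hne
  have h1 : ((P : Subgroup G) ⊔ Subgroup.centralizer ((P : Subgroup G) : Set G)).index ≠ 1 :=
    fun h => hne (Subgroup.index_eq_one.1 h)
  obtain ⟨q, hq, hdvd⟩ := Nat.exists_prime_and_dvd h1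
  haveI : Fact q.Prime := ⟨hq⟩
  obtain ⟨Q⟩ : Nonempty (Sylow q G) := inferInstance
  haveI := hnorm q Q
  haveI := hnorm p P
  have hle : (Q : Subgroup G) ≤
      (P : Subgroup G) ⊔ Subgroup.centralizer ((P : Subgroup G) : Set G) := by
    by_cases hqp : q = p
    · subst hqp
      haveI : Subsingleton (Sylow q G) := by
        haveI := Sylow.unique_of_normal P (hnorm q P)
        infer_instance
      rw [Subsingleton.elim Q P]
      exact le_sup_left
    · intro x hx
      refine Subgroup.mem_sup_right (Subgroup.mem_centralizer_iff.2 fun y hy => ?_)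
      exact (Subgroup.commute_of_normal_of_disjoint _ _ (hnorm p P) (hnorm q Q)
        (IsPGroup.disjoint_of_ne p q (Ne.symm hqp) _ _ P.isPGroup' Q.isPGroup') y x hy hx).eq
  exact Q.not_dvd_index (hdvd.trans (Subgroup.index_dvd_of_le hle))

/-- A transitive nilpotent group of degree `m` has order dividing `Tr m`. -/
theorem card_dvd_Tr (N : Subgroup (Perm α)) (hN : Group.IsNilpotent N) (a : α)
    (htr : ∀ b : α, ∃ g ∈ N, g a = b) : Nat.card N ∣ Tr (Fintype.card α) := by
  haveI : MulAction.IsPretransitive N α := by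
    refine ⟨fun x y => ?_⟩
    obtain ⟨g, hg, rfl⟩ := htr x
    obtain ⟨g', hg', rfl⟩ := htr y
    exact ⟨⟨g' * g⁻¹, mul_mem hg' (inv_mem hg)⟩, by
      show (g' * g⁻¹) (g a) = g' a
      simp⟩
  have hm : Fintype.card α ≠ 0 := (Fintype.card_pos_iff.2 ⟨a⟩).ne'
  have hTr : Tr (Fintype.card α) ≠ 0 := Finset.prod_ne_zero_iff.2 fun p hp =>
    pow_ne_zero _ (Nat.prime_of_mem_primeFactors hp).ne_zero
  refine (Nat.factorization_prime_le_iff_dvd Nat.card_pos.ne' hTr).1 fun p hp => ?_
  haveI : Fact p.Prime := ⟨hp⟩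
  obtain ⟨P⟩ : Nonempty (Sylow p N) := inferInstance
  haveI hPn : (P : Subgroup N).Normal :=
    ((Group.isNilpotent_of_finite_tfae (G := N)).out 0 3 rfl rfl).1 hN p inferInstance P
  -- the orbit of `P` is a block of `p`-power size
  set O := MulAction.orbit (P : Subgroup N) a with hO
  obtain ⟨j, hj⟩ := (P.isPGroup').card_orbit a
  have hblock : MulAction.IsBlock N O := MulAction.IsBlock.orbit_of_normal a
  have hOm : Set.ncard O ∣ Nat.card α :=
    hblock.ncard_dvd_card ⟨a, MulAction.mem_orbit_self a⟩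
  rw [← Nat.card_coe_set_eq, hj, Nat.card_eq_fintype_card] at hOm
  have hjv : j ≤ (Fintype.card α).factorization p := (hp.pow_dvd_iff_le_factorization hm).1 hOm
  -- `P` is faithful on its orbit
  have hinj : Function.Injective (MulAction.toPermHom (P : Subgroup N) O) := by
    refine (injective_iff_map_eq_one _).2 fun x hx => ?_
    have hfix : ∀ u : (P : Subgroup N), x • (u • a) = u • a := fun u => by
      have := congrArg Subtype.val (Equiv.congr_fun hx ⟨u • a, MulAction.mem_orbit a u⟩)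
      exact this
    refine Subtype.ext (Subtype.ext (Equiv.ext fun b => ?_))
    obtain ⟨g, hg, rfl⟩ := htr b
    have hgmem : (⟨g, hg⟩ : N) ∈ (P : Subgroup N) ⊔ Subgroup.centralizer ((P : Subgroup N) : Set N) := by
      rw [sylow_sup_centralizer hN P]; exact Subgroup.mem_top _
    obtain ⟨u, hu, v, hv, huv⟩ := Subgroup.mem_sup_of_normal_left.1 hgmem
    have hv' := Subgroup.mem_centralizer_iff.1 hv
    have h1 : ((x : N) : Perm α) * ((v : N) : Perm α) = ((v : N) : Perm α) * ((x : N) : Perm α) :=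
      congrArg Subtype.val (hv' x x.2)
    have h2 : g = ((v : N) : Perm α) * ((u : N) : Perm α) := by
      rw [show g = ((u * v : N) : Perm α) by rw [huv], Subgroup.coe_mul]
      exact congrArg Subtype.val (hv' u hu)
    have h3 : ((x : N) : Perm α) (((u : N) : Perm α) a) = ((u : N) : Perm α) a := hfix ⟨u, hu⟩
    show ((x : N) : Perm α) (g a) = g a
    rw [h2, Perm.mul_apply, ← Perm.mul_apply, h1, Perm.mul_apply, h3]
  have hdvd : Nat.card (P : Subgroup N) ∣ (p ^ (Fintype.card α).factorization p).factorial := by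
    refine dvd_trans (Subgroup.card_dvd_of_injective _ hinj) ?_
    rw [Nat.card_perm, hj]
    exact Nat.factorial_dvd_factorial (Nat.pow_le_pow_right hp.pos hjv)
  rw [P.card_eq_multiplicity] at hdvd
  have hle := (hp.pow_dvd_iff_le_factorization (Nat.factorial_ne_zero _)).1 hdvd
  refine hle.trans ((hp.pow_dvd_iff_le_factorization hTr).1 ?_)
  by_cases hpm : p ∈ (Fintype.card α).primeFactors
  · exact Finset.dvd_prod_of_mem _ hpm
  · rw [← Nat.support_factorization, Finsupp.notMem_support_iff] at hpm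
    simp [hpm]

/-- `N` contains a `3`-cycle. -/
def HasThree (N : Subgroup (Perm α)) : Prop := ∃ g ∈ N, g.IsThreeCycle

/-- The bound in a symmetric group. -/
def SymBound (N : Subgroup (Perm α)) : Prop :=
  2 * Nat.card N < H (Fintype.card α) ∨
    (2 * Nat.card N = H (Fintype.card α) ∧ (Fintype.card α % 4 = 3 → HasThree N))

/-- The bound in an alternating group. -/
def AltBound (N : Subgroup (Perm α)) : Prop :=
  4 * Nat.card N < H (Fintype.card α) ∨
    (4 * Nat.card N = H (Fintype.card α) ∧ (Fintype.card α % 4 = 3 → HasThree N)) ∨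
    Small (Fintype.card α) (Nat.card N)

theorem SymBound.le {N : Subgroup (Perm α)} (h : SymBound N) :
    2 * Nat.card N ≤ H (Fintype.card α) := by
  rcases h with h | h <;> omega

theorem SymBound.three {N : Subgroup (Perm α)} (h : SymBound N)
    (he : 2 * Nat.card N = H (Fintype.card α)) (h3 : Fintype.card α % 4 = 3) : HasThree N := by
  rcases h with h | h
  · omega
  · exact h.2 h3

theorem bound_transitive (N : Subgroup (Perm α)) (hN : Group.IsNilpotent N) (a : α)
    (htr : ∀ b : α, ∃ g ∈ N, g a = b) :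
    SymBound N ∧ (N ≤ alternatingGroup α → AltBound N) := by
  have hdvd := card_dvd_Tr N hN a htr
  have hpos : 0 < Nat.card N := Nat.card_pos
  have hm : Fintype.card α ≠ 0 := (Fintype.card_pos_iff.2 ⟨a⟩).ne'
  unfold SymBound AltBound
  by_cases hm1 : Fintype.card α = 1
  · rw [hm1, Tr_one, Nat.dvd_one] at hdvd
    rw [hm1, hdvd]
    refine ⟨Or.inr ⟨by simp [H, w, e2_one], by norm_num⟩, fun _ => Or.inr (Or.inr (Or.inl ⟨le_rfl, le_rfl⟩))⟩
  by_cases hp2 : ∃ k, Fintype.card α = 2 ^ k
  · obtain ⟨k, hk⟩ := hp2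
    rw [hk, Tr_two_pow] at hdvd
    obtain ⟨i, hi, hc⟩ := (Nat.dvd_prime_pow Nat.prime_two).1 hdvd
    have hk0 : k ≠ 0 := by rintro rfl; exact hm1 hk
    have hne : Fintype.card α % 4 ≠ 3 := by
      rw [hk]; intro h
      have : 2 ∣ 2 ^ k := dvd_pow_self 2 hk0
      omega
    have hH := H_of_ne hne
    have hle : 2 ^ i ≤ 2 ^ e2 (Fintype.card α) := by rw [hk]; exact Nat.pow_le_pow_right two_pos hi
    refine ⟨?_, fun hA => ?_⟩
    · rcases eq_or_lt_of_le (show 2 * Nat.card N ≤ H (Fintype.card α) by omega) with h | h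
      · exact Or.inr ⟨h, fun h3 => absurd h3 hne⟩
      · exact Or.inl h
    · haveI : Nontrivial α := by
        rw [← Fintype.one_lt_card_iff_nontrivial, hk]; exact Nat.one_lt_two_pow hk0
      have h2 : 2 * Nat.card N ∣ (Fintype.card α).factorial := by
        have := two_mul_nat_card_alternatingGroup (α := α)
        rw [Nat.card_eq_fintype_card (α := Perm α), Fintype.card_perm] at this
        rw [← this]
        exact Nat.mul_dvd_mul_left 2 (Subgroup.card_dvd_of_le hA)
      rw [hc, ← pow_succ'] at h2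
      have h3 := (Nat.prime_two.pow_dvd_iff_le_factorization (Nat.factorial_ne_zero _)).1 h2
      have h4 : 2 ^ (i + 1) ≤ 2 ^ e2 (Fintype.card α) := Nat.pow_le_pow_right two_pos h3
      rw [pow_succ] at h4
      rcases eq_or_lt_of_le (show 4 * Nat.card N ≤ H (Fintype.card α) by omega) with h | h
      · exact Or.inr (Or.inl ⟨h, fun h' => absurd h' hne⟩)
      · exact Or.inl h
  push Not at hp2
  by_cases h3 : Fintype.card α = 3
  · rw [h3, Tr_prime Nat.prime_three] at hdvd
    have hc := Nat.le_of_dvd (by norm_num) hdvd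
    rw [h3]
    refine ⟨?_, fun _ => Or.inr (Or.inr (Or.inr (Or.inl ⟨rfl, hc⟩)))⟩
    have hH : H 3 = 6 := by simp [H, w, e2_small.2.1]
    rw [hH]
    rcases eq_or_lt_of_le hc with h | h
    · refine Or.inr ⟨by omega, fun _ => ?_⟩
      haveI : Fact (Nat.Prime 3) := ⟨Nat.prime_three⟩
      obtain ⟨g, hg⟩ := exists_prime_orderOf_dvd_card' (G := N) 3 (by rw [h])
      rw [← Subgroup.orderOf_coe] at hg
      have hcyc : (g : Perm α).IsCycle :=
        Perm.isCycle_of_prime_order'' (by rw [h3]; exact Nat.prime_three) (by rw [hg, h3])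
      exact ⟨g, g.2, card_support_eq_three_iff.1 (by rw [← hcyc.orderOf, hg])⟩
    · exact Or.inl (by omega)
  by_cases h5 : Fintype.card α = 5
  · rw [h5, Tr_prime Nat.prime_five] at hdvd
    have hc := Nat.le_of_dvd (by norm_num) hdvd
    rw [h5]
    refine ⟨Or.inl ?_, fun _ => Or.inr (Or.inr (Or.inr (Or.inr (Or.inl ⟨rfl, hc⟩))))⟩
    have hH : H 5 = 16 := by simp [H, w, e2_small.2.2.2.1]
    omega
  by_cases h9 : Fintype.card α = 9
  · have hT : Tr 9 = 81 := by
      rw [show (9 : ℕ) = 3 ^ 2 from rfl, Tr_prime_pow Nat.prime_three two_ne_zero]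
      have he := sub_one_mul_exp Nat.prime_three 2
      rw [show (Nat.factorial (3 ^ 2)).factorization 3 = 4 by omega]
      rfl
    rw [h9, hT] at hdvd
    have hc := Nat.le_of_dvd (by norm_num) hdvd
    rw [h9]
    refine ⟨Or.inl ?_, fun _ => Or.inr (Or.inr (Or.inr (Or.inr (Or.inr (Or.inr ⟨rfl, hc⟩)))))⟩
    have hH : H 9 = 256 := by simp [H, w, e2_small.2.2.2.2.2.2.2.1]
    omega
  have hTr0 : 0 < Tr (Fintype.card α) := Finset.prod_pos fun p hp =>
    pow_pos (Nat.prime_of_mem_primeFactors hp).pos _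
  have hc := Nat.le_of_dvd hTr0 hdvd
  have hT := two_mul_Tr_le hm hp2 h3 h5 h9
  have hH := two_mul_le_H (Fintype.card α)
  refine ⟨Or.inl (by omega), fun _ => ?_⟩
  by_cases h4 : Fintype.card α % 4 = 3
  · refine Or.inl ?_
    have : H (Fintype.card α) = 3 * 2 ^ e2 (Fintype.card α) := by simp [H, w, h4]
    omega
  · rcases eq_or_lt_of_le (show 4 * Nat.card N ≤ H (Fintype.card α) by omega) with h | h
    · exact Or.inr (Or.inl ⟨h, fun h' => absurd h' h4⟩)
    · exact Or.inl h

/-- Restriction to an invariant set. -/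
def restrictHom (N : Subgroup (Perm α)) (q : α → Prop) (hq : ∀ g ∈ N, ∀ a, q (g a) ↔ q a) :
    N →* Perm {a // q a} where
  toFun g := Perm.subtypePerm g.1 (hq g.1 g.2)
  map_one' := Equiv.ext fun _ => Subtype.ext rfl
  map_mul' _ _ := Equiv.ext fun _ => Subtype.ext rfl

theorem restrictHom_apply {N : Subgroup (Perm α)} {q : α → Prop}
    (hq : ∀ g ∈ N, ∀ a, q (g a) ↔ q a) (g : N) (a : {a // q a}) :
    ((restrictHom N q hq g a : {a // q a}) : α) = g.1 a := rfl

theorem hasThree_of_restrict {N : Subgroup (Perm α)} {q : α → Prop}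
    (hq : ∀ g ∈ N, ∀ a, q (g a) ↔ q a) {u : Perm {a // q a}} (hu : u.IsThreeCycle) (g : N)
    (hgu : restrictHom N q hq g = u) (hout : ∀ a, ¬ q a → g.1 a = a) : HasThree N := by
  refine ⟨g, g.2, ?_⟩
  have he : (g : Perm α) = Perm.ofSubtype u := by
    refine Equiv.ext fun a => ?_
    by_cases ha : q a
    · rw [Perm.ofSubtype_apply_of_mem u ha, ← hgu, restrictHom_apply]
    · rw [Perm.ofSubtype_apply_of_not_mem u ha, hout a ha]
  rw [he]
  show (Perm.ofSubtype u).cycleType = {3}
  rw [Perm.cycleType_ofSubtype]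
  exact hu

/-- An odd element in one factor halves a group of even permutations. -/
theorem two_mul_card_le {G K : Type*} [Group G] [Group K] [Finite K] (φ : G →* K)
    (hφ : Function.Injective φ) (hne : φ.range ≠ ⊤) :
    2 * Nat.card G ≤ Nat.card K ∧ (2 * Nat.card G = Nat.card K → φ.range.index = 2) := by
  have h := φ.range.card_mul_index
  have hG : Nat.card φ.range = Nat.card G :=
    Nat.card_congr (MonoidHom.ofInjective hφ).toEquiv.symm
  rw [hG] at h
  have hi : 2 ≤ φ.range.index := by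
    have h0 : φ.range.index ≠ 0 := Subgroup.index_ne_zero_of_finite
    have h1 : φ.range.index ≠ 1 := fun e => hne (Subgroup.index_eq_one.1 e)
    omega
  have hpos : 0 < Nat.card G := by
    rw [← hG]; exact Nat.card_pos
  refine ⟨by rw [← h, mul_comm]; exact Nat.mul_le_mul_left _ hi, fun he => ?_⟩
  rw [← h, mul_comm 2] at he
  exact (Nat.eq_of_mul_eq_mul_left hpos he).symm

theorem small_of_not {β : Type u} [Fintype β] [DecidableEq β] {K : Subgroup (Perm β)}
    (h : AltBound K) (hn : ¬ 4 * Nat.card K ≤ H (Fintype.card β)) :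
    Small (Fintype.card β) (Nat.card K) := by
  rcases h with h | ⟨h, -⟩ | h
  · omega
  · omega
  · exact h

theorem sq_sq_eq_of_cube {G : Type*} [Group G] {x : G} (hx : x ^ 3 = 1) : x * x * (x * x) = x := by
  calc x * x * (x * x) = x ^ 3 * x := by rw [pow_three]; simp only [mul_assoc]
    _ = x := by rw [hx, one_mul]

theorem sign_restrict_mul (N : Subgroup (Perm α)) (q : α → Prop)
    (hq : ∀ g ∈ N, ∀ a, q (g a) ↔ q a) (g : N) (hg : (g : Perm α) ∈ alternatingGroup α) :
    Perm.sign (restrictHom N q hq g) *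
      Perm.sign (restrictHom N (fun a => ¬ q a) (fun g hg a => not_congr (hq g hg a)) g) = 1 := by
  set r₁ := restrictHom N q hq with hr₁
  set r₂ := restrictHom N (fun a => ¬ q a) (fun g hg a => not_congr (hq g hg a)) with hr₂
  have he : (g : Perm α) = Perm.ofSubtype (r₁ g) * Perm.ofSubtype (r₂ g) := by
    refine Equiv.ext fun a => ?_
    rw [Perm.mul_apply]
    by_cases h : q a
    · rw [Perm.ofSubtype_apply_of_not_mem (r₂ g) (not_not.2 h),
        Perm.ofSubtype_apply_of_mem (r₁ g) h]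
      rfl
    · rw [Perm.ofSubtype_apply_of_mem (r₂ g) h]
      exact (Perm.ofSubtype_apply_of_not_mem (r₁ g) (fun hh => h ((hq g g.2 a).1 hh))).symm
  rw [Perm.mem_alternatingGroup, he, map_mul, Perm.sign_ofSubtype, Perm.sign_ofSubtype] at hg
  exact hg

theorem bound_split (N : Subgroup (Perm α)) (q : α → Prop) (hq : ∀ g ∈ N, ∀ a, q (g a) ↔ q a)
    (ha : 1 ≤ Fintype.card {a // q a}) (hb : 1 ≤ Fintype.card {a // ¬ q a})
    (h₁ : SymBound (restrictHom N q hq).range ∧
      ((restrictHom N q hq).range ≤ alternatingGroup _ → AltBound (restrictHom N q hq).range))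
    (h₂ : SymBound (restrictHom N (fun a => ¬ q a) fun g hg a => not_congr (hq g hg a)).range ∧
      ((restrictHom N (fun a => ¬ q a) fun g hg a => not_congr (hq g hg a)).range ≤
          alternatingGroup _ →
        AltBound (restrictHom N (fun a => ¬ q a) fun g hg a => not_congr (hq g hg a)).range)) :
    SymBound N ∧ (N ≤ alternatingGroup α → AltBound N) := by
  set hq' : ∀ g ∈ N, ∀ a, ¬ q (g a) ↔ ¬ q a := fun g hg a => not_congr (hq g hg a) with hq'def
  set r₁ := restrictHom N q hq with hr₁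
  set r₂ := restrictHom N (fun a => ¬ q a) hq' with hr₂
  set φ : N →* r₁.range × r₂.range := r₁.rangeRestrict.prod r₂.rangeRestrict with hφdef
  have hφ : Function.Injective φ := by
    refine (injective_iff_map_eq_one _).2 fun g hg => Subtype.ext (Equiv.ext fun a => ?_)
    by_cases h : q a
    · exact congrArg Subtype.val (Equiv.congr_fun (congrArg Subtype.val (Prod.ext_iff.1 hg).1) ⟨a, h⟩)
    · exact congrArg Subtype.val (Equiv.congr_fun (congrArg Subtype.val (Prod.ext_iff.1 hg).2) ⟨a, h⟩)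
  have hcard : Fintype.card α = Fintype.card {a // q a} + Fintype.card {a // ¬ q a} := by
    rw [← Fintype.card_sum]; exact (Fintype.card_congr (Equiv.sumCompl q)).symm
  have hc : Nat.card N ≤ Nat.card r₁.range * Nat.card r₂.range := by
    rw [← Nat.card_prod]; exact Nat.card_le_card_of_injective φ hφ
  have htop : Nat.card N = Nat.card r₁.range * Nat.card r₂.range → φ.range = ⊤ := fun he =>
    Subgroup.eq_top_of_card_eq _ (by
      rw [Nat.card_prod, ← he]; exact Nat.card_congr (MonoidHom.ofInjective hφ).toEquiv.symm)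
  have lift₁ : ∀ u : r₁.range, (u : Perm {a // q a}).IsThreeCycle → (u, 1) ∈ φ.range →
      HasThree N := by
    rintro u hu ⟨g, hg⟩
    refine hasThree_of_restrict hq hu g (congrArg Subtype.val (Prod.ext_iff.1 hg).1) fun a h => ?_
    exact congrArg Subtype.val (Equiv.congr_fun (congrArg Subtype.val (Prod.ext_iff.1 hg).2) ⟨a, h⟩)
  have lift₂ : ∀ u : r₂.range, (u : Perm {a // ¬ q a}).IsThreeCycle → (1, u) ∈ φ.range →
      HasThree N := by
    rintro u hu ⟨g, hg⟩
    refine hasThree_of_restrict hq' (by convert hu) g (congrArg Subtype.val (Prod.ext_iff.1 hg).2) fun a h => ?_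
    exact congrArg Subtype.val
      (Equiv.congr_fun (congrArg Subtype.val (Prod.ext_iff.1 hg).1) ⟨a, not_not.1 h⟩)
  have hsup := H_super (Fintype.card {a // q a}) (Fintype.card {a // ¬ q a})
  rw [← hcard] at hsup
  obtain ⟨hsuper, heq⟩ := hsup
  have l₁ := h₁.1.le
  have l₂ := h₂.1.le
  have hHa := H_pos (Fintype.card {a // q a})
  have hHb := H_pos (Fintype.card {a // ¬ q a})
  have hH := H_pos (Fintype.card α)
  have p₁ : 0 < Nat.card r₁.range := Nat.card_pos
  have p₂ : 0 < Nat.card r₂.range := Nat.card_pos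
  refine ⟨?_, fun hA => ?_⟩
  · -- the symmetric bound
    obtain ⟨hb4, hb4e⟩ := tight hc l₁ l₂ hsuper hHa hHb
    rcases eq_or_lt_of_le (show 2 * Nat.card N ≤ H (Fintype.card α) by omega) with he | he
    · refine Or.inr ⟨he, fun h3 => ?_⟩
      obtain ⟨e₁, e₂, hc', heq'⟩ := hb4e (by omega)
      rcases heq h3 heq' with ⟨hr, -⟩ | ⟨-, hr⟩
      · obtain ⟨u, hu, hu3⟩ := h₁.1.three e₁ hr
        exact lift₁ ⟨u, hu⟩ hu3 (by rw [htop hc']; exact Subgroup.mem_top _)
      · obtain ⟨u, hu, hu3⟩ := h₂.1.three e₂ hr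
        exact lift₂ ⟨u, hu⟩ hu3 (by rw [htop hc']; exact Subgroup.mem_top _)
    · exact Or.inl he
  -- the alternating bound
  have hsign : ∀ g : N, Perm.sign (r₁ g) * Perm.sign (r₂ g) = 1 := fun g =>
    sign_restrict_mul N q hq g (hA g.2)
  by_cases hev : r₁.range ≤ alternatingGroup _ ∧ r₂.range ≤ alternatingGroup _
  · -- both restrictions are even
    have b₁ := h₁.2 hev.1
    have b₂ := h₂.2 hev.2
    by_cases q₁ : 4 * Nat.card r₁.range ≤ H (Fintype.card {a // q a})
    · by_cases q₂ : 4 * Nat.card r₂.range ≤ H (Fintype.card {a // ¬ q a})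
      · exact Or.inl (by have := (tight hc q₁ q₂ hsuper hHa hHb).1; omega)
      · have hs : Small (Fintype.card {a // ¬ q a}) (Nat.card r₂.range) := small_of_not b₂ q₂
        obtain ⟨hb8, hb8e⟩ := tight hc q₁ l₂ hsuper hHa hHb
        rcases eq_or_lt_of_le (show 4 * Nat.card N ≤ H (Fintype.card α) by omega) with he | he
        · refine Or.inr (Or.inl ⟨he, fun h3 => ?_⟩)
          obtain ⟨e₁, e₂, hc', heq'⟩ := hb8e (by omega)
          rcases heq h3 heq' with ⟨-, hr⟩ | ⟨-, hr⟩
          · exfalso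
            rcases hs with ⟨h, -⟩ | ⟨h, -⟩ | ⟨h, -⟩ | ⟨h, -⟩ | ⟨h, -⟩ <;> omega
          · obtain ⟨u, hu, hu3⟩ := h₂.1.three e₂ hr
            exact lift₂ ⟨u, hu⟩ hu3 (by rw [htop hc']; exact Subgroup.mem_top _)
        · exact Or.inl he
    · have hs : Small (Fintype.card {a // q a}) (Nat.card r₁.range) := small_of_not b₁ q₁
      by_cases q₂ : 4 * Nat.card r₂.range ≤ H (Fintype.card {a // ¬ q a})
      · obtain ⟨hb8, hb8e⟩ := tight hc l₁ q₂ hsuper hHa hHb
        rcases eq_or_lt_of_le (show 4 * Nat.card N ≤ H (Fintype.card α) by omega) with he | he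
        · refine Or.inr (Or.inl ⟨he, fun h3 => ?_⟩)
          obtain ⟨e₁, e₂, hc', heq'⟩ := hb8e (by omega)
          rcases heq h3 heq' with ⟨hr, -⟩ | ⟨hr, -⟩
          · obtain ⟨u, hu, hu3⟩ := h₁.1.three e₁ hr
            exact lift₁ ⟨u, hu⟩ hu3 (by rw [htop hc']; exact Subgroup.mem_top _)
          · exfalso
            rcases hs with ⟨h, -⟩ | ⟨h, -⟩ | ⟨h, -⟩ | ⟨h, -⟩ | ⟨h, -⟩ <;> omega
        · exact Or.inl he
      · have hs₂ : Small (Fintype.card {a // ¬ q a}) (Nat.card r₂.range) := small_of_not b₂ q₂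
        unfold AltBound
        rcases small_pair ha hb hs hs₂ hc with h | ⟨h, h'⟩
        · exact Or.inr (Or.inr (by rw [hcard]; exact h))
        · rw [← hcard] at h h'
          rcases eq_or_lt_of_le h with he | he
          · exact Or.inr (Or.inl ⟨he, fun h3 => absurd he (h' h3).ne⟩)
          · exact Or.inl he
  -- an odd restriction
  have hne : φ.range ≠ ⊤ := by
    intro htop'
    rcases not_and_or.1 hev with h | h <;> obtain ⟨u, hu, hodd⟩ := SetLike.not_le_iff_exists.1 h
    · obtain ⟨g, hg⟩ : ((⟨u, hu⟩ : r₁.range), (1 : r₂.range)) ∈ φ.range := by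
        rw [htop']; exact Subgroup.mem_top _
      have hs := hsign g
      have e₁ : r₁ g = u := congrArg Subtype.val (Prod.ext_iff.1 hg).1
      have e₂ : r₂ g = 1 := congrArg Subtype.val (Prod.ext_iff.1 hg).2
      rw [e₁, e₂, map_one, mul_one] at hs
      exact hodd (Perm.mem_alternatingGroup.2 hs)
    · obtain ⟨g, hg⟩ : ((1 : r₁.range), (⟨u, hu⟩ : r₂.range)) ∈ φ.range := by
        rw [htop']; exact Subgroup.mem_top _
      have hs := hsign g
      have e₁ : r₁ g = 1 := congrArg Subtype.val (Prod.ext_iff.1 hg).1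
      have e₂ : r₂ g = u := congrArg Subtype.val (Prod.ext_iff.1 hg).2
      rw [e₁, e₂, map_one, one_mul] at hs
      exact hodd (Perm.mem_alternatingGroup.2 hs)
  obtain ⟨h2c, hidx⟩ := two_mul_card_le φ hφ hne
  rw [Nat.card_prod] at h2c hidx
  obtain ⟨hb8, hb8e⟩ := tight h2c l₁ l₂ hsuper hHa hHb
  rcases eq_or_lt_of_le (show 4 * Nat.card N ≤ H (Fintype.card α) by omega) with he | he
  · refine Or.inr (Or.inl ⟨he, fun h3 => ?_⟩)
    obtain ⟨e₁, e₂, hc', heq'⟩ := hb8e (by omega)
    rcases heq h3 heq' with ⟨hr, -⟩ | ⟨-, hr⟩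
    · obtain ⟨u, hu, hu3⟩ := h₁.1.three e₁ hr
      refine lift₁ ⟨u, hu⟩ hu3 ?_
      have h3' : (⟨u, hu⟩ : r₁.range) ^ 3 = 1 :=
        Subtype.ext (by rw [Subgroup.coe_pow, Subgroup.coe_one, ← hu3.orderOf, pow_orderOf_eq_one])
      have := Subgroup.mul_self_mem_of_index_two (hidx hc')
        ((⟨u, hu⟩ * ⟨u, hu⟩ : r₁.range), (1 : r₂.range))
      rwa [Prod.mk_mul_mk, one_mul, sq_sq_eq_of_cube h3'] at this
    · obtain ⟨u, hu, hu3⟩ := h₂.1.three e₂ hr
      refine lift₂ ⟨u, hu⟩ hu3 ?_
      have h3' : (⟨u, hu⟩ : r₂.range) ^ 3 = 1 :=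
        Subtype.ext (by rw [Subgroup.coe_pow, Subgroup.coe_one, ← hu3.orderOf, pow_orderOf_eq_one])
      have := Subgroup.mul_self_mem_of_index_two (hidx hc')
        ((1 : r₁.range), (⟨u, hu⟩ * ⟨u, hu⟩ : r₂.range))
      rwa [Prod.mk_mul_mk, one_mul, sq_sq_eq_of_cube h3'] at this
  · exact Or.inl he

theorem nilpotent_bound_aux (n : ℕ) : ∀ (α : Type u) [Fintype α] [DecidableEq α]
    (N : Subgroup (Perm α)), Fintype.card α = n → Group.IsNilpotent N →
      SymBound N ∧ (N ≤ alternatingGroup α → AltBound N) := by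
  induction n using Nat.strong_induction_on with
  | _ n ih =>
    intro α _ _ N hn hN
    rcases isEmpty_or_nonempty α with hα | hα
    · have hc : Nat.card N = 1 := Nat.card_unique
      unfold SymBound AltBound
      rw [Fintype.card_eq_zero, hc]
      exact ⟨Or.inr ⟨by simp [H, w, e2_zero], by norm_num⟩,
        fun _ => Or.inr (Or.inr (Or.inl ⟨by omega, le_rfl⟩))⟩
    obtain ⟨a⟩ := hα
    by_cases htr : ∀ b : α, ∃ g ∈ N, g a = b
    · exact bound_transitive N hN a htr
    push Not at htr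
    obtain ⟨b, hb⟩ := htr
    let q : α → Prop := fun x => ∃ g ∈ N, g a = x
    letI : DecidablePred q := fun x => Classical.propDecidable _
    have hq : ∀ g ∈ N, ∀ x, q (g x) ↔ q x := by
      intro g hg x
      refine ⟨fun ⟨k, hk, hkx⟩ => ⟨g⁻¹ * k, mul_mem (inv_mem hg) hk, by
        rw [Perm.mul_apply, hkx]; simp⟩, fun ⟨k, hk, hkx⟩ => ⟨g * k, mul_mem hg hk, by
        rw [Perm.mul_apply, hkx]⟩⟩
    have ha : 1 ≤ Fintype.card {x // q x} := Fintype.card_pos_iff.2 ⟨⟨a, 1, one_mem N, rfl⟩⟩
    have hb' : 1 ≤ Fintype.card {x // ¬ q x} :=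
      Fintype.card_pos_iff.2 ⟨⟨b, fun ⟨g, hg, h⟩ => hb g hg h⟩⟩
    have hsum : Fintype.card {x // q x} + Fintype.card {x // ¬ q x} = n := by
      rw [← Fintype.card_sum, Fintype.card_congr (Equiv.sumCompl q), hn]
    refine bound_split N q hq ha hb' (ih _ (by omega) _ _ rfl ?_) (ih _ (by omega) _ _ rfl ?_)
    · exact Group.nilpotent_of_surjective (h := hN) _ (MonoidHom.rangeRestrict_surjective _)
    · exact Group.nilpotent_of_surjective (h := hN) _ (MonoidHom.rangeRestrict_surjective _)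

theorem nilpotent_bound (N : Subgroup (Perm α)) (hN : Group.IsNilpotent N) :
    SymBound N ∧ (N ≤ alternatingGroup α → AltBound N) :=
  nilpotent_bound_aux _ α N rfl hN

end CfsgLib.OutAut
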