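import Mathlib
import Cfsg.Agent.Lib.OutAut.NilpotentPerm

/-!
The nilpotent subgroups of largest order when `n ≡ 3 (mod 4)`: a `3`-cycle times a Sylow
2-subgroup of its centralizer.
-/

set_option autoImplicit false
set_option linter.style.haveILetI false
set_option linter.unusedSectionVars false

namespace CfsgLib.OutAut

open Equiv NilArith

variable {α : Type*} [Fintype α] [DecidableEq α]

theorem sylowTwo_perm_card (n : ℕ) (P : Sylow 2 (Perm (Fin n))) : Nat.card P = 2 ^ e2 n := by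
  rw [P.card_eq_multiplicity, Nat.card_eq_fintype_card, Fintype.card_perm, Fintype.card_fin]
  rfl

theorem two_mul_sylowTwo_alt_card {n : ℕ} (hn : 2 ≤ n) (P : Sylow 2 (alternatingGroup (Fin n))) :
    2 * Nat.card P = 2 ^ e2 n := by
  haveI : Nontrivial (Fin n) := Fin.nontrivial_iff_two_le.2 hn
  have h := two_mul_nat_card_alternatingGroup (α := Fin n)
  rw [Nat.card_eq_fintype_card (α := Perm (Fin n)), Fintype.card_perm, Fintype.card_fin] at h
  rw [P.card_eq_multiplicity, e2, ← h,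
    Nat.factorization_mul two_ne_zero Nat.card_pos.ne', Finsupp.add_apply,
    Nat.prime_two.factorization_self, pow_add, pow_one]

theorem card_centralizer_three {c : Perm α} (hc : c.IsThreeCycle) :
    Nat.card (Subgroup.centralizer ({c} : Set (Perm α))) =
      3 * (Fintype.card α - 3).factorial := by
  rw [Perm.nat_card_centralizer, show c.cycleType = {3} from hc]
  simp [mul_comm]

theorem sylowTwo_centralizer_card {c : Perm α} (hc : c.IsThreeCycle)
    (T : Sylow 2 (Subgroup.centralizer ({c} : Set (Perm α)))) :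
    Nat.card T = 2 ^ e2 (Fintype.card α - 3) := by
  rw [T.card_eq_multiplicity, card_centralizer_three hc,
    Nat.factorization_mul (by norm_num) (Nat.factorial_ne_zero _), Finsupp.add_apply,
    Nat.factorization_eq_zero_of_not_dvd (show ¬ 2 ∣ 3 by norm_num), zero_add]
  rfl

/-- The image in `Perm α` of a Sylow 2-subgroup of the centralizer of `c`. -/
def centSylow (c : Perm α) (T : Sylow 2 (Subgroup.centralizer ({c} : Set (Perm α)))) :
    Subgroup (Perm α) :=
  (T : Subgroup (Subgroup.centralizer ({c} : Set (Perm α)))).map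
    (Subgroup.centralizer ({c} : Set (Perm α))).subtype

theorem centSylow_le {c : Perm α} (T : Sylow 2 (Subgroup.centralizer ({c} : Set (Perm α)))) :
    centSylow c T ≤ Subgroup.centralizer ({c} : Set (Perm α)) :=
  Subgroup.map_subtype_le _

theorem centSylow_card {c : Perm α} (hc : c.IsThreeCycle)
    (T : Sylow 2 (Subgroup.centralizer ({c} : Set (Perm α)))) :
    Nat.card (centSylow c T) = 2 ^ e2 (Fintype.card α - 3) := by
  rw [centSylow, Subgroup.card_subtype]
  exact sylowTwo_centralizer_card hc T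

theorem exists_odd_centSylow {c : Perm α} (hc : c.IsThreeCycle) (h5 : 5 ≤ Fintype.card α)
    (T : Sylow 2 (Subgroup.centralizer ({c} : Set (Perm α)))) :
    ∃ t ∈ centSylow c T, Perm.sign t = -1 := by
  obtain ⟨x, y, hx, hy, hxy⟩ : ∃ x y, x ∈ c.supportᶜ ∧ y ∈ c.supportᶜ ∧ x ≠ y := by
    obtain ⟨x, hx, y, hy, h⟩ := Finset.one_lt_card.1 (show 1 < c.supportᶜ.card by
      rw [Finset.card_compl, hc.card_support]; omega)
    exact ⟨x, y, hx, hy, h⟩
  rw [Finset.mem_compl, Perm.notMem_support] at hx hy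
  have hmem : swap x y ∈ Subgroup.centralizer ({c} : Set (Perm α)) := by
    rw [Subgroup.mem_centralizer_singleton_iff]
    have := Equiv.mul_swap_eq_swap_mul c x y
    rw [hx, hy] at this
    exact this.symm
  set z : Subgroup.centralizer ({c} : Set (Perm α)) := ⟨swap x y, hmem⟩ with hz
  have hz2 : IsPGroup 2 (Subgroup.zpowers z) := by
    refine IsPGroup.of_card (n := 1) ?_
    rw [Nat.card_zpowers, pow_one]
    refine orderOf_eq_prime (Subtype.ext ?_) fun h => ?_
    · simp [hz, sq]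
    · exact hxy (swap_eq_one_iff.1 (congrArg Subtype.val h))
  obtain ⟨T', hT'⟩ := hz2.exists_le_sylow
  obtain ⟨u, hu⟩ := MulAction.exists_smul_eq (Subgroup.centralizer ({c} : Set (Perm α))) T' T
  refine ⟨((u * z * u⁻¹ : Subgroup.centralizer ({c} : Set (Perm α))) : Perm α), ⟨u * z * u⁻¹, ?_, rfl⟩, ?_⟩
  · rw [← hu]
    exact (Subgroup.smul_mem_pointwise_smul z (MulAut.conj u) _ (hT' (Subgroup.mem_zpowers z)) :)
  · simp only [Subgroup.coe_mul, Subgroup.coe_inv, map_mul, Perm.sign_inv, hz, Perm.sign_swap hxy]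
    rcases Int.units_eq_one_or (Perm.sign (u : Perm α)) with h | h <;> rw [h] <;> decide

theorem centSylow_inf_alt_card {c : Perm α} (hc : c.IsThreeCycle) (h5 : 5 ≤ Fintype.card α)
    (T : Sylow 2 (Subgroup.centralizer ({c} : Set (Perm α)))) :
    2 * Nat.card (centSylow c T ⊓ alternatingGroup α : Subgroup (Perm α)) =
      2 ^ e2 (Fintype.card α - 3) := by
  obtain ⟨t, ht, hsign⟩ := exists_odd_centSylow hc h5 T
  rw [← centSylow_card hc T]
  set ψ : centSylow c T →* ℤˣ := Perm.sign.comp (centSylow c T).subtype with hψ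
  have hsurj : Function.Surjective ψ := fun u => by
    rcases Int.units_eq_one_or u with rfl | rfl
    · exact ⟨1, map_one _⟩
    · exact ⟨⟨t, ht⟩, hsign⟩
  rw [← ψ.ker.card_mul_index, Subgroup.index_ker, MonoidHom.range_eq_top.2 hsurj, Subgroup.card_top,
    Nat.card_eq_fintype_card (α := ℤˣ), Fintype.card_units_int, mul_comm 2]
  congr 1
  refine Nat.card_congr ((Subgroup.subgroupOfEquivOfLe inf_le_left).toEquiv.symm.trans
    (Equiv.subtypeEquivRight fun x => ?_))
  rw [Subgroup.mem_subgroupOf, Subgroup.mem_inf, MonoidHom.mem_ker]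
  exact ⟨fun h => h.2, fun h => ⟨x.2, h⟩⟩

/-- A nilpotent subgroup of order `3·2ⁱ` containing a `3`-cycle `c` is generated by `c` and a
2-subgroup centralising `c`. -/
theorem three_decomp {N : Subgroup (Perm α)} (hN : Group.IsNilpotent N) {c : Perm α} (hc : c ∈ N)
    (hc3 : c.IsThreeCycle) {i : ℕ} (hcard : Nat.card N = 3 * 2 ^ i) :
    ∃ Q : Subgroup (Perm α), Q ≤ Subgroup.centralizer ({c} : Set (Perm α)) ∧
      Nat.card Q = 2 ^ i ∧ N = Subgroup.zpowers c ⊔ Q := by
  haveI : Fact (Nat.Prime 2) := ⟨Nat.prime_two⟩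
  haveI : Fact (Nat.Prime 3) := ⟨Nat.prime_three⟩
  have hf3 : (3 * 2 ^ i).factorization 3 = 1 := by
    rw [Nat.factorization_mul (by norm_num) (by positivity), Finsupp.add_apply,
      Nat.prime_three.factorization_self, Nat.prime_two.factorization_pow]
    simp
  have hf2 : (3 * 2 ^ i).factorization 2 = i := by
    rw [Nat.factorization_mul (by norm_num) (by positivity), Finsupp.add_apply,
      Nat.factorization_eq_zero_of_not_dvd (show ¬ 2 ∣ 3 by norm_num),
      Nat.prime_two.factorization_pow]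
    simp
  set z : N := ⟨c, hc⟩ with hz
  have hzo : orderOf z = 3 := by rw [← Subgroup.orderOf_coe]; exact hc3.orderOf
  obtain ⟨P, hP⟩ := (IsPGroup.of_card (p := 3) (n := 1) (by rw [Nat.card_zpowers, hzo, pow_one] :
    Nat.card (Subgroup.zpowers z) = 3 ^ 1)).exists_le_sylow
  have hPeq : (P : Subgroup N) = Subgroup.zpowers z := by
    refine (Subgroup.eq_of_le_of_card_ge hP (le_of_eq ?_)).symm
    rw [P.card_eq_multiplicity, hcard, hf3, Nat.card_zpowers, hzo, pow_one]
  haveI hPn : (P : Subgroup N).Normal :=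
    ((Group.isNilpotent_of_finite_tfae (G := N)).out 0 3 rfl rfl).1 hN 3 inferInstance P
  have hcomm : ∀ g : N, g * z = z * g := by
    intro g
    have hg : g ∈ (P : Subgroup N) ⊔ Subgroup.centralizer ((P : Subgroup N) : Set N) := by
      rw [sylow_sup_centralizer hN P]; exact Subgroup.mem_top g
    have hle : (P : Subgroup N) ⊔ Subgroup.centralizer ((P : Subgroup N) : Set N) ≤
        Subgroup.centralizer {z} := by
      refine sup_le ?_ ?_
      · rw [hPeq]
        exact Subgroup.zpowers_le.2 (Subgroup.mem_centralizer_singleton_iff.2 rfl)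
      · exact Subgroup.centralizer_le (Set.singleton_subset_iff.2
          (by rw [hPeq]; exact Subgroup.mem_zpowers z))
    exact Subgroup.mem_centralizer_singleton_iff.1 (hle hg)
  obtain ⟨R⟩ : Nonempty (Sylow 2 N) := inferInstance
  refine ⟨(R : Subgroup N).map N.subtype, ?_, ?_, ?_⟩
  · rintro _ ⟨g, -, rfl⟩
    exact Subgroup.mem_centralizer_singleton_iff.2 (congrArg Subtype.val (hcomm g))
  · rw [Subgroup.card_subtype]
    exact (R.card_eq_multiplicity).trans (by rw [hcard, hf2])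
  · have hle : Subgroup.zpowers c ⊔ (R : Subgroup N).map N.subtype ≤ N :=
      sup_le (Subgroup.zpowers_le.2 hc) (Subgroup.map_subtype_le _)
    refine (Subgroup.eq_of_le_of_card_ge hle (Nat.le_of_dvd Nat.card_pos ?_)).symm
    rw [hcard]
    refine Nat.Coprime.mul_dvd_of_dvd_of_dvd (Nat.Coprime.pow_right i (by norm_num)) ?_ ?_
    · rw [← hc3.orderOf, ← Nat.card_zpowers]
      exact Subgroup.card_dvd_of_le le_sup_left
    · refine dvd_trans (dvd_of_eq ?_) (Subgroup.card_dvd_of_le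
        (le_sup_right (a := Subgroup.zpowers c) (b := (R : Subgroup N).map N.subtype)))
      rw [Subgroup.card_subtype]
      exact ((R.card_eq_multiplicity).trans (by rw [hcard, hf2])).symm

theorem map_conj_zpowers_sup {g c : Perm α} (R : Subgroup (Perm α)) :
    (Subgroup.zpowers c ⊔ R).map (MulAut.conj g).toMonoidHom =
      Subgroup.zpowers (g * c * g⁻¹) ⊔ R.map (MulAut.conj g).toMonoidHom := by
  rw [Subgroup.map_sup, MonoidHom.map_zpowers]
  rfl

/-- Uniqueness of the largest nilpotent subgroups containing `3`-cycles. -/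
theorem conj_of_three (K : Subgroup (Perm α)) [K.Normal] {i : ℕ}
    (hR : ∀ (c : Perm α), c.IsThreeCycle →
      ∀ T : Sylow 2 (Subgroup.centralizer ({c} : Set (Perm α))),
        Nat.card (centSylow c T ⊓ K : Subgroup (Perm α)) = 2 ^ i)
    {N₁ N₂ : Subgroup (Perm α)} (h₁ : Group.IsNilpotent N₁) (h₂ : Group.IsNilpotent N₂)
    (hK₁ : N₁ ≤ K) (hK₂ : N₂ ≤ K)
    (ht₁ : HasThree N₁) (ht₂ : HasThree N₂) (hn₁ : Nat.card N₁ = 3 * 2 ^ i)
    (hn₂ : Nat.card N₂ = 3 * 2 ^ i) :
    ∃ (g c : Perm α) (T : Sylow 2 (Subgroup.centralizer ({c} : Set (Perm α)))),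
      c.IsThreeCycle ∧ N₂ = N₁.map (MulAut.conj g).toMonoidHom ∧
      ∀ t ∈ centSylow c T, N₂.map (MulAut.conj t).toMonoidHom = N₂ := by
  obtain ⟨c₁, hc₁, hc₁3⟩ := ht₁
  obtain ⟨c₂, hc₂, hc₂3⟩ := ht₂
  obtain ⟨g₀, hg₀⟩ := isConj_iff.1 (Perm.isConj_iff_cycleType_eq.2 (hc₁3.trans hc₂3.symm))
  set N₁' := N₁.map (MulAut.conj g₀).toMonoidHom with hN₁'
  have hc₁' : c₂ ∈ N₁' := ⟨c₁, hc₁, hg₀⟩
  have hK₁' : N₁' ≤ K := by
    rintro _ ⟨x, hx, rfl⟩
    exact Subgroup.Normal.conj_mem inferInstance x (hK₁ hx) g₀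
  have e₁ := N₁.equivMapOfInjective (MulAut.conj g₀).toMonoidHom (MulAut.conj g₀).injective
  have h₁' : Group.IsNilpotent N₁' :=
    Group.nilpotent_of_surjective (h := h₁) e₁.toMonoidHom e₁.surjective
  have hn₁' : Nat.card N₁' = 3 * 2 ^ i := by rw [← hn₁]; exact (Nat.card_congr e₁.toEquiv).symm
  obtain ⟨Q₁, hQ₁C, hQ₁, hN₁eq⟩ := three_decomp h₁' hc₁' hc₂3 hn₁'
  obtain ⟨Q₂, hQ₂C, hQ₂, hN₂eq⟩ := three_decomp h₂ hc₂ hc₂3 hn₂
  have key : ∀ Q : Subgroup (Perm α), Q ≤ Subgroup.centralizer ({c₂} : Set (Perm α)) → Q ≤ K →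
      Nat.card Q = 2 ^ i →
      ∃ T : Sylow 2 (Subgroup.centralizer ({c₂} : Set (Perm α))), Q = centSylow c₂ T ⊓ K := by
    intro Q hQC hQK hQ
    have hp : IsPGroup 2 (Q.subgroupOf (Subgroup.centralizer ({c₂} : Set (Perm α)))) :=
      IsPGroup.of_card (n := i) ((Nat.card_congr (Subgroup.subgroupOfEquivOfLe hQC).toEquiv).trans hQ)
    obtain ⟨T, hT⟩ := hp.exists_le_sylow
    refine ⟨T, Subgroup.eq_of_le_of_card_ge (le_inf ?_ hQK) (le_of_eq ?_)⟩
    · intro x hx
      exact ⟨⟨x, hQC hx⟩, hT hx, rfl⟩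
    · rw [hQ, hR c₂ hc₂3 T]
  obtain ⟨T₁, hT₁⟩ := key Q₁ hQ₁C (le_trans (by rw [hN₁eq]; exact le_sup_right) hK₁') hQ₁
  obtain ⟨T₂, hT₂⟩ := key Q₂ hQ₂C (le_trans (by rw [hN₂eq]; exact le_sup_right) hK₂) hQ₂
  obtain ⟨y, hy⟩ := MulAction.exists_smul_eq (Subgroup.centralizer ({c₂} : Set (Perm α))) T₁ T₂
  have hyc : (y : Perm α) * c₂ * (y : Perm α)⁻¹ = c₂ := by
    rw [mul_inv_eq_iff_eq_mul]; exact Subgroup.mem_centralizer_singleton_iff.1 y.2
  have hmapK : ∀ u : Perm α, K.map (MulAut.conj u).toMonoidHom = K := fun u => by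
    refine le_antisymm ?_ fun x hx => ⟨u⁻¹ * x * u, ?_, by simp [mul_assoc]⟩
    · rintro _ ⟨x, hx, rfl⟩; exact Subgroup.Normal.conj_mem inferInstance x hx u
    · simpa using Subgroup.Normal.conj_mem (inferInstance : K.Normal) x hx u⁻¹
  have hmap : ∀ (T : Sylow 2 (Subgroup.centralizer ({c₂} : Set (Perm α))))
      (u : Subgroup.centralizer ({c₂} : Set (Perm α))),
      (centSylow c₂ T ⊓ K).map (MulAut.conj (u : Perm α)).toMonoidHom = centSylow c₂ (u • T) ⊓ K := by
    intro T u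
    rw [Subgroup.map_inf _ _ _ (MulAut.conj (u : Perm α)).injective, hmapK]
    congr 1
    ext x
    simp only [centSylow, Sylow.coe_subgroup_smul, Subgroup.mem_map, Subgroup.mem_smul_pointwise_iff_exists]
    constructor
    · rintro ⟨_, ⟨w, hw, rfl⟩, rfl⟩
      exact ⟨MulAut.conj u • w, ⟨w, hw, rfl⟩, rfl⟩
    · rintro ⟨_, ⟨w, hw, rfl⟩, rfl⟩
      exact ⟨_, ⟨w, hw, rfl⟩, rfl⟩
  refine ⟨(y : Perm α) * g₀, c₂, T₂, hc₂3, ?_, fun t ht => ?_⟩
  · rw [map_mul, show ((MulAut.conj (y : Perm α)) * MulAut.conj g₀).toMonoidHom =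
      (MulAut.conj (y : Perm α)).toMonoidHom.comp (MulAut.conj g₀).toMonoidHom from rfl,
      ← Subgroup.map_map, ← hN₁', hN₁eq, map_conj_zpowers_sup, hyc, hN₂eq, hT₁, hT₂, hmap, hy]
  · obtain ⟨u, hu, rfl⟩ := ht
    have huc : ((u : Perm α)) * c₂ * (u : Perm α)⁻¹ = c₂ := by
      rw [mul_inv_eq_iff_eq_mul]; exact Subgroup.mem_centralizer_singleton_iff.1 u.2
    show N₂.map (MulAut.conj (u : Perm α)).toMonoidHom = N₂
    rw [hN₂eq, map_conj_zpowers_sup, huc, hT₂, hmap,
      Sylow.smul_eq_iff_mem_normalizer.2 (Subgroup.le_normalizer hu)]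


/-- The product embedding `Perm (Fin 3) × Perm (Fin (n - 3)) → Perm (Fin n)`. -/
noncomputable def threeEmbed {n : ℕ} (h : 3 ≤ n) :
    Perm (Fin 3) × Perm (Fin (n - 3)) →* Perm (Fin n) :=
  (Equiv.permCongrHom (finSumFinEquiv.trans (finCongr (show 3 + (n - 3) = n by omega)))).toMonoidHom.comp
    (Perm.sumCongrHom (Fin 3) (Fin (n - 3)))

theorem threeEmbed_injective {n : ℕ} (h : 3 ≤ n) : Function.Injective (threeEmbed h) :=
  fun _ _ he => Perm.sumCongrHom_injective ((Equiv.permCongrHom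
    (finSumFinEquiv.trans (finCongr (show 3 + (n - 3) = n by omega)))).injective he)

theorem sign_threeEmbed {n : ℕ} (h : 3 ≤ n) (x : Perm (Fin 3) × Perm (Fin (n - 3))) :
    Perm.sign (threeEmbed h x) = Perm.sign x.1 * Perm.sign x.2 := by
  show Perm.sign (Equiv.permCongr _ (Perm.sumCongr x.1 x.2)) = _
  rw [Perm.sign_permCongr, Perm.sign_sumCongr]

theorem card_altThree : Nat.card (alternatingGroup (Fin 3)) = 3 := by
  have h := two_mul_nat_card_alternatingGroup (α := Fin 3)
  rw [Nat.card_eq_fintype_card (α := Perm (Fin 3)), Fintype.card_perm, Fintype.card_fin] at h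
  rw [show Nat.factorial 3 = 6 from rfl] at h
  omega

/-- A product of a `2`-group with a group of order `3` embedded in `G`. -/
theorem exists_three_image {G A B : Type*} [Group G] [Group A] [Group B] [Finite A] [Finite B]
    (f : A × B →* G) (hf : Function.Injective f) (hA : Nat.card A = 3) (P : Sylow 2 B) :
    ∃ M : Subgroup G, Group.IsNilpotent M ∧ Nat.card M = 3 * Nat.card P ∧
      Nonempty (M ≃* (↥(P : Subgroup B) × Multiplicative (ZMod 3))) := by
  haveI : Fact (Nat.Prime 3) := ⟨Nat.prime_three⟩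
  haveI : Group.IsNilpotent A := (IsPGroup.of_card (p := 3) (n := 1) (by rw [hA, pow_one])).isNilpotent
  haveI : Group.IsNilpotent (P : Subgroup B) := P.isPGroup'.isNilpotent
  set f' : A × (P : Subgroup B) →* G := f.comp ((MonoidHom.id A).prodMap (P : Subgroup B).subtype)
  have hf' : Function.Injective f' := by
    rintro ⟨a, b⟩ ⟨a', b'⟩ he
    have := Prod.ext_iff.1 (hf he)
    exact Prod.ext this.1 (Subtype.ext this.2)
  have e := MonoidHom.ofInjective hf'
  refine ⟨f'.range, Group.nilpotent_of_surjective _ (MonoidHom.rangeRestrict_surjective f'), ?_, ⟨?_⟩⟩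
  · rw [← Nat.card_congr e.toEquiv, Nat.card_prod, hA]
  · exact e.symm.trans (MulEquiv.prodComm.trans (MulEquiv.prodCongr (MulEquiv.refl _)
      (mulEquivOfPrimeCardEq (p := 3) hA (by simp))))

end CfsgLib.OutAut
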