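import Mathlib
import Cfsg.Agent.Lib.OutAut.PSL2Sol
import Cfsg.Agent.Lib.Forms.OddFinite
import Cfsg.Agent.Lib.Forms.SymmOrtho

/-!
Solubilizer counts in `PSL₂(F)`.
-/

set_option autoImplicit false
set_option linter.style.haveILetI false
set_option linter.unusedSectionVars false

open Matrix
open scoped MatrixGroups
open CfsgLib.ClassicalLinear (upS upS_coe upS_add)

namespace CfsgLib.OutAut

open CfsgLib.SL2 CfsgLib.SL2.Dickson

variable {F : Type*} [Field F] [Finite F]

local notation "SL₂F" => Matrix.SpecialLinearGroup (Fin 2) F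
local notation "PSL₂F" => Matrix.ProjectiveSpecialLinearGroup (Fin 2) F
local notation "M₂" => Matrix (Fin 2) (Fin 2) F
local notation "ε₀" => Nat.card (Subgroup.center (Matrix.SpecialLinearGroup (Fin 2) F))

theorem card_proj (Q : PSL₂F → Prop) :
    Nat.card {Y : SL₂F // Q (proj Y)} = ε₀ * Nat.card {y : PSL₂F // Q y} := by
  have e : {Y : SL₂F // Q (proj Y)} ≃ Subgroup.center SL₂F × {y : PSL₂F // Q y} :=
    QuotientGroup.preimageMkEquivSubgroupProdSet (Subgroup.center SL₂F) {y | Q y}
  rw [Nat.card_congr e, Nat.card_prod]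

/-- The size of the preimage of the solubilizer. -/
noncomputable def solCard (X : Matrix.SpecialLinearGroup (Fin 2) F) : ℕ :=
  Nat.card {Y : Matrix.SpecialLinearGroup (Fin 2) F // SolPair X Y}

theorem solCard_eq (X : SL₂F) :
    solCard X = ε₀ * Nat.card {y : PSL₂F // Group.IsSolvable (Subgroup.closure ({proj X, y} : Set PSL₂F))} :=
  card_proj fun y => Group.IsSolvable (Subgroup.closure ({proj X, y} : Set PSL₂F))

theorem solPair_conj (k X Y : SL₂F) : SolPair (k * X * k⁻¹) (k * Y * k⁻¹) ↔ SolPair X Y := by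
  unfold SolPair
  set φ := (MulAut.conj (proj k)).toMonoidHom with hφ
  have : Subgroup.closure ({proj (k * X * k⁻¹), proj (k * Y * k⁻¹)} : Set PSL₂F) =
      (Subgroup.closure ({proj X, proj Y} : Set PSL₂F)).map φ := by
    rw [MonoidHom.map_closure, Set.image_pair]
    simp [hφ]
  rw [this]
  have e := (Subgroup.closure ({proj X, proj Y} : Set PSL₂F)).equivMapOfInjective φ
    (MulAut.conj (proj k)).injective
  exact ⟨fun _ => Group.isSolvable_of_isSolvable_injective (f := e.toMonoidHom) e.injective,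
    fun _ => Group.isSolvable_of_surjective (f := e.toMonoidHom) e.surjective⟩

theorem solCard_conj (k X : SL₂F) : solCard (k * X * k⁻¹) = solCard X :=
  (Nat.card_congr (Equiv.subtypeEquiv (MulAut.conj k).toEquiv fun Y => (solPair_conj k X Y).symm)).symm

theorem solCard_congr {X X' : SL₂F} (h : proj X = proj X') : solCard X = solCard X' := by
  unfold solCard SolPair
  rw [h]

theorem coe_congr {A B : SL₂F} (h : A = B) : (A : M₂) = (B : M₂) := by rw [h]

theorem solPair_borel {X Y : SL₂F} (hX : X ∈ borel F) (hY : Y ∈ borel F) : SolPair X Y := by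
  haveI := isSolvable_borel (F := F)
  have : Group.IsSolvable ((borel F).map proj) :=
    Group.isSolvable_of_surjective (f := (proj (F := F)).subgroupMap (borel F))
      ((proj (F := F)).subgroupMap_surjective _)
  exact sol_of_le this ⟨X, hX, rfl⟩ ⟨Y, hY, rfl⟩

theorem proj_sq_of_tr_zero {Y : SL₂F} (h : tr Y = 0) : proj Y ^ 2 = 1 := by
  rw [← map_pow, proj_eq_one_iff, CfsgLib.SL2.mem_center_iff]
  right
  apply Subtype.ext
  rw [sq, Matrix.SpecialLinearGroup.coe_mul, mul_self_eq Y, h]
  simp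

theorem proj_cube_of_tr_sq {Y : SL₂F} (h : tr Y ^ 2 = 1) : proj Y ^ 3 = 1 := by
  rw [← map_pow, proj_eq_one_iff, mem_center_iff_isScalarMat, isScalarMat_iff]
  refine ⟨-tr Y, ?_⟩
  rw [Matrix.SpecialLinearGroup.coe_pow, pow_succ, pow_two, mul_self_eq Y, sub_mul, one_mul,
    smul_mul_assoc, mul_self_eq Y, smul_sub, smul_smul, ← sq, h, one_smul, neg_smul]
  abel

theorem solPair_left_involution {X Y : SL₂F} (hX : tr X = 0) (hY : tr Y = 0 ∨ tr (X * Y) = 0) :
    SolPair X Y := by
  rcases hY with hY | hY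
  · exact sol_involutions (proj_sq_of_tr_zero hX) (proj_sq_of_tr_zero hY)
  · have := sol_involutions (proj_sq_of_tr_zero hX) (proj_sq_of_tr_zero hY)
    rw [map_mul, closure_mul_eq] at this
    exact this

theorem tr_zero_of_inverts {g X : SL₂F} (ht : tr g ^ 2 ≠ 4) (h : X * g * X⁻¹ = g⁻¹) : tr X = 0 := by
  have h1 := sq_eq_neg_one (notMem_center_of_tr ht) h
  rw [mul_self_eq X, sub_eq_neg_self] at h1
  by_contra hne
  have h2 : (X : M₂) = 0 := (smul_eq_zero.1 h1).resolve_left hne
  have := X.det_coe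
  rw [h2] at this
  simp at this

theorem tr_mul_zero_of_torus {g X Y : SL₂F} (ht : tr g ^ 2 ≠ 4) (hX : X * g * X⁻¹ = g⁻¹)
    (hY : Y * g * Y⁻¹ = g ∨ Y * g * Y⁻¹ = g⁻¹) : tr Y = 0 ∨ tr (X * Y) = 0 := by
  rcases hY with hY | hY
  · right
    refine tr_zero_of_inverts ht (g := g) ?_
    rw [show X * Y * g * (X * Y)⁻¹ = X * (Y * g * Y⁻¹) * X⁻¹ by group, hY, hX]
  · exact Or.inl (tr_zero_of_inverts ht hY)

theorem not_commute_upS {x : F} (hx : x ≠ 0) {g : SL₂F} (ht : tr g ^ 2 ≠ 4) :
    ¬ upS x * g * (upS x)⁻¹ = g := by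
  intro h
  have hg : g ∈ Subgroup.centralizer ({(1 : SL₂F) * upS x} : Set SL₂F) := by
    rw [one_mul, Subgroup.mem_centralizer_singleton_iff]
    exact (mul_inv_eq_iff_eq_mul.1 h).symm
  obtain ⟨η, hη, y, rfl⟩ := (mem_centralizer_upS (Subgroup.one_mem _) hx g).1 hg
  apply ht
  refine (tr_sq_eq_four_iff_borel ?_).2 ?_
  · exact mul_mem (mem_borel.2 ((mem_center_iff_isScalarMat η).1 hη).2.1) (upS_mem_borel y)
  · obtain ⟨c, hc⟩ := (isScalarMat_iff _).1 ((mem_center_iff_isScalarMat η).1 hη)
    rw [Matrix.SpecialLinearGroup.coe_mul, hc, upS_coe]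
    simp

theorem borel_of_conj_upS {x : F} (hx : x ≠ 0) {u Y : SL₂F} (h : u * upS x * u⁻¹ ∈ borel F)
    (hY : u * Y * u⁻¹ ∈ borel F) : Y ∈ borel F := by
  have hu : u ∈ borel F := by
    rw [mem_borel] at h ⊢
    rw [Matrix.SpecialLinearGroup.coe_mul, Matrix.SpecialLinearGroup.coe_mul, coe_inv_eq, upS_coe] at h
    simp [Matrix.mul_apply, tr] at h
    have h1 : x * ((u : M₂) 1 0 * (u : M₂) 1 0) = 0 := by linear_combination -h
    exact mul_self_eq_zero.1 ((mul_eq_zero.1 h1).resolve_left hx)
  have := mul_mem (mul_mem (inv_mem hu) hY) hu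
  simpa [mul_assoc] using this

theorem tr_upS_mul (x : F) (Y : SL₂F) : tr (upS x * Y) = tr Y + x * (Y : M₂) 1 0 := by
  simp [tr, upS_coe, Matrix.mul_apply]
  ring

theorem solPair_upS_even (h2 : (2 : F) = 0) {x : F} (hx : x ≠ 0) (Y : SL₂F) :
    SolPair (upS x) Y ↔ (Y : M₂) 1 0 = 0 ∨
      ((Y : M₂) 1 0 ≠ 0 ∧ (tr Y = 0 ∨ tr Y + x * (Y : M₂) 1 0 = 0)) := by
  have htX : tr (upS x) = 0 := by rw [tr_upS, h2]
  constructor
  · intro h
    rcases solPair_cases (mt (upS_mem_center_iff x).1 hx) h with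
      ⟨u, hu, hu'⟩ | ⟨g, ht, hX, hY⟩ | ⟨h2', -⟩
    · exact Or.inl (borel_of_conj_upS hx hu hu')
    · by_cases hc : (Y : M₂) 1 0 = 0
      · exact Or.inl hc
      refine Or.inr ⟨hc, ?_⟩
      rcases tr_mul_zero_of_torus ht (hX.resolve_left (not_commute_upS hx ht)) hY with h0 | h0
      · exact Or.inl h0
      · rw [tr_upS_mul] at h0; exact Or.inr h0
    · exact absurd h2 h2'
  · rintro (h | ⟨-, h⟩)
    · exact solPair_borel (upS_mem_borel x) h
    · exact solPair_left_involution htX (h.imp_right fun e => by rw [tr_upS_mul]; exact e)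

/-- In characteristic three without `√-1` the exceptional traces lie in the prime field. -/
theorem tr_small (h3 : (3 : F) = 0) (hsq : ∀ s : F, s ^ 2 ≠ -1) {t s : F}
    (hs : s = 0 ∨ s = 2 ∨ s = -2) (h : t = s ∨ t ^ 2 - 2 = s ∨ t ^ 3 - 3 * t = s) :
    t = 0 ∨ t = 1 ∨ t = -1 := by
  have hcube : ∀ v : F, v = 0 ∨ v = 1 ∨ v = -1 → t ^ 3 = v → t = v := by
    intro v hv he
    have hv3 : v ^ 3 = v := by rcases hv with rfl | rfl | rfl <;> ring
    have h1 : (t - v) ^ 3 = 0 := by linear_combination he - hv3 - (t ^ 2 * v - t * v ^ 2) * h3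
    exact sub_eq_zero.1 ((pow_eq_zero_iff (by norm_num)).1 h1)
  rcases h with h | h | h
  · rcases hs with rfl | rfl | rfl
    · exact Or.inl h
    · right; right; linear_combination h + h3
    · right; left; linear_combination h - h3
  · rcases hs with rfl | rfl | rfl
    · exact absurd (show t ^ 2 = -1 by linear_combination h + h3) (hsq t)
    · right
      have : t * t = 1 := by linear_combination h + h3
      exact mul_self_eq_one_iff.1 this
    · left
      exact (pow_eq_zero_iff two_ne_zero).1 (show t ^ 2 = 0 by linear_combination h)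
  · rcases hs with rfl | rfl | rfl
    · exact Or.inl (hcube 0 (Or.inl rfl) (by linear_combination h + t * h3))
    · exact Or.inr (Or.inr (hcube (-1) (by simp) (by linear_combination h + (t + 1) * h3)))
    · exact Or.inr (Or.inl (hcube 1 (by simp) (by linear_combination h + (t - 1) * h3)))

theorem solPair_upS_three (h3 : (3 : F) = 0) (hsq : ∀ s : F, s ^ 2 ≠ -1) {x : F} (hx : x ≠ 0) (Y : SL₂F) :
    SolPair (upS x) Y ↔ (Y : M₂) 1 0 = 0 ∨
      ((Y : M₂) 1 0 ≠ 0 ∧ ((x * (Y : M₂) 1 0) ^ 2 = 1 ∧ (tr Y = 0 ∨ tr Y ^ 2 = 1))) := by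
  have h2 : (2 : F) ≠ 0 := fun h => one_ne_zero (show (1 : F) = 0 by linear_combination h3 - h)
  constructor
  · intro h
    by_cases hc : (Y : M₂) 1 0 = 0
    · exact Or.inl hc
    rcases solPair_cases (mt (upS_mem_center_iff x).1 hx) h with
      ⟨u, hu, hu'⟩ | ⟨g, ht, hX, hY⟩ | ⟨-, hA⟩
    · exact Or.inl (borel_of_conj_upS hx hu hu')
    · have := tr_zero_of_inverts ht (hX.resolve_left (not_commute_upS hx ht))
      rw [tr_upS] at this
      exact absurd this h2
    · right
      refine ⟨hc, ?_⟩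
      have hval : ∀ k ∈ Subgroup.closure ({upS x, Y} : Set SL₂F), tr k = 0 ∨ tr k = 1 ∨ tr k = -1 :=
        fun k hk => by obtain ⟨s, hs, h⟩ := hA k hk; exact tr_small h3 hsq hs h
      have h1 := hval Y (Subgroup.subset_closure (by simp))
      have h2' := hval (upS x * Y) (mul_mem (Subgroup.subset_closure (by simp)) (Subgroup.subset_closure (by simp)))
      rw [tr_upS_mul] at h2'
      refine ⟨?_, h1.imp_right fun e => by rcases e with e | e <;> rw [e] <;> ring⟩
      have hne : x * (Y : M₂) 1 0 ≠ 0 := mul_ne_zero hx hc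
      generalize x * (Y : M₂) 1 0 = e at h2' hne ⊢
      rcases h1 with e1 | e1 | e1 <;> rw [e1] at h2' <;> rcases h2' with e2 | e2 | e2
      all_goals
        first
          | exact absurd (show e = 0 by linear_combination e2) hne
          | linear_combination (e - 1) * e2
          | linear_combination (e + 1) * e2
          | linear_combination (e - 2) * e2 + h3
          | linear_combination (e + 2) * e2 + h3
  · rintro (h | ⟨-, he, ht⟩)
    · exact solPair_borel (upS_mem_borel x) h
    set e := x * (Y : M₂) 1 0 with hedef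
    have hX3 : proj (upS x) ^ 3 = 1 := proj_cube_of_tr_sq (by rw [tr_upS]; linear_combination h3)
    have key : ∀ Z : SL₂F, tr Z = 0 → tr (Z * upS x) ^ 2 = 1 →
        Group.IsSolvable (Subgroup.closure ({proj (upS x), proj Z} : Set PSL₂F)) := by
      intro Z hZ hZX
      rw [Set.pair_comm]
      refine sol_tetrahedral (proj_sq_of_tr_zero hZ) hX3 ?_
      rw [← map_mul]
      exact proj_cube_of_tr_sq hZX
    rcases ht with ht | ht
    · refine key Y ht ?_
      rw [tr_mul_comm, tr_upS_mul, ← hedef, ht, zero_add, he]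
    · have : (tr Y + e) * (tr Y - e) = 0 := by linear_combination ht - he
      rcases mul_eq_zero.1 this with h0 | h0
      · have h1 := key (upS x * Y) (by rw [tr_upS_mul, ← hedef, h0]) (by
          rw [tr_mul_comm, ← mul_assoc, ← upS_add, tr_upS_mul]
          linear_combination (tr Y + 3 * e) * h0 + he)
        rw [map_mul, closure_mul_eq] at h1
        exact h1
      · have hinv : (upS x)⁻¹ = upS (-x) := inv_eq_of_mul_eq_one_right (by
          rw [← upS_add, add_neg_cancel, upS_zero])
        have h1 := key ((upS x)⁻¹ * Y) (by rw [hinv, tr_upS_mul]; linear_combination h0) (by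
          rw [show (upS x)⁻¹ * Y * upS x = (upS x)⁻¹ * Y * ((upS x)⁻¹)⁻¹ by rw [inv_inv], tr_conj, ht])
        rw [map_mul, map_inv, ← closure_mul_eq, mul_inv_cancel_left] at h1
        exact h1

theorem solPair_diag (hA : (2 : F) ≠ 0 → ∀ t s : F, (s = 0 ∨ s = 2 ∨ s = -2) →
      (t = s ∨ t ^ 2 - 2 = s ∨ t ^ 3 - 3 * t = s) → t = 0 ∨ t ^ 2 = 4)
    (l : Fˣ) (ht4 : tr (diag l) ^ 2 ≠ 4) (ht0 : tr (diag l) ≠ 0) (Y : SL₂F) :
    SolPair (diag l) Y ↔ (Y : M₂) 1 0 = 0 ∨
      ((Y : M₂) 1 0 ≠ 0 ∧ ((Y : M₂) 0 1 = 0 ∨ ((Y : M₂) 0 0 = 0 ∧ (Y : M₂) 1 1 = 0))) := by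
  have hX : diag l ∉ Subgroup.center SL₂F := notMem_center_of_tr ht4
  have hne : (l : F) - ((l⁻¹ : Fˣ) : F) ≠ 0 := by
    intro h
    apply hX
    rw [mem_center_iff_isScalarMat, diag_coe]
    exact ⟨by simp, by simp, by simpa using sub_eq_zero.1 h⟩
  constructor
  · intro h
    by_cases hc : (Y : M₂) 1 0 = 0
    · exact Or.inl hc
    refine Or.inr ⟨hc, ?_⟩
    rcases solPair_cases hX h with ⟨u, hu, hu'⟩ | ⟨g, ht, hg, hY⟩ | ⟨h2, hk⟩
    · left
      have hdet := det_eq u
      rw [mem_borel, Matrix.SpecialLinearGroup.coe_mul, Matrix.SpecialLinearGroup.coe_mul,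
        coe_inv_eq] at hu hu'
      rw [diag_coe] at hu
      simp [Matrix.mul_apply, tr] at hu hu'
      have h1 : ((u : M₂) 1 0 * (u : M₂) 1 1) * ((l : F) - ((l⁻¹ : Fˣ) : F)) = 0 := by
        rw [Units.val_inv_eq_inv_val]
        linear_combination hu
      rcases mul_eq_zero.1 ((mul_eq_zero.1 h1).resolve_right hne) with h0 | h0
      · exfalso
        have h11 : (u : M₂) 1 1 ≠ 0 := fun e => by
          rw [h0, e] at hdet; simp at hdet
        rw [h0] at hu'
        have : ((u : M₂) 1 1 * (u : M₂) 1 1) * (Y : M₂) 1 0 = 0 := by linear_combination hu'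
        exact hc ((mul_eq_zero.1 this).resolve_left (mul_ne_zero h11 h11))
      · have h10 : (u : M₂) 1 0 ≠ 0 := fun e => by
          rw [h0, e] at hdet; simp at hdet
        rw [h0] at hu'
        have : ((u : M₂) 1 0 * (u : M₂) 1 0) * (Y : M₂) 0 1 = 0 := by linear_combination -hu'
        exact (mul_eq_zero.1 this).resolve_left (mul_ne_zero h10 h10)
    · have hcom := hg.resolve_right fun e => ht0 (tr_zero_of_inverts ht e)
      have e := coe_congr (mul_inv_eq_iff_eq_mul.1 hcom)
      rw [Matrix.SpecialLinearGroup.coe_mul, Matrix.SpecialLinearGroup.coe_mul, diag_coe] at e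
      have e01 := congrFun (congrFun e 0) 1
      have e10 := congrFun (congrFun e 1) 0
      simp [Matrix.mul_apply] at e01 e10
      have g01 : (g : M₂) 0 1 = 0 := by
        have : (g : M₂) 0 1 * ((l : F) - ((l⁻¹ : Fˣ) : F)) = 0 := by
          rw [Units.val_inv_eq_inv_val]
          linear_combination e01
        exact (mul_eq_zero.1 this).resolve_right hne
      have g10 : (g : M₂) 1 0 = 0 := by
        have : (g : M₂) 1 0 * ((l : F) - ((l⁻¹ : Fˣ) : F)) = 0 := by
          rw [Units.val_inv_eq_inv_val]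
          linear_combination -e10
        exact (mul_eq_zero.1 this).resolve_right hne
      have gne : (g : M₂) 0 0 - (g : M₂) 1 1 ≠ 0 := fun h =>
        notMem_center_of_tr ht ((mem_center_iff_isScalarMat g).2 ⟨g01, g10, sub_eq_zero.1 h⟩)
      rcases hY with hY | hY
      · left
        have e := coe_congr (mul_inv_eq_iff_eq_mul.1 hY)
        rw [Matrix.SpecialLinearGroup.coe_mul, Matrix.SpecialLinearGroup.coe_mul] at e
        have e01 := congrFun (congrFun e 0) 1
        simp [Matrix.mul_apply, g01] at e01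
        have : (Y : M₂) 0 1 * ((g : M₂) 0 0 - (g : M₂) 1 1) = 0 := by linear_combination -e01
        exact (mul_eq_zero.1 this).resolve_right gne
      · right
        have e := coe_congr (mul_inv_eq_iff_eq_mul.1 hY)
        rw [Matrix.SpecialLinearGroup.coe_mul, Matrix.SpecialLinearGroup.coe_mul, coe_inv_eq] at e
        have e00 := congrFun (congrFun e 0) 0
        have e11 := congrFun (congrFun e 1) 1
        simp [Matrix.mul_apply, g01, g10, tr] at e00 e11
        constructor
        · have : (Y : M₂) 0 0 * ((g : M₂) 0 0 - (g : M₂) 1 1) = 0 := by linear_combination e00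
          exact (mul_eq_zero.1 this).resolve_right gne
        · have : (Y : M₂) 1 1 * ((g : M₂) 0 0 - (g : M₂) 1 1) = 0 := by linear_combination -e11
          exact (mul_eq_zero.1 this).resolve_right gne
    · exfalso
      obtain ⟨s, hs, hs'⟩ := hk (diag l) (Subgroup.subset_closure (by simp))
      exact (hA h2 _ s hs hs').elim ht0 ht4
  · rintro (h | ⟨-, h | ⟨h00, h11⟩⟩)
    · exact solPair_borel (diag_mem_borel l) h
    · refine (solPair_conj (companion 0) _ _).1 (solPair_borel ?_ ?_)
      · rw [mem_borel, Matrix.SpecialLinearGroup.coe_mul, Matrix.SpecialLinearGroup.coe_mul, coe_inv_eq]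
        simp [companion, diag_coe, Matrix.mul_apply, tr]
      · rw [mem_borel, Matrix.SpecialLinearGroup.coe_mul, Matrix.SpecialLinearGroup.coe_mul, coe_inv_eq]
        simp [companion, Matrix.mul_apply, tr, h, Matrix.vecMul, dotProduct, Fin.sum_univ_two]
    · refine sol_of_conj_mem ?_
      have : Y * diag l * Y⁻¹ = (diag l)⁻¹ := by
        rw [mul_inv_eq_iff_eq_mul]
        apply Subtype.ext
        rw [Matrix.SpecialLinearGroup.coe_mul, Matrix.SpecialLinearGroup.coe_mul, coe_inv_eq]
        ext i j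
        fin_cases i <;> fin_cases j <;> simp [diag_coe, Matrix.mul_apply, tr, h00, h11, mul_comm]
      rw [← map_inv, ← map_mul, ← map_mul, this, map_inv]
      exact inv_mem (Subgroup.mem_zpowers _)

theorem solPair_nonsplit (hA : (2 : F) ≠ 0 → ∀ t s : F, (s = 0 ∨ s = 2 ∨ s = -2) →
      (t = s ∨ t ^ 2 - 2 = s ∨ t ^ 3 - 3 * t = s) → t = 0 ∨ t ^ 2 = 4)
    {X : SL₂F} (ht4 : tr X ^ 2 ≠ 4) (ht0 : tr X ≠ 0) (hroot : ¬ ∃ l : F, l * l = tr X * l - 1)
    (Y : SL₂F) :
    SolPair X Y ↔ Y ∈ Subgroup.normalizer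
      ((Subgroup.centralizer ({X} : Set SL₂F) : Subgroup SL₂F) : Set SL₂F) := by
  constructor
  · intro h
    rcases solPair_cases (notMem_center_of_tr ht4) h with ⟨u, hu, -⟩ | ⟨g, ht, hg, hY⟩ | ⟨h2, hk⟩
    · exfalso
      apply hroot
      have hd := det_eq (u * X * u⁻¹)
      rw [mem_borel.1 hu, mul_zero, sub_zero] at hd
      refine ⟨((u * X * u⁻¹ : SL₂F) : M₂) 0 0, ?_⟩
      rw [← tr_conj X u]
      simp only [tr]
      linear_combination -hd
    · have hcom := hg.resolve_right fun e => ht0 (tr_zero_of_inverts ht e)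
      rw [centralizer_eq_of_mem (notMem_center_of_tr ht)
        (Subgroup.mem_centralizer_singleton_iff.2 (mul_inv_eq_iff_eq_mul.1 hcom))
        (notMem_center_of_tr ht4)]
      exact (mem_normalizer_iff ht Y).2 hY
    · obtain ⟨s, hs, hs'⟩ := hk X (Subgroup.subset_closure (by simp))
      exact ((hA h2 _ s hs hs').elim ht0 ht4).elim
  · intro h
    refine sol_of_conj_mem ?_
    rw [← map_inv, ← map_mul, ← map_mul]
    rcases (mem_normalizer_iff ht4 Y).1 h with e | e <;> rw [e]
    · exact Subgroup.mem_zpowers _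
    · rw [map_inv]; exact inv_mem (Subgroup.mem_zpowers _)

theorem solPair_involution (h3 : (3 : F) = 0) (hsq : ∀ s : F, s ^ 2 ≠ -1) (Y : SL₂F) :
    SolPair (companion 0) Y ↔
      tr Y = 0 ∨ (Y : M₂) 0 1 - (Y : M₂) 1 0 = 0 ∨
        ((Y : M₂) 0 0 = (Y : M₂) 1 1 ∧ (Y : M₂) 0 1 + (Y : M₂) 1 0 = 0) ∨
        (tr Y ^ 2 = 1 ∧ ((Y : M₂) 0 1 - (Y : M₂) 1 0) ^ 2 = 1) := by
  have htXY : tr (companion 0 * Y) = (Y : M₂) 0 1 - (Y : M₂) 1 0 := by
    simp only [tr, Matrix.SpecialLinearGroup.coe_mul]
    simp [companion, Matrix.mul_apply]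
    ring
  have h2 : (2 : F) ≠ 0 := fun h => one_ne_zero (show (1 : F) = 0 by linear_combination h3 - h)
  have ht4 : tr (companion (0 : F)) ^ 2 ≠ 4 := by
    rw [tr_companion]; intro h; exact h2 ((mul_eq_zero.1 (show (2 : F) * 2 = 0 by linear_combination -h)).elim id id)
  constructor
  · intro h
    rcases solPair_cases (notMem_center_of_tr ht4) h with ⟨u, hu, -⟩ | ⟨g, ht, hg, hY⟩ | ⟨-, hk⟩
    · exfalso
      have hd := det_eq (u * companion 0 * u⁻¹)
      rw [mem_borel.1 hu, mul_zero, sub_zero] at hd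
      have htr := tr_conj (companion (0 : F)) u
      rw [tr_companion] at htr
      simp only [tr] at htr
      exact hsq (((u * companion 0 * u⁻¹ : SL₂F) : M₂) 0 0)
        (by linear_combination ((u * companion 0 * u⁻¹ : SL₂F) : M₂) 0 0 * htr - hd)
    · rcases hg with hg | hg
      · rcases hY with hY | hY
        · right; right; left
          have hgX : companion 0 ∈ Subgroup.centralizer ({g} : Set SL₂F) :=
            Subgroup.mem_centralizer_singleton_iff.2 (mul_inv_eq_iff_eq_mul.1 hg)
          have hYC : Y ∈ Subgroup.centralizer ({companion 0} : Set SL₂F) := by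
            rw [centralizer_eq_of_mem (notMem_center_of_tr ht) hgX (notMem_center_of_tr ht4)]
            exact Subgroup.mem_centralizer_singleton_iff.2 (mul_inv_eq_iff_eq_mul.1 hY)
          have e := coe_congr (Subgroup.mem_centralizer_singleton_iff.1 hYC)
          rw [Matrix.SpecialLinearGroup.coe_mul, Matrix.SpecialLinearGroup.coe_mul] at e
          have e00 := congrFun (congrFun e 0) 0
          have e01 := congrFun (congrFun e 0) 1
          simp [companion, Matrix.mul_apply] at e00 e01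
          exact ⟨e01, by linear_combination e00⟩
        · exact Or.inl (tr_zero_of_inverts ht hY)
      · rcases tr_mul_zero_of_torus ht hg hY with h0 | h0
        · exact Or.inl h0
        · rw [htXY] at h0; exact Or.inr (Or.inl h0)
    · have hval : ∀ k ∈ Subgroup.closure ({companion 0, Y} : Set SL₂F),
          tr k = 0 ∨ tr k ^ 2 = 1 := fun k hk' => by
        obtain ⟨s, hs, h⟩ := hk k hk'
        refine (tr_small h3 hsq hs h).imp_right fun e => ?_
        rcases e with e | e <;> rw [e] <;> ring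
      rcases hval Y (Subgroup.subset_closure (by simp)) with h0 | h0
      · exact Or.inl h0
      rcases hval (companion 0 * Y) (mul_mem (Subgroup.subset_closure (by simp))
        (Subgroup.subset_closure (by simp))) with h1 | h1 <;> rw [htXY] at h1
      · exact Or.inr (Or.inl h1)
      · exact Or.inr (Or.inr (Or.inr ⟨h0, h1⟩))
  · rintro (h | h | ⟨h1, h2⟩ | ⟨h1, h2⟩)
    · exact solPair_left_involution (tr_companion 0) (Or.inl h)
    · exact solPair_left_involution (tr_companion 0) (Or.inr (htXY.trans h))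
    · refine sol_commute ?_
      rw [← map_mul, ← map_mul]
      congr 1
      apply Subtype.ext
      rw [Matrix.SpecialLinearGroup.coe_mul, Matrix.SpecialLinearGroup.coe_mul]
      ext i j
      fin_cases i <;> fin_cases j <;> simp [companion, Matrix.mul_apply, h1] <;>
        first | linear_combination h2 | linear_combination -h2
    · refine sol_tetrahedral (proj_sq_of_tr_zero (tr_companion 0)) (proj_cube_of_tr_sq h1) ?_
      rw [← map_mul]
      exact proj_cube_of_tr_sq (by rw [htXY]; exact h2)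

end CfsgLib.OutAut
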