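import Mathlib
import Cfsg.Agent.Lib.OutAut.PSL2SolCount
import Cfsg.Agent.Lib.Forms.OddFinite
import Cfsg.Agent.Lib.Forms.SymmOrtho

/-!
The sizes of the solubilizers in `PSL₂(2^p)` and `PSL₂(3^p)`.
-/

set_option autoImplicit false
set_option linter.style.haveILetI false
set_option linter.unusedSectionVars false

open Matrix
open scoped MatrixGroups
open CfsgLib.ClassicalLinear (upS upS_coe upS_add)

namespace CfsgLib.OutAut

open CfsgLib.SL2 CfsgLib.SL2.Dickson

variable {F : Type*} [Field F] [Finite F]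

local notation "SL₂F" => Matrix.SpecialLinearGroup (Fin 2) F
local notation "PSL₂F" => Matrix.ProjectiveSpecialLinearGroup (Fin 2) F
local notation "M₂" => Matrix (Fin 2) (Fin 2) F
local notation "qF" => Nat.card F

open Classical in
theorem card_lowerLeft (R : SL₂F → Prop) :
    Nat.card {Y : SL₂F // (Y : M₂) 1 0 = 0 ∨ ((Y : M₂) 1 0 ≠ 0 ∧ R Y)} =
      qF * (qF - 1) + Nat.card {Y : SL₂F // (Y : M₂) 1 0 ≠ 0 ∧ R Y} := by
  rw [Nat.card_congr (subtypeOrEquiv (fun Y : SL₂F => (Y : M₂) 1 0 = 0)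
    (fun Y : SL₂F => (Y : M₂) 1 0 ≠ 0 ∧ R Y) (by
      rw [Pi.disjoint_iff]; intro Y; simp only [Prop.disjoint_iff]; tauto)), Nat.card_sum]
  congr 1
  exact card_borel

theorem card_lowerLeft_trace (R : F → F → Prop) :
    Nat.card {Y : SL₂F // (Y : M₂) 1 0 ≠ 0 ∧ R ((Y : M₂) 1 0) (tr Y)} =
      qF * Nat.card {p : F × F // p.1 ≠ 0 ∧ R p.1 p.2} := by
  rw [← Nat.card_prod]
  refine Nat.card_congr
    { toFun := fun Y => ((Y.1 : M₂) 0 0, ⟨((Y.1 : M₂) 1 0, tr Y.1), Y.2⟩)
      invFun := fun z => ⟨⟨!![z.1, (z.1 * (z.2.1.2 - z.1) - 1) / z.2.1.1; z.2.1.1, z.2.1.2 - z.1], by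
        have := z.2.2.1
        rw [det_fin_two_of]; field_simp; ring⟩, by
        refine ⟨by simpa using z.2.2.1, ?_⟩
        have := z.2.2.2
        simpa [tr] using this⟩
      left_inv := fun Y => by
        obtain ⟨Y, hc, hR⟩ := Y
        apply Subtype.ext
        apply Subtype.ext
        have hd := det_eq Y
        ext i j
        fin_cases i <;> fin_cases j <;> simp [tr]
        field_simp
        linear_combination hd
      right_inv := fun z => by
        obtain ⟨a, ⟨c, t⟩, h⟩ := z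
        simp [tr] }

theorem solCard_upS_even (h2 : (2 : F) = 0) {x : F} (hx : x ≠ 0) :
    solCard (upS x) = 3 * qF * (qF - 1) := by
  classical
  haveI := Fintype.ofFinite F
  unfold solCard
  rw [Nat.card_congr (Equiv.subtypeEquivRight (solPair_upS_even h2 hx)), card_lowerLeft,
    card_lowerLeft_trace fun c t => t = 0 ∨ t + x * c = 0]
  have e : {p : F × F // p.1 ≠ 0 ∧ (p.2 = 0 ∨ p.2 + x * p.1 = 0)} ≃ Fˣ ⊕ Fˣ :=
    { toFun := fun p => if p.1.2 = 0 then .inl (Units.mk0 p.1.1 p.2.1) else .inr (Units.mk0 p.1.1 p.2.1)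
      invFun := Sum.elim (fun c => ⟨((c : F), 0), c.ne_zero, Or.inl rfl⟩)
        (fun c => ⟨((c : F), -(x * c)), c.ne_zero, Or.inr (by ring)⟩)
      left_inv := fun p => by
        obtain ⟨⟨c, t⟩, hc, ht⟩ := p
        by_cases h : t = 0
        · simp [h]
        · simp only [h, if_false, Sum.elim_inr, Units.val_mk0, Subtype.mk.injEq, Prod.mk.injEq, true_and]
          linear_combination -(ht.resolve_left h)
      right_inv := fun z => by
        rcases z with c | c
        · simp
        · have : -(x * (c : F)) ≠ 0 := neg_ne_zero.2 (mul_ne_zero hx c.ne_zero)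
          simp [this] }
  rw [Nat.card_congr e, Nat.card_sum, Nat.card_units]
  ring

theorem solCard_upS_three (h3 : (3 : F) = 0) (hsq : ∀ s : F, s ^ 2 ≠ -1) {x : F} (hx : x ≠ 0) :
    solCard (upS x) = qF * (qF + 5) := by
  classical
  haveI := Fintype.ofFinite F
  unfold solCard
  rw [Nat.card_congr (Equiv.subtypeEquivRight (solPair_upS_three h3 hsq hx)), card_lowerLeft,
    card_lowerLeft_trace fun c t => (x * c) ^ 2 = 1 ∧ (t = 0 ∨ t ^ 2 = 1)]
  have h2 : (2 : F) ≠ 0 := fun h => one_ne_zero (show (1 : F) = 0 by linear_combination h3 - h)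
  have h1 : (1 : F) ≠ -1 := fun h => h2 (by linear_combination h)
  have hfin : (Finset.univ.filter fun p : F × F => p.1 ≠ 0 ∧ (x * p.1) ^ 2 = 1 ∧ (p.2 = 0 ∨ p.2 ^ 2 = 1)) =
      ({x⁻¹, -x⁻¹} : Finset F) ×ˢ ({0, 1, -1} : Finset F) := by
    ext ⟨c, t⟩
    simp only [Finset.mem_filter, Finset.mem_univ, true_and, Finset.mem_product, Finset.mem_insert,
      Finset.mem_singleton, sq_eq_one_iff]
    constructor
    · rintro ⟨-, hc, ht⟩
      refine ⟨hc.imp (fun h => eq_inv_of_mul_eq_one_right h) (fun h => ?_), ht⟩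
      rw [← neg_inj, neg_neg]
      exact eq_inv_of_mul_eq_one_right (by rw [mul_neg, h, neg_neg])
    · rintro ⟨hc | hc, ht⟩ <;> subst hc
      · exact ⟨inv_ne_zero hx, Or.inl (mul_inv_cancel₀ hx), ht⟩
      · exact ⟨neg_ne_zero.2 (inv_ne_zero hx), Or.inr (by rw [mul_neg, mul_inv_cancel₀ hx]), ht⟩
  have hc : x⁻¹ ≠ -x⁻¹ := fun h => inv_ne_zero hx
    ((mul_eq_zero.1 (show (2 : F) * x⁻¹ = 0 by linear_combination h)).resolve_left h2)
  rw [Nat.card_eq_fintype_card (α := {p : F × F // _}), Fintype.card_subtype, hfin, Finset.card_product,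
    Finset.card_pair hc, Finset.card_eq_three.2 ⟨0, 1, -1, zero_ne_one, (neg_ne_zero.2 one_ne_zero).symm, h1, rfl⟩]
  obtain ⟨k, hk⟩ : ∃ k, qF = k + 1 := ⟨qF - 1, by have := Nat.card_pos (α := F); omega⟩
  rw [hk, Nat.add_sub_cancel]
  ring

theorem solCard_diag (hA : (2 : F) ≠ 0 → ∀ t s : F, (s = 0 ∨ s = 2 ∨ s = -2) →
      (t = s ∨ t ^ 2 - 2 = s ∨ t ^ 3 - 3 * t = s) → t = 0 ∨ t ^ 2 = 4)
    (l : Fˣ) (ht4 : tr (diag l) ^ 2 ≠ 4) (ht0 : tr (diag l) ≠ 0) :
    solCard (diag l) = 2 * qF * (qF - 1) := by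
  classical
  haveI := Fintype.ofFinite F
  unfold solCard
  rw [Nat.card_congr (Equiv.subtypeEquivRight (solPair_diag hA l ht4 ht0)), card_lowerLeft]
  have e : {Y : SL₂F // (Y : M₂) 1 0 ≠ 0 ∧ ((Y : M₂) 0 1 = 0 ∨ ((Y : M₂) 0 0 = 0 ∧ (Y : M₂) 1 1 = 0))} ≃
      (Fˣ × Fˣ) ⊕ Fˣ :=
    { toFun := fun Y => if h : (Y.1 : M₂) 0 1 = 0 then
          .inl (Units.mk0 ((Y.1 : M₂) 0 0) (fun h0 => by
            have hd := det_eq Y.1
            rw [h, h0] at hd; simp at hd), Units.mk0 ((Y.1 : M₂) 1 0) Y.2.1)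
        else .inr (Units.mk0 ((Y.1 : M₂) 1 0) Y.2.1)
      invFun := Sum.elim
        (fun z => ⟨⟨!![(z.1 : F), 0; (z.2 : F), (z.1 : F)⁻¹], by simp [det_fin_two_of]⟩,
          by simp, Or.inl (by simp)⟩)
        (fun c => ⟨⟨!![0, -(c : F)⁻¹; (c : F), 0], by simp [det_fin_two_of]⟩,
          by simp, Or.inr (by simp)⟩)
      left_inv := fun Y => by
        obtain ⟨Y, hc, hY⟩ := Y
        have hd := det_eq Y
        by_cases h : (Y : M₂) 0 1 = 0
        · rw [h, zero_mul, sub_zero] at hd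
          simp only [h, dif_pos, Sum.elim_inl]
          apply Subtype.ext
          apply Subtype.ext
          ext i j
          fin_cases i <;> fin_cases j <;> simp [h]
          exact (eq_inv_of_mul_eq_one_right hd).symm
        · obtain ⟨h00, h11⟩ := hY.resolve_left h
          rw [h00, zero_mul, zero_sub] at hd
          simp only [h, dite_false, Sum.elim_inr]
          apply Subtype.ext
          apply Subtype.ext
          ext i j
          fin_cases i <;> fin_cases j <;> simp [h00, h11]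
          field_simp
          linear_combination hd
      right_inv := fun z => by
        rcases z with ⟨a, c⟩ | c
        · simp
        · have : -(c : F)⁻¹ ≠ 0 := neg_ne_zero.2 (inv_ne_zero c.ne_zero)
          simp [this] }
  rw [Nat.card_congr e, Nat.card_sum, Nat.card_prod, Nat.card_units]
  obtain ⟨k, hk⟩ : ∃ k, qF = k + 1 := ⟨qF - 1, by have := Nat.card_pos (α := F); omega⟩
  rw [hk, Nat.add_sub_cancel]
  ring

theorem solCard_nonsplit (hA : (2 : F) ≠ 0 → ∀ t s : F, (s = 0 ∨ s = 2 ∨ s = -2) →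
      (t = s ∨ t ^ 2 - 2 = s ∨ t ^ 3 - 3 * t = s) → t = 0 ∨ t ^ 2 = 4)
    {X : SL₂F} (ht4 : tr X ^ 2 ≠ 4) (ht0 : tr X ≠ 0) (hroot : ¬ ∃ l : F, l * l = tr X * l - 1) :
    solCard X = 2 * (qF + 1) := by
  classical
  unfold solCard
  rw [Nat.card_congr (Equiv.subtypeEquivRight (solPair_nonsplit hA ht4 ht0 hroot))]
  exact (card_normalizer ht4).trans (by rw [card_centralizer ht4, if_neg hroot])

section Circle

variable (hsq : ∀ s : F, s ^ 2 ≠ -1)
include hsq

theorem card_circle_one (h2 : (2 : F) ≠ 0) :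
    Nat.card {p : F × F // p.1 ^ 2 + p.2 ^ 2 = 1} = qF + 1 := by
  classical
  have ht : tr (companion (0 : F)) ^ 2 ≠ 4 := by
    rw [tr_companion]; intro h
    exact h2 ((mul_eq_zero.1 (show (2 : F) * 2 = 0 by linear_combination -h)).elim id id)
  have hnr : ¬ ∃ l : F, l * l = tr (companion (0 : F)) * l - 1 := by
    rintro ⟨l, hl⟩
    rw [tr_companion] at hl
    exact hsq l (by linear_combination hl)
  have hc : ∀ Y : SL₂F, Y ∈ Subgroup.centralizer ({companion 0} : Set SL₂F) ↔
      (Y : M₂) 0 0 = (Y : M₂) 1 1 ∧ (Y : M₂) 0 1 = -(Y : M₂) 1 0 := by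
    intro Y
    rw [mem_centralizer_singleton_iff' (notMem_center_of_tr ht)]
    constructor
    · rintro ⟨a, b, h⟩; simp [h, companion]
    · rintro ⟨h1, h2⟩
      refine ⟨(Y : M₂) 0 0, (Y : M₂) 1 0, ?_⟩
      ext i j
      fin_cases i <;> fin_cases j <;> simp [companion, h1, h2]
  have e : {p : F × F // p.1 ^ 2 + p.2 ^ 2 = 1} ≃ Subgroup.centralizer ({companion 0} : Set SL₂F) :=
    { toFun := fun p => ⟨⟨!![p.1.1, -p.1.2; p.1.2, p.1.1], by
        rw [det_fin_two_of]; linear_combination p.2⟩, (hc _).2 ⟨by simp, by simp⟩⟩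
      invFun := fun Y => ⟨(((Y : SL₂F) : M₂) 0 0, ((Y : SL₂F) : M₂) 1 0), by
        have hd := det_eq (Y : SL₂F)
        obtain ⟨h1, h2⟩ := (hc _).1 Y.2
        rw [← h1, h2] at hd
        linear_combination hd⟩
      left_inv := fun p => by simp
      right_inv := fun Y => by
        obtain ⟨h1, h2⟩ := (hc _).1 Y.2
        apply Subtype.ext
        apply Subtype.ext
        ext i j
        fin_cases i <;> fin_cases j <;> simp [h1, h2] }
  rw [Nat.card_congr e, card_centralizer ht, if_neg hnr]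

theorem card_circle (h2 : (2 : F) ≠ 0) {k : F} (hk : k ≠ 0) :
    Nat.card {p : F × F // p.1 ^ 2 + p.2 ^ 2 = k} = qF + 1 := by
  rw [← card_circle_one hsq h2]
  obtain ⟨r, w, hrw⟩ := CfsgLib.Forms.exists_binary_diag_eq h2 (one_ne_zero (α := F)) (one_ne_zero (α := F)) k
  rw [one_mul, one_mul] at hrw
  refine Nat.card_congr
    { toFun := fun p => ⟨((r * p.1.1 + w * p.1.2) / k, (r * p.1.2 - w * p.1.1) / k), by
        field_simp
        linear_combination (r ^ 2 + w ^ 2) * p.2 + k * hrw⟩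
      invFun := fun p => ⟨(r * p.1.1 - w * p.1.2, w * p.1.1 + r * p.1.2), by
        linear_combination (r ^ 2 + w ^ 2) * p.2 + hrw⟩
      left_inv := fun p => by
        apply Subtype.ext
        refine Prod.ext ?_ ?_ <;> field_simp
        · linear_combination p.1.1 * hrw
        · linear_combination p.1.2 * hrw
      right_inv := fun p => by
        apply Subtype.ext
        refine Prod.ext ?_ ?_ <;> field_simp
        · linear_combination p.1.1 * hrw
        · linear_combination p.1.2 * hrw }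

theorem circle_zero (a b : F) (h : a ^ 2 + b ^ 2 = 0) : a = 0 ∧ b = 0 := by
  by_cases hb : b = 0
  · subst hb; exact ⟨(pow_eq_zero_iff two_ne_zero).1 (by linear_combination h), rfl⟩
  · exact absurd (show (a / b) ^ 2 = -1 by field_simp; linear_combination h) (hsq _)

theorem solCard_involution (h3 : (3 : F) = 0) :
    solCard (companion (0 : F)) = 2 * qF * (qF + 1) := by
  classical
  haveI := Fintype.ofFinite F
  have h2 : (2 : F) ≠ 0 := fun h => one_ne_zero (show (1 : F) = 0 by linear_combination h3 - h)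
  unfold solCard
  rw [Nat.card_congr (Equiv.subtypeEquivRight (solPair_involution h3 hsq))]
  let R : F × F → Prop := fun p => p.1 = 0 ∨ p.2 = 0 ∨ (p.1 ^ 2 = 1 ∧ p.2 ^ 2 = 1)
  let T : (F × F) × (F × F) → Prop := fun p =>
    p.2.1 ^ 2 + p.2.2 ^ 2 = p.1.1 ^ 2 + p.1.2 ^ 2 - 1 ∧ (R p.1 ∨ p.2 = 0)
  have e : {Y : SL₂F // tr Y = 0 ∨ (Y : M₂) 0 1 - (Y : M₂) 1 0 = 0 ∨
      ((Y : M₂) 0 0 = (Y : M₂) 1 1 ∧ (Y : M₂) 0 1 + (Y : M₂) 1 0 = 0) ∨
      (tr Y ^ 2 = 1 ∧ ((Y : M₂) 0 1 - (Y : M₂) 1 0) ^ 2 = 1)} ≃ {p // T p} :=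
    { toFun := fun Y => ⟨((tr Y.1, (Y.1 : M₂) 0 1 - (Y.1 : M₂) 1 0),
          ((Y.1 : M₂) 0 0 - (Y.1 : M₂) 1 1, (Y.1 : M₂) 0 1 + (Y.1 : M₂) 1 0)), by
        have hd := det_eq Y.1
        refine ⟨?_, ?_⟩
        · simp only [tr]
          linear_combination -4 * hd - h3
        · rcases Y.2 with h | h | ⟨h, h'⟩ | h
          · exact Or.inl (Or.inl h)
          · exact Or.inl (Or.inr (Or.inl h))
          · exact Or.inr (by simp [sub_eq_zero.2 h, h'])
          · exact Or.inl (Or.inr (Or.inr h))⟩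
      invFun := fun p => ⟨⟨!![-(p.1.1.1 + p.1.2.1), -(p.1.1.2 + p.1.2.2);
            -(p.1.2.2 - p.1.1.2), -(p.1.1.1 - p.1.2.1)], by
          rw [det_fin_two_of]
          linear_combination -p.2.1⟩, by
        obtain ⟨⟨⟨s, t⟩, u, v⟩, -, hR⟩ := p
        rcases hR with (h | h | ⟨h, h'⟩) | h
        · dsimp only at h ⊢
          left; simp [tr]; linear_combination (-2 : F) * h
        · dsimp only at h ⊢
          right; left; simp; linear_combination (-2 : F) * h
        · dsimp only at h h' ⊢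
          right; right; right
          exact ⟨by simp [tr, -sq_eq_one_iff]; linear_combination 4 * h + h3,
            by simp [-sq_eq_one_iff]; linear_combination 4 * h' + h3⟩
        · obtain ⟨rfl, rfl⟩ := Prod.mk_eq_zero.1 h
          right; right; left; simp⟩
      left_inv := fun Y => by
        apply Subtype.ext
        apply Subtype.ext
        ext i j
        fin_cases i <;> fin_cases j <;> simp [tr]
        · linear_combination -((Y.1 : M₂) 0 0) * h3
        · linear_combination -((Y.1 : M₂) 0 1) * h3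
        · linear_combination -((Y.1 : M₂) 1 0) * h3
        · linear_combination -((Y.1 : M₂) 1 1) * h3
      right_inv := fun p => by
        obtain ⟨⟨⟨s, t⟩, u, v⟩, hp⟩ := p
        apply Subtype.ext
        simp only [Prod.mk.injEq, tr]
        refine ⟨⟨?_, ?_⟩, ?_, ?_⟩ <;> simp
        · linear_combination -s * h3
        · linear_combination -t * h3
        · linear_combination -u * h3
        · linear_combination -v * h3 }
  rw [Nat.card_congr e, Nat.card_eq_fintype_card, Fintype.card_subtype,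
    Finset.card_eq_sum_card_fiberwise (f := Prod.fst) (t := Finset.univ) (fun _ _ => Finset.mem_univ _)]
  have hfib : ∀ st : F × F, ((Finset.univ.filter T).filter fun p => p.1 = st).card =
      (if st.1 ^ 2 + st.2 ^ 2 = 1 then 1 else 0) +
        (qF + 1) * (if R st ∧ st.1 ^ 2 + st.2 ^ 2 ≠ 1 then 1 else 0) := by
    rintro ⟨s, t⟩
    have : ((Finset.univ.filter T).filter fun p => p.1 = (s, t)).card =
        Nat.card {uv : F × F // T ((s, t), uv)} := by
      rw [Nat.card_eq_fintype_card, Fintype.card_subtype]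
      refine Finset.card_bij (fun p _ => p.2) ?_ ?_ ?_
      · intro p hp
        simp only [Finset.mem_filter, Finset.mem_univ, true_and] at hp ⊢
        rw [← hp.2]; exact hp.1
      · intro p hp p' hp' hpp
        simp only [Finset.mem_filter, Finset.mem_univ, true_and] at hp hp'
        exact Prod.ext (hp.2.trans hp'.2.symm) hpp
      · intro b hb
        simp only [Finset.mem_filter, Finset.mem_univ, true_and] at hb
        exact ⟨((s, t), b), by simp [hb], rfl⟩
    rw [this]
    by_cases hk : s ^ 2 + t ^ 2 = 1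
    · rw [if_pos hk, if_neg fun h => h.2 hk, mul_zero, add_zero, Nat.card_eq_one_iff_unique]
      refine ⟨⟨fun a b => Subtype.ext ?_⟩, ⟨⟨(0, 0), by simp [hk], Or.inr rfl⟩⟩⟩
      obtain ⟨⟨a1, a2⟩, ha, -⟩ := a
      obtain ⟨⟨b1, b2⟩, hb, -⟩ := b
      dsimp only at ha hb
      rw [hk, sub_self] at ha hb
      obtain ⟨rfl, rfl⟩ := circle_zero hsq _ _ ha
      obtain ⟨rfl, rfl⟩ := circle_zero hsq _ _ hb
      rfl
    · rw [if_neg hk, zero_add]
      by_cases hR : R (s, t)
      · rw [if_pos ⟨hR, hk⟩, mul_one, ← card_circle hsq h2 (sub_ne_zero.2 hk)]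
        exact Nat.card_congr (Equiv.subtypeEquivRight fun uv => ⟨fun h => h.1, fun h => ⟨h, Or.inl hR⟩⟩)
      · rw [if_neg fun h => hR h.1, mul_zero]
        haveI : IsEmpty {uv : F × F // T ((s, t), uv)} := ⟨fun ⟨uv, h, h'⟩ => by
          have h0 := h'.resolve_left hR
          dsimp only at h0
          subst h0
          simp at h
          exact hk (sub_eq_zero.1 h.symm)⟩
        exact Nat.card_of_isEmpty
  rw [Finset.sum_congr rfl (fun st _ => hfib st), Finset.sum_add_distrib, ← Finset.mul_sum,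
    Finset.sum_boole, Finset.sum_boole, Nat.cast_id, Nat.cast_id]
  have hcirc : (Finset.univ.filter fun st : F × F => st.1 ^ 2 + st.2 ^ 2 = 1).card = qF + 1 := by
    rw [← Fintype.card_subtype, ← Nat.card_eq_fintype_card, card_circle_one hsq h2]
  have h1 : (1 : F) ≠ -1 := fun h => h2 (by linear_combination h)
  have hsum : (1 : F) + 1 ≠ 1 := fun h => one_ne_zero (show (1 : F) = 0 by linear_combination h)
  have hset : (Finset.univ.filter fun st : F × F => R st ∧ st.1 ^ 2 + st.2 ^ 2 ≠ 1) =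
      (({0} : Finset F) ×ˢ (Finset.univ \ {1, -1})) ∪
        (((Finset.univ \ {0, 1, -1}) ×ˢ ({0} : Finset F)) ∪ (({1, -1} : Finset F) ×ˢ ({1, -1} : Finset F))) := by
    ext ⟨s, t⟩
    simp only [R, Finset.mem_filter, Finset.mem_univ, true_and, Finset.mem_union, Finset.mem_product,
      Finset.mem_sdiff, Finset.mem_insert, Finset.mem_singleton, sq_eq_one_iff]
    constructor
    · rintro ⟨h | h | h, hne⟩
      · subst h
        left
        exact ⟨rfl, fun h => hne (by rcases h with rfl | rfl <;> ring)⟩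
      · subst h
        by_cases hs : s = 0
        · subst hs; left; simp
        right; left
        refine ⟨?_, rfl⟩
        rintro (h | h | h)
        · exact hs h
        · exact hne (by rw [h]; ring)
        · exact hne (by rw [h]; ring)
      · right; right; exact h
    · rintro (⟨rfl, h⟩ | ⟨h, rfl⟩ | ⟨h, h'⟩)
      · refine ⟨Or.inl rfl, fun e => h (mul_self_eq_one_iff.1 (by linear_combination e))⟩
      · refine ⟨Or.inr (Or.inl rfl), fun e => h (Or.inr (mul_self_eq_one_iff.1 (by linear_combination e)))⟩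
      · refine ⟨Or.inr (Or.inr ⟨h, h'⟩), fun e => hsum ?_⟩
        rcases h with rfl | rfl <;> rcases h' with rfl | rfl <;> linear_combination e
  rw [hcirc, hset, Finset.card_union_of_disjoint, Finset.card_union_of_disjoint, Finset.card_product,
    Finset.card_product, Finset.card_product, Finset.card_singleton,
    Finset.card_sdiff_of_subset (Finset.subset_univ _), Finset.card_sdiff_of_subset (Finset.subset_univ _),
    Finset.card_univ, ← Nat.card_eq_fintype_card, Finset.card_pair h1,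
    Finset.card_eq_three.2 ⟨0, 1, -1, zero_ne_one, (neg_ne_zero.2 one_ne_zero).symm, h1, rfl⟩]
  · have h3q : 3 ≤ qF := by
      rw [Nat.card_eq_fintype_card, ← Finset.card_univ]
      refine le_trans (le_of_eq ?_) (Finset.card_le_card (Finset.subset_univ ({0, 1, -1} : Finset F)))
      exact (Finset.card_eq_three.2 ⟨0, 1, -1, zero_ne_one, (neg_ne_zero.2 one_ne_zero).symm, h1, rfl⟩).symm
    obtain ⟨j, hj⟩ : ∃ j, qF = j + 3 := ⟨qF - 3, by omega⟩
    rw [hj, Nat.add_sub_cancel, show j + 3 - 2 = j + 1 by omega]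
    ring
  · rw [Finset.disjoint_left]
    rintro ⟨s, t⟩ h h'
    simp at h h'
    rcases h'.1 with rfl | rfl <;> rcases h'.2 with rfl | rfl <;> simp at h
  · rw [Finset.disjoint_left]
    rintro ⟨s, t⟩ h h'
    simp at h h'
    rcases h' with h' | h'
    · exact h'.1.1 h.2.symm
    · rcases h'.1 with rfl | rfl <;> simp at h

end Circle

/-- The solubilizer of `proj X` from that of its preimage. -/
theorem card_sol_proj (X : SL₂F) :
    Nat.card (Subgroup.center SL₂F) *
      Nat.card {y : PSL₂F // Group.IsSolvable (Subgroup.closure ({proj X, y} : Set PSL₂F))} = solCard X :=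
  (solCard_eq X).symm

theorem exists_root_of_split {X : SL₂F} (hord : orderOf (proj X) ∣ qF - 1) (ht4 : tr X ^ 2 ≠ 4)
    (hx1 : orderOf (proj X) ≠ 1) (hx2 : orderOf (proj X) ≠ 2) : ∃ l : F, l * l = tr X * l - 1 := by
  classical
  by_contra h
  have hc := card_centralizer ht4
  rw [if_neg h] at hc
  have hpow : X ^ (qF + 1) = 1 := by
    rw [← hc]
    exact congrArg Subtype.val
      (pow_card_eq_one' (x := (⟨X, Subgroup.mem_centralizer_singleton_iff.2 rfl⟩ :
        Subgroup.centralizer ({X} : Set SL₂F))))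
  have h1 : orderOf (proj X) ∣ qF + 1 := orderOf_dvd_of_pow_eq_one (by rw [← map_pow, hpow, map_one])
  have h2 := Nat.dvd_sub h1 hord
  have hq := Finite.one_lt_card (α := F)
  rw [show qF + 1 - (qF - 1) = 2 by omega] at h2
  rcases (Nat.dvd_prime Nat.prime_two).1 h2 with e | e
  · exact hx1 e
  · exact hx2 e

theorem not_root_of_nonsplit {X : SL₂F} (hord : orderOf (proj X) ∣ qF + 1) (ht4 : tr X ^ 2 ≠ 4)
    (hx1 : orderOf (proj X) ≠ 1) (hx2 : orderOf (proj X) ≠ 2) : ¬ ∃ l : F, l * l = tr X * l - 1 := by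
  classical
  intro h
  have hc := card_centralizer ht4
  rw [if_pos h] at hc
  have hpow : X ^ (qF - 1) = 1 := by
    rw [← hc]
    exact congrArg Subtype.val
      (pow_card_eq_one' (x := (⟨X, Subgroup.mem_centralizer_singleton_iff.2 rfl⟩ :
        Subgroup.centralizer ({X} : Set SL₂F))))
  have h1 : orderOf (proj X) ∣ qF - 1 := orderOf_dvd_of_pow_eq_one (by rw [← map_pow, hpow, map_one])
  have h2 := Nat.dvd_sub hord h1
  have hq := Finite.one_lt_card (α := F)
  rw [show qF + 1 - (qF - 1) = 2 by omega] at h2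
  rcases (Nat.dvd_prime Nat.prime_two).1 h2 with e | e
  · exact hx1 e
  · exact hx2 e

theorem exists_conj_diag {X : SL₂F} (ht4 : tr X ^ 2 ≠ 4) (h : ∃ l : F, l * l = tr X * l - 1) :
    ∃ (k : SL₂F) (l : Fˣ), k * X * k⁻¹ = diag l := by
  obtain ⟨k, hk⟩ := exists_conj_borel_of_root h
  obtain ⟨a, x, hx, ha⟩ := borel_exists hk
  have hne : (a : F) ^ 2 - 1 ≠ 0 := by
    intro h0
    apply ht4
    rw [← tr_conj X k]
    refine (tr_sq_eq_four_iff_borel hk).2 ?_
    rw [hx]
    simp [diag_coe, upS_coe, Matrix.mul_apply]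
    field_simp
    linear_combination h0
  refine ⟨upS ((a : F) ^ 2 * x / ((a : F) ^ 2 - 1) ) * k, a, ?_⟩
  generalize hz : (a : F) ^ 2 * x / ((a : F) ^ 2 - 1) = z
  have hinv : (upS z : SL₂F)⁻¹ = upS (-z) := inv_eq_of_mul_eq_one_right (by
    rw [← upS_add, add_neg_cancel, upS_zero])
  rw [show upS z * k * X * (upS z * k)⁻¹ = upS z * (k * X * k⁻¹) * (upS z)⁻¹ by group, hx, hinv]
  apply Subtype.ext
  have hz' : z * ((a : F) ^ 2 - 1) = (a : F) ^ 2 * x := by rw [← hz]; field_simp
  ext i j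
  fin_cases i <;> fin_cases j <;> simp [diag_coe, upS_coe, Matrix.mul_apply]
  field_simp
  linear_combination -hz'

theorem tr_sq_eq_four_iff_pow {p : ℕ} [CharP F p] [Fact p.Prime] {X : SL₂F} (h : tr X ^ 2 = 4) :
    proj X ^ p = 1 := by
  obtain ⟨k, ε, x, hε, hk⟩ := trichotomy h
  have hup : ∀ j : ℕ, (upS x : SL₂F) ^ j = upS ((j : F) * x) := by
    intro j
    induction j with
    | zero => rw [pow_zero, Nat.cast_zero, zero_mul, upS_zero]
    | succ j ih => rw [pow_succ, ih, ← upS_add]; congr 1; push_cast; ring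
  have h1 : proj (k * X * k⁻¹) ^ p = 1 := by
    rw [hk, map_mul, proj_eq_one_iff.2 hε, one_mul, ← map_pow, hup, CharP.cast_eq_zero, zero_mul,
      upS_zero, map_one]
  rw [map_mul, map_mul, map_inv, conj_pow] at h1
  calc proj X ^ p = (proj k)⁻¹ * (proj k * proj X ^ p * (proj k)⁻¹) * proj k := by group
    _ = 1 := by rw [h1]; group

end CfsgLib.OutAut
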