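/-
Further facts on the Suzuki groups: overgroups of a Sylow 2-subgroup, real 2-elements.
-/
import Mathlib
import Cfsg.Agent.Lib.Suzuki.Simple
import Cfsg.Agent.Lib.Suzuki.SylowTwo
import Cfsg.Agent.Lib.Suzuki.Torus

set_option autoImplicit false

namespace CfsgLib.OutAut

open CfsgLib.Suzuki
open scoped Pointwise

variable {F : Type*} [Field F] {m : ℕ} (h : Hyp F m)
include h

/-- Conjugation preserves a point stabiliser. -/
theorem mem_conjU_iff {k v : Cfsg.Sz F m} :
    v ∈ MulAut.conj k • h.U ↔ k⁻¹ * v * k ∈ h.U := by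
  rw [Subgroup.mem_pointwise_smul_iff_inv_smul_mem]
  simp

theorem conjU_fix {k v : Cfsg.Sz F m} (hv : v ∈ MulAut.conj k • h.U) :
    v • (k • oInf F m) = k • oInf F m :=
  h.fix_of_conj_mem_U ((mem_conjU_iff h).1 hv)

theorem conjU_fix_unique {k v : Cfsg.Sz F m} (hv : v ∈ MulAut.conj k • h.U) (hv1 : v ≠ 1)
    {p : Cfsg.suzukiOvoid F m} (hp : v • p = p) : p = k • oInf F m := by
  obtain ⟨a, b, hab⟩ := (mem_conjU_iff h).1 hv
  have hne : h.u a b ≠ 1 := fun e => hv1 (by
    rw [e] at hab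
    calc v = k * (k⁻¹ * v * k) * k⁻¹ := by group
      _ = 1 := by rw [hab]; group)
  have := h.u_fix hne (p := k⁻¹ • p) (by rw [← hab, mul_smul, mul_smul, smul_inv_smul, hp])
  rw [← this, smul_inv_smul]

theorem normalizer_conjU (k : Cfsg.Sz F m) :
    Subgroup.normalizer ((MulAut.conj k • h.U : Subgroup (Cfsg.Sz F m)) : Set (Cfsg.Sz F m)) =
      MulAction.stabilizer (Cfsg.Sz F m) (k • oInf F m) := by
  ext g
  rw [MulAction.mem_stabilizer_iff, Subgroup.mem_normalizer_iff]
  have key : k⁻¹ * g * k ∈ Subgroup.normalizer (h.U : Set (Cfsg.Sz F m)) ↔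
      g • (k • oInf F m) = k • oInf F m := by
    rw [h.normalizer_U, MulAction.mem_stabilizer_iff, mul_smul, mul_smul, inv_smul_eq_iff]
  rw [← key, Subgroup.mem_normalizer_iff]
  constructor
  · intro hg v
    have := hg (k * v * k⁻¹)
    rw [mem_conjU_iff h, mem_conjU_iff h] at this
    simpa [mul_assoc] using this
  · intro hg v
    rw [mem_conjU_iff h, mem_conjU_iff h, hg (k⁻¹ * v * k)]
    simp [mul_assoc]

/-- A subgroup containing a Sylow 2-subgroup and moving its fixed point is everything. -/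
theorem eq_top_of_conjU_le {k : Cfsg.Sz F m} {M : Subgroup (Cfsg.Sz F m)}
    (hM : MulAut.conj k • h.U ≤ M) (hg : ∃ g ∈ M, g • (k • oInf F m) ≠ k • oInf F m) : M = ⊤ := by
  obtain ⟨g, hg, hgp⟩ := hg
  set P := MulAut.conj k • h.U with hP
  have htrans : ∀ q : Cfsg.suzukiOvoid F m, q ≠ k • oInf F m →
      ∃ v ∈ P, v • (k • oPt m (0 : F) 0) = q := by
    intro q hq
    rcases ovoid_cases (k⁻¹ • q) with he | ⟨x, y, he⟩
    · exact absurd (inv_smul_eq_iff.1 he) hq
    · refine ⟨k * h.u x y * k⁻¹, (mem_conjU_iff h).2 ?_, ?_⟩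
      · simpa [mul_assoc] using h.u_mem_U x y
      · rw [mul_smul, mul_smul, inv_smul_smul, h.u_smul_zero, ← he, smul_inv_smul]
  have horb : ∀ q : Cfsg.suzukiOvoid F m, ∃ x ∈ M, x • (k • oInf F m) = q := by
    intro q
    by_cases hq : q = k • oInf F m
    · exact ⟨1, one_mem M, by rw [hq, one_smul]⟩
    · obtain ⟨v, hv, hvq⟩ := htrans q hq
      obtain ⟨w, hw, hwq⟩ := htrans _ hgp
      refine ⟨v * (w⁻¹ * g), mul_mem (hM hv) (mul_mem (inv_mem (hM hw)) hg), ?_⟩
      rw [mul_smul, mul_smul, ← hwq, inv_smul_smul, hvq]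
  have hconj : Group.conjugatesOfSet (P : Set (Cfsg.Sz F m)) ⊆ M := by
    intro y hy
    obtain ⟨v, hv, hvy⟩ := Group.mem_conjugatesOfSet_iff.1 hy
    obtain ⟨x, rfl⟩ := isConj_iff.1 hvy
    obtain ⟨x', hx', hx'p⟩ := horb (x • (k • oInf F m))
    have hb : x'⁻¹ * x ∈ Subgroup.normalizer (P : Set (Cfsg.Sz F m)) := by
      rw [hP, normalizer_conjU h, MulAction.mem_stabilizer_iff, mul_smul, inv_smul_eq_iff, hx'p]
    have := mul_mem (mul_mem hx' (hM ((Subgroup.mem_normalizer_iff.1 hb v).1 hv))) (inv_mem hx')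
    simpa [mul_assoc] using this
  have := h.isSimpleGroup
  rcases (Subgroup.normalClosure_normal (s := (P : Set (Cfsg.Sz F m)))).eq_bot_or_eq_top with h0 | h0
  · exfalso
    obtain ⟨a, b, hne⟩ := h.exists_u_ne_one
    apply hne
    have hmem : k * h.u a b * k⁻¹ ∈ Subgroup.normalClosure (P : Set (Cfsg.Sz F m)) :=
      Subgroup.subset_normalClosure ((mem_conjU_iff h).2 (by simpa [mul_assoc] using h.u_mem_U a b))
    rw [h0, Subgroup.mem_bot] at hmem
    simpa using hmem
  · rw [eq_top_iff, ← h0, Subgroup.normalClosure, Subgroup.closure_le]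
    exact hconj

/-- `θ(s) + s ≠ 1`. -/
theorem th_add_self_ne_one (s : F) : th m s + s ≠ 1 := by
  intro hs
  have h1 : th m s = 1 + s := by linear_combination hs - (s : F) * h.two_eq_zero
  have h2 := h.th_th s
  rw [h1, h.th_add, th_one, h1] at h2
  have h3 : s ^ 2 = s := by linear_combination -h2 + h.two_eq_zero
  have h4 : s = 0 ∨ s = 1 := by
    rcases eq_or_ne s 0 with h0 | h0
    · exact Or.inl h0
    · exact Or.inr (mul_left_cancel₀ h0 (by rw [mul_one, ← pow_two, h3]))
  rcases h4 with rfl | rfl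
  · rw [th_zero] at hs; simp at hs
  · rw [th_one, h.add_self] at hs; exact zero_ne_one hs

/-- An element of order 4 of `U` is not conjugate to its inverse. -/
theorem not_isConj_inv {a b : F} (ha : a ≠ 0) : ¬ IsConj (h.u a b) (h.u a b)⁻¹ := by
  intro hc
  obtain ⟨x, hx⟩ := isConj_iff.1 hc
  have hne : h.u a (b + th m a * a) ≠ 1 := fun e => ha (h.u_injective (e.trans h.u_zero.symm)).1
  rw [h.u_inv] at hx
  have hfix : x • oInf F m = oInf F m := h.u_fix hne (by
    rw [← hx, mul_smul, mul_smul, inv_smul_smul, h.u_smul_inf])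
  obtain ⟨c, e, t, rfl⟩ := h.eq_u_mul_d hfix
  have key : h.u c e * h.u (kap m t * a) (th m (kap m t) * kap m t * b) =
      h.u a (b + th m a * a) * h.u c e := by
    rw [← h.d_u, ← hx]; group
  rw [h.u_mul, h.u_mul] at key
  obtain ⟨k1, k2⟩ := h.u_injective key
  have hk : kap m t = 1 := mul_right_cancel₀ ha (by linear_combination k1)
  rw [hk, th_one] at k2
  simp only [one_mul] at k2
  have key2 : th m c * a + th m a * c = th m a * a := by
    linear_combination k2 + (th m a * c) * h.two_eq_zero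
  have hθ : th m a ≠ 0 := th_ne_zero ha
  apply th_add_self_ne_one h (c / a)
  rw [th_div]
  field_simp
  linear_combination key2

end CfsgLib.OutAut
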