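import Mathlib
import Cfsg.Agent.Lib.OutAut.SymSylowStructure
import Cfsg.Agent.Lib.OutAut.NilpotentArith
import Cfsg.Agent.Lib.OutAut.CentralPrime

/-!
Direct decomposability of the Sylow 2-subgroups of symmetric and alternating groups.
-/

set_option autoImplicit false
set_option linter.style.haveILetI false
set_option linter.unusedSectionVars false

namespace CfsgLib.OutAut

open Equiv NilArith

/-- A subgroup of Sylow order through an embedding is isomorphic to the Sylow subgroup. -/
theorem sylow_equiv_of_embedding {G H : Type*} [Group G] [Group H] [Finite H] (f : G →* H)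
    (hf : Function.Injective f) (hG : IsPGroup 2 G) (P : Sylow 2 H)
    (hcard : Nat.card G = Nat.card P) : Nonempty (G ≃* ↥(P : Subgroup H)) := by
  haveI : Fact (Nat.Prime 2) := ⟨Nat.prime_two⟩
  have hp : IsPGroup 2 f.range := hG.of_surjective f.rangeRestrict f.rangeRestrict_surjective
  obtain ⟨Q, hQ⟩ := hp.exists_le_sylow
  have hQ' : f.range = (Q : Subgroup H) := by
    refine Subgroup.eq_of_le_of_card_ge hQ (le_of_eq ?_)
    rw [← Nat.card_congr (MonoidHom.ofInjective hf).toEquiv, hcard, Q.card_eq_multiplicity,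
      P.card_eq_multiplicity]
  exact ⟨((MonoidHom.ofInjective hf).trans (MulEquiv.subgroupCongr hQ')).trans (Q.equiv P)⟩

section Perm

variable {α : Type*} [Fintype α] [DecidableEq α]

theorem sylowTwo_card (T : Sylow 2 (Perm α)) : Nat.card T = 2 ^ e2 (Fintype.card α) := by
  haveI : Fact (Nat.Prime 2) := ⟨Nat.prime_two⟩
  rw [T.card_eq_multiplicity, Nat.card_eq_fintype_card, Fintype.card_perm]
  rfl

theorem exists_conj_mem_sylow (T : Sylow 2 (Perm α)) (c : Perm α) {k : ℕ}
    (hc : orderOf c = 2 ^ k) : ∃ g : Perm α, g * c * g⁻¹ ∈ T := by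
  haveI : Fact (Nat.Prime 2) := ⟨Nat.prime_two⟩
  obtain ⟨Q, hQ⟩ := (IsPGroup.of_card (p := 2) (n := k)
    (by rw [Nat.card_zpowers, hc] : Nat.card (Subgroup.zpowers c) = 2 ^ k)).exists_le_sylow
  obtain ⟨g, hg⟩ := MulAction.exists_smul_eq (Perm α) Q T
  refine ⟨g, ?_⟩
  rw [← hg]
  exact (Subgroup.smul_mem_pointwise_smul c (MulAut.conj g) _ (hQ (Subgroup.mem_zpowers c)) :)

theorem exists_swap_mem_sylow (T : Sylow 2 (Perm α)) (h : 2 ≤ Fintype.card α) :
    ∃ a b : α, a ≠ b ∧ swap a b ∈ T := by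
  obtain ⟨a, b, hab⟩ := Fintype.exists_pair_of_one_lt_card (show 1 < Fintype.card α by omega)
  obtain ⟨g, hg⟩ := exists_conj_mem_sylow T (swap a b) (k := 1)
    (by rw [pow_one]; exact (Perm.isCycle_swap hab).orderOf.trans (Perm.card_support_swap hab))
  refine ⟨g a, g b, fun h => hab (g.injective h), ?_⟩
  rw [← Equiv.swap_apply_apply] at hg
  exact hg

theorem mem_zpowers_of_commute {g x : Perm α} (hg : g.IsCycle) (hs : g.support = Finset.univ)
    (h : Commute x g) : x ∈ Subgroup.zpowers g := by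
  have hcard : Nat.card (Subgroup.centralizer ({g} : Set (Perm α))) =
      Nat.card (Subgroup.zpowers g) := by
    rw [Perm.nat_card_centralizer, hg.cycleType, Nat.card_zpowers, hg.orderOf, hs]
    simp
  have hle : Subgroup.zpowers g ≤ Subgroup.centralizer ({g} : Set (Perm α)) :=
    Subgroup.zpowers_le.2 (Subgroup.mem_centralizer_singleton_iff.2 rfl)
  rw [Subgroup.eq_of_le_of_card_ge hle hcard.le]
  exact Subgroup.mem_centralizer_singleton_iff.2 h.eq

theorem exists_cycle_mem_sylow (T : Sylow 2 (Perm α)) {k : ℕ} (hk : Fintype.card α = 2 ^ k)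
    (hk1 : 1 ≤ k) : ∃ g ∈ T, g.IsCycle ∧ g.support = Finset.univ := by
  have h2 : 2 ≤ 2 ^ k := Nat.le_self_pow (by omega) 2
  let e : Fin (2 ^ k) ≃ α := (Fintype.equivFinOfCardEq hk).symm
  set c : Perm α := (finRotate (2 ^ k)).extendDomain
    (e.trans (Equiv.subtypeUnivEquiv (p := fun _ : α => True) fun _ => trivial).symm) with hc
  have hcc : c.cycleType = (finRotate (2 ^ k)).cycleType := Perm.cycleType_extendDomain _
  have hcyc : c.IsCycle := by
    rw [← Perm.card_cycleType_eq_one, hcc, Perm.card_cycleType_eq_one]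
    exact isCycle_finRotate_of_le h2
  have hord : orderOf c = 2 ^ k := by
    rw [← Perm.lcm_cycleType, hcc, Perm.lcm_cycleType, (isCycle_finRotate_of_le h2).orderOf,
      support_finRotate_of_le h2, Finset.card_univ, Fintype.card_fin]
  obtain ⟨g, hg⟩ := exists_conj_mem_sylow T c hord
  refine ⟨_, hg, hcyc.conj, Finset.eq_univ_of_card _ ?_⟩
  rw [← hcyc.conj.orderOf, orderOf_eq_orderOf_of_conj hord, hk]
where
  orderOf_eq_orderOf_of_conj {g c : Perm α} {m : ℕ} (h : orderOf c = m) :
      orderOf (g * c * g⁻¹) = m := by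
    rw [← h]
    exact orderOf_injective (MulAut.conj g).toMonoidHom (MulAut.conj g).injective c

theorem centrallyPrime_sylow (T : Sylow 2 (Perm α)) {k : ℕ} (hk : Fintype.card α = 2 ^ k) :
    CentrallyPrime (T : Subgroup (Perm α)) := by
  intro U V hc hs
  rcases Nat.eq_zero_or_pos k with rfl | hk1
  · haveI : Subsingleton α := Fintype.card_le_one_iff_subsingleton.1 (by rw [hk]; norm_num)
    left; rw [eq_top_iff]; intro x _
    rw [Subsingleton.elim x 1]; exact one_mem U
  obtain ⟨g, hg, hcyc, hsupp⟩ := exists_cycle_mem_sylow T hk hk1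
  set G : (T : Subgroup (Perm α)) := ⟨g, hg⟩ with hG
  have hord : orderOf G = 2 ^ k := by
    rw [← Subgroup.orderOf_coe]
    show orderOf g = _
    rw [hcyc.orderOf, hsupp, Finset.card_univ, hk]
  obtain ⟨u, hu, v, hv, huv⟩ := exists_mul_of_commute hc hs G
  have hcu : Commute u G := by rw [huv]; exact (Commute.refl u).mul_right (hc u hu v hv)
  have hcv : Commute v G := by rw [huv]; exact (hc u hu v hv).symm.trans rfl |> fun h =>
    (show Commute v u from h).mul_right (Commute.refl v)
  have hmem : ∀ x : (T : Subgroup (Perm α)), Commute x G → x ∈ Subgroup.zpowers G := by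
    intro x hx
    obtain ⟨i, hi⟩ := Subgroup.mem_zpowers_iff.1
      (mem_zpowers_of_commute hcyc hsupp (congrArg Subtype.val hx.eq : Commute (x : Perm α) g))
    exact Subgroup.mem_zpowers_iff.2 ⟨i, Subtype.ext (by rw [SubgroupClass.coe_zpow]; exact hi)⟩
  have hfull : ∀ x : (T : Subgroup (Perm α)), x ∈ Subgroup.zpowers G →
      ¬ orderOf x ∣ 2 ^ (k - 1) → G ∈ Subgroup.zpowers x := by
    intro x hx hnd
    obtain ⟨j, hj, hjx⟩ := (Nat.dvd_prime_pow Nat.prime_two).1 (hord ▸ orderOf_dvd_of_mem_zpowers hx)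
    have : j = k := by
      by_contra hne
      exact hnd (hjx ▸ pow_dvd_pow 2 (by omega))
    rw [Subgroup.eq_of_le_of_card_ge (Subgroup.zpowers_le.2 hx)
      (by rw [Nat.card_zpowers, Nat.card_zpowers, hord, hjx, this])]
    exact Subgroup.mem_zpowers G
  have hcase : G ∈ Subgroup.zpowers u ∨ G ∈ Subgroup.zpowers v := by
    by_cases h1 : orderOf u ∣ 2 ^ (k - 1)
    · by_cases h2 : orderOf v ∣ 2 ^ (k - 1)
      · exfalso
        have h3 : G ^ 2 ^ (k - 1) = 1 := by
          rw [huv, (show Commute u v from hc u hu v hv).mul_pow, orderOf_dvd_iff_pow_eq_one.1 h1,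
            orderOf_dvd_iff_pow_eq_one.1 h2, one_mul]
        have := orderOf_dvd_of_pow_eq_one h3
        rw [hord, Nat.pow_dvd_pow_iff_le_right (by norm_num)] at this
        omega
      · exact Or.inr (hfull v (hmem v hcv) h2)
    · exact Or.inl (hfull u (hmem u hcu) h1)
  rcases hcase with h | h
  · left
    have hGU : G ∈ U := Subgroup.zpowers_le.2 hu h
    have hVU : V ≤ U := fun y hy => Subgroup.zpowers_le.2 hGU (hmem y (hc G hGU y hy).symm)
    rw [← hs, sup_of_le_left hVU]
  · right
    have hGV : G ∈ V := Subgroup.zpowers_le.2 hv h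
    have hUV : U ≤ V := fun y hy => Subgroup.zpowers_le.2 hGV (hmem y (hc y hy G hGV))
    rw [← hs, sup_of_le_right hUV]

/-- Central elements are squares when the degree is a power of two at least four. -/
theorem center_sylow_square (T : Sylow 2 (Perm α)) {k : ℕ} (hk : Fintype.card α = 2 ^ k)
    (hk2 : 2 ≤ k) {g : Perm α} (hg : g ∈ T) (hcyc : g.IsCycle) (hsupp : g.support = Finset.univ)
    {z : Perm α} (hzT : z ∈ T) (hz : ∀ x ∈ T, x * z = z * x) :
    ∃ i : ℕ, z = (g ^ i) * (g ^ i) := by
  obtain ⟨m, hm⟩ := mem_powers_iff_mem_zpowers.2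
    (mem_zpowers_of_commute hcyc hsupp (hz g hg).symm)
  change g ^ m = z at hm
  rcases Nat.even_or_odd m with ⟨i, rfl⟩ | hodd
  · exact ⟨i, by rw [← hm, pow_add]⟩
  exfalso
  have hord : orderOf g = 2 ^ k := by rw [hcyc.orderOf, hsupp, Finset.card_univ, hk]
  obtain ⟨a, b, hab, ht⟩ := exists_swap_mem_sylow T
    (by rw [hk]; exact le_trans (by norm_num) (Nat.pow_le_pow_right two_pos hk2))
  have hco : Nat.Coprime (orderOf g) m := by
    rw [hord]; exact (Nat.coprime_two_left.2 hodd).pow_left k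
  have hgz : g ∈ Subgroup.zpowers z := by
    rw [← hm]
    obtain ⟨j, hj⟩ := exists_pow_eq_self_of_coprime (x := g) hco.symm
    exact Subgroup.mem_zpowers_iff.2 ⟨j, by rw [zpow_natCast]; exact hj⟩
  have hcomm : Commute (swap a b) g := by
    obtain ⟨j, hj⟩ := Subgroup.mem_zpowers_iff.1 hgz
    rw [← hj]
    exact (show Commute (swap a b) z from hz _ ht).zpow_right j
  obtain ⟨l, hl⟩ := mem_powers_iff_mem_zpowers.2
    (mem_zpowers_of_commute hcyc hsupp hcomm)
  change g ^ l = swap a b at hl
  obtain ⟨c, -, hca⟩ := Finset.exists_mem_notMem_of_card_lt_card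
    (s := ({a, b} : Finset α)) (t := Finset.univ) (by
      rw [Finset.card_pair hab, Finset.card_univ, hk]
      exact lt_of_lt_of_le (by norm_num) (Nat.pow_le_pow_right two_pos hk2))
  simp only [Finset.mem_insert, Finset.mem_singleton, not_or] at hca
  have hfix : (g ^ l) c = c := by rw [hl]; exact swap_apply_of_ne_of_ne hca.1 hca.2
  have hc' : g c ≠ c := Perm.mem_support.1 (by rw [hsupp]; exact Finset.mem_univ c)
  have := hcyc.pow_eq_one_iff.2 ⟨c, hc', hfix⟩
  rw [hl, Equiv.Perm.one_def, swap_eq_refl_iff] at this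
  exact hab this

end Perm

/-! ### Decomposition into binary blocks -/

theorem e2_two_pow_add : ∀ (k : ℕ) {b : ℕ}, b < 2 ^ k → e2 (2 ^ k + b) = e2 (2 ^ k) + e2 b := by
  intro k
  induction k with
  | zero =>
    intro b hb
    have : b = 0 := by simpa using hb
    subst this
    simp [e2_zero]
  | succ k ih =>
    intro b hb
    rw [pow_succ'] at hb
    rcases Nat.even_or_odd' b with ⟨m, rfl | rfl⟩
    · rw [pow_succ', ← mul_add, e2_double, e2_double, e2_double, ih (by omega)]; omega
    · rw [pow_succ', ← add_assoc, ← mul_add, e2_double_succ, e2_double, e2_double, e2_double_succ,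
        e2_double, ih (by omega)]
      omega

theorem e2_sum_two_pow (s : Finset ℕ) : e2 (∑ k ∈ s, 2 ^ k) = ∑ k ∈ s, e2 (2 ^ k) := by
  induction s using Finset.induction_on_max with
  | empty => simp [e2_zero]
  | insert a s ha ih =>
    have hni : a ∉ s := fun h => lt_irrefl a (ha a h)
    rw [Finset.sum_insert hni, Finset.sum_insert hni, e2_two_pow_add a (Nat.geomSum_lt le_rfl ha), ih]

/-- The binary digits of `n`. -/
def bits (n : ℕ) : Finset ℕ := n.bitIndices.toFinset

theorem bits_sum (n : ℕ) : ∑ k ∈ bits n, 2 ^ k = n := by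
  rw [bits, List.sum_toFinset _ Nat.bitIndices_nodup]
  exact Nat.sum_map_two_pow_bitIndices n

/-- A fixed Sylow 2-subgroup of `Sym (2 ^ k)`. -/
noncomputable def blockSylow (k : ℕ) : Sylow 2 (Perm (Fin (2 ^ k))) := Classical.arbitrary _

/-- The block product. -/
abbrev BlockProd (n : ℕ) : Type :=
  ∀ i : ↥(bits n), ↥(blockSylow (i : ℕ) : Subgroup (Perm (Fin (2 ^ (i : ℕ)))))

/-- The parities on the blocks. -/
noncomputable def blockSign (n : ℕ) (i : ↥(bits n)) :
    ↥(blockSylow (i : ℕ) : Subgroup (Perm (Fin (2 ^ (i : ℕ))))) →* ℤˣ :=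
  Perm.sign.comp (Subgroup.subtype _)

theorem isPGroup_blockProd (n : ℕ) : IsPGroup 2 (BlockProd n) := by
  intro x
  have hex : ∀ i, ∃ k, x i ^ 2 ^ k = 1 := fun i => (blockSylow (i : ℕ)).isPGroup' _
  choose f hf using hex
  refine ⟨Finset.univ.sup f, funext fun i => ?_⟩
  obtain ⟨d, hd⟩ := pow_dvd_pow 2 (Finset.le_sup (f := f) (Finset.mem_univ i))
  rw [Pi.pow_apply, hd, pow_mul, hf, one_pow]
  rfl

theorem card_blockProd (n : ℕ) : Nat.card (BlockProd n) = 2 ^ e2 n := by
  rw [Nat.card_pi]
  conv_rhs => rw [← bits_sum n, e2_sum_two_pow, ← Finset.prod_pow_eq_pow_sum, ← Finset.prod_coe_sort]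
  exact Finset.prod_congr rfl fun i _ => (sylowTwo_card (blockSylow (i : ℕ))).trans
    (by rw [Fintype.card_fin])

theorem exists_blockHom (n : ℕ) : ∃ f : BlockProd n →* Perm (Fin n), Function.Injective f ∧
    ∀ x, Perm.sign (f x) = parity (blockSign n) x := by
  let e : (Σ i : ↥(bits n), Fin (2 ^ (i : ℕ))) ≃ Fin n := Fintype.equivFinOfCardEq (by
    rw [Fintype.card_sigma]
    simp only [Fintype.card_fin]
    rw [Finset.sum_coe_sort (bits n) (fun k => 2 ^ k)]
    exact bits_sum n)
  let ι : BlockProd n →* ((i : ↥(bits n)) → Perm (Fin (2 ^ (i : ℕ)))) :=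
    Pi.monoidHom fun i => (Subgroup.subtype _).comp (Pi.evalMonoidHom _ i)
  refine ⟨(e.permCongrHom.toMonoidHom.comp (Perm.sigmaCongrRightHom _)).comp ι, ?_, ?_⟩
  · intro x y h
    have h' := Perm.sigmaCongrRightHom_injective (e.permCongrHom.injective h)
    exact funext fun i => Subtype.ext (congrFun h' i)
  · intro x
    have hsigma : ∀ F : (i : ↥(bits n)) → Perm (Fin (2 ^ (i : ℕ))),
        Perm.sign (Perm.sigmaCongrRightHom _ F) = ∏ i, Perm.sign (F i) := by
      have : (Perm.sign.comp (Perm.sigmaCongrRightHom fun i : ↥(bits n) => Fin (2 ^ (i : ℕ)))) =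
          parity (fun i : ↥(bits n) => (Perm.sign : Perm (Fin (2 ^ (i : ℕ))) →* ℤˣ)) := by
        refine MonoidHom.pi_ext fun i σ => ?_
        rw [parity_mulSingle]
        induction σ using Perm.swap_induction_on with
        | one => simp
        | swap_mul f a b hab ih =>
          rw [Pi.mulSingle_mul, map_mul, ih, map_mul]
          congr 1
          have hsw : Perm.sigmaCongrRightHom (fun i : ↥(bits n) => Fin (2 ^ (i : ℕ)))
              (Pi.mulSingle i (swap a b)) = swap ⟨i, a⟩ ⟨i, b⟩ := by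
            apply Equiv.ext
            rintro ⟨j, c⟩
            show (⟨j, (Pi.mulSingle i (swap a b) : (j : ↥(bits n)) → Perm (Fin (2 ^ (j : ℕ)))) j c⟩ :
              Σ j : ↥(bits n), Fin (2 ^ (j : ℕ))) = _
            rcases eq_or_ne j i with rfl | hj
            · rw [Pi.mulSingle_eq_same, swap_apply_def, swap_apply_def]
              split_ifs <;> simp_all
            · rw [Pi.mulSingle_eq_of_ne hj, swap_apply_of_ne_of_ne (by simp [hj]) (by simp [hj])]
              rfl
          rw [MonoidHom.comp_apply, hsw, Perm.sign_swap (by simpa using hab), Perm.sign_swap hab]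
      intro F
      rw [← MonoidHom.comp_apply, this, parity_apply]
    show Perm.sign (e.permCongr (Perm.sigmaCongrRightHom _ (ι x))) = _
    rw [Perm.sign_permCongr, hsigma, parity_apply]
    rfl

theorem sylowTwo_sym_equiv (n : ℕ) (T : Sylow 2 (Perm (Fin n))) :
    Nonempty (BlockProd n ≃* ↥(T : Subgroup (Perm (Fin n)))) := by
  obtain ⟨f, hf, -⟩ := exists_blockHom n
  exact sylow_equiv_of_embedding f hf (isPGroup_blockProd n) T
    (by rw [card_blockProd, sylowTwo_card, Fintype.card_fin])

theorem nontrivial_blockSylow {k : ℕ} (hk : 1 ≤ k) :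
    Nontrivial ↥(blockSylow k : Subgroup (Perm (Fin (2 ^ k)))) := by
  rw [← Finite.one_lt_card_iff_nontrivial]
  have h := sylowTwo_card (blockSylow k)
  rw [Fintype.card_fin] at h
  rw [h]
  exact Nat.one_lt_two_pow (by have := one_le_e2 (Nat.le_self_pow (by omega : k ≠ 0) 2); omega)

theorem one_le_of_mem_bits {n k : ℕ} (hn : n % 2 = 0) (hk : k ∈ bits n) : 1 ≤ k := by
  rw [bits, List.mem_toFinset, Nat.mem_bitIndices] at hk
  rcases Nat.eq_zero_or_pos k with rfl | h
  · simp [Nat.testBit_zero, hn] at hk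
  · exact h

theorem two_le_of_mem_bits {n k : ℕ} (hn : n % 4 = 0) (hk : k ∈ bits n) : 2 ≤ k := by
  have h1 := one_le_of_mem_bits (by omega) hk
  rw [bits, List.mem_toFinset, Nat.mem_bitIndices] at hk
  rcases eq_or_lt_of_le h1 with rfl | h
  · simp [Nat.testBit_succ, Nat.testBit_zero, show n / 2 % 2 = 0 by omega] at hk
  · exact h

theorem bits_card_le_one {n : ℕ} (hn : n ≠ 0) (h : (bits n).card ≤ 1) : ∃ k, n = 2 ^ k := by
  have h0 := bits_sum n
  rcases Nat.eq_zero_or_pos (bits n).card with h1 | h1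
  · rw [Finset.card_eq_zero.1 h1, Finset.sum_empty] at h0; exact absurd h0.symm hn
  · obtain ⟨a, ha⟩ := Finset.card_eq_one.1 (show (bits n).card = 1 by omega)
    exact ⟨a, by rw [ha, Finset.sum_singleton] at h0; exact h0.symm⟩

theorem bits_two_pow (k : ℕ) : bits (2 ^ k) = {k} := by simp [bits]

/-- A Sylow 2-subgroup of `Sym n`, `n` even, is decomposable iff `n` is not a power of two. -/
theorem sym_decomposable_iff {n : ℕ} (hn : n % 2 = 0) (hn0 : n ≠ 0) (T : Sylow 2 (Perm (Fin n))) :
    Decomposable ↥(T : Subgroup (Perm (Fin n))) ↔ ∀ k, n ≠ 2 ^ k := by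
  constructor
  · intro h k hk
    exact not_decomposable_of_prime (centrallyPrime_sylow T (by rw [Fintype.card_fin, hk])) h
  · intro h
    obtain ⟨e⟩ := sylowTwo_sym_equiv n T
    rw [← decomposable_congr e]
    have h2 : 1 < (bits n).card := by
      by_contra hle
      obtain ⟨k, hk⟩ := bits_card_le_one hn0 (by omega)
      exact h k hk
    obtain ⟨a, ha, b, hb, hab⟩ := Finset.one_lt_card.1 h2
    haveI := nontrivial_blockSylow (one_le_of_mem_bits hn ha)
    haveI := nontrivial_blockSylow (one_le_of_mem_bits hn hb)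
    exact decomposable_pi (T := fun i : ↥(bits n) =>
      ↥(blockSylow (i : ℕ) : Subgroup (Perm (Fin (2 ^ (i : ℕ))))))
      (i := ⟨a, ha⟩) (j := ⟨b, hb⟩) (fun e => hab (congrArg Subtype.val e))

theorem two_mul_altSylow_card {n : ℕ} (hn : 2 ≤ n) (P : Sylow 2 (alternatingGroup (Fin n))) :
    2 * Nat.card P = 2 ^ e2 n := by
  haveI : Nontrivial (Fin n) := Fin.nontrivial_iff_two_le.2 hn
  haveI : Fact (Nat.Prime 2) := ⟨Nat.prime_two⟩
  have h := two_mul_nat_card_alternatingGroup (α := Fin n)
  rw [Nat.card_eq_fintype_card (α := Perm (Fin n)), Fintype.card_perm, Fintype.card_fin] at h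
  rw [P.card_eq_multiplicity, e2, ← h,
    Nat.factorization_mul two_ne_zero Nat.card_pos.ne', Finsupp.add_apply,
    Nat.prime_two.factorization_self, pow_add, pow_one]

/-- Blocks of size at least four: the even part is indecomposable. -/
theorem not_decomposable_blocks {n : ℕ} (h4 : n % 4 = 0) (h : ∀ k, n ≠ 2 ^ k) (hn : 4 ≤ n)
    (P : Sylow 2 (alternatingGroup (Fin n))) :
    ¬ Decomposable ↥(P : Subgroup (alternatingGroup (Fin n))) := by
  have h2 : 2 ≤ Fintype.card ↥(bits n) := by
    rw [Fintype.card_coe]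
    by_contra hle
    obtain ⟨k, hk⟩ := bits_card_le_one (by omega : n ≠ 0) (by omega)
    exact h k hk
  obtain ⟨f, hf, hsign⟩ := exists_blockHom n
  let g : (parity (blockSign n)).ker →* alternatingGroup (Fin n) :=
    (f.comp (parity (blockSign n)).ker.subtype).codRestrict _ fun x =>
      Perm.mem_alternatingGroup.2 ((hsign x).trans x.2)
  have hodd : ∀ i, ∃ t, t * t = 1 ∧ blockSign n i t = -1 := by
    intro i
    obtain ⟨a, b, hab, ht⟩ := exists_swap_mem_sylow (blockSylow (i : ℕ)) (by
      rw [Fintype.card_fin]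
      exact Nat.le_self_pow (by have := two_le_of_mem_bits h4 i.2; omega) 2)
    exact ⟨⟨swap a b, ht⟩, Subtype.ext (swap_mul_self a b), Perm.sign_swap hab⟩
  have hsurj : Function.Surjective (parity (blockSign n)) := by
    intro u
    rcases Int.units_eq_one_or u with rfl | rfl
    · exact ⟨1, map_one _⟩
    · obtain ⟨i⟩ : Nonempty ↥(bits n) := Fintype.card_pos_iff.1 (by omega)
      obtain ⟨t, -, ht⟩ := hodd i
      exact ⟨Pi.mulSingle i t, by rw [parity_mulSingle, ht]⟩
  have hcard : Nat.card (parity (blockSign n)).ker = Nat.card P := by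
    have h1 := (parity (blockSign n)).ker.card_mul_index
    rw [Subgroup.index_ker, MonoidHom.range_eq_top.2 hsurj, Subgroup.card_top, card_blockProd,
      Nat.card_eq_fintype_card (α := ℤˣ), Fintype.card_units_int,
      ← two_mul_altSylow_card (by omega) P] at h1
    omega
  obtain ⟨e⟩ := sylow_equiv_of_embedding g
    (fun x y hxy => Subtype.ext (hf (congrArg Subtype.val hxy)))
    ((isPGroup_blockProd n).to_subgroup _) P hcard
  rw [← decomposable_congr e]
  refine not_decomposable_parity_ker (fun i => (blockSylow (i : ℕ)).isPGroup') hodd ?_ h2 fun i =>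
    centrallyPrime_sylow (blockSylow (i : ℕ)) (Fintype.card_fin _)
  intro i z hz
  have hk2 := two_le_of_mem_bits h4 i.2
  obtain ⟨c, hc, hcyc, hsupp⟩ := exists_cycle_mem_sylow (blockSylow (i : ℕ)) (Fintype.card_fin _)
    (by omega)
  obtain ⟨j, hj⟩ := center_sylow_square (blockSylow (i : ℕ)) (Fintype.card_fin _) hk2 hc hcyc hsupp z.2
    fun x hx => congrArg Subtype.val (Subgroup.mem_center_iff.1 hz ⟨x, hx⟩)
  refine ⟨?_, ⟨c ^ j, pow_mem hc j⟩, Subtype.ext hj⟩
  show Perm.sign (z : Perm (Fin (2 ^ (i : ℕ)))) = 1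
  rw [hj, map_mul, Int.units_mul_self]

/-- A single block: the centre of the even part is cyclic. -/
theorem not_decomposable_two_pow {n k : ℕ} (hk : n = 2 ^ k) (hn : 8 ≤ n)
    (P : Sylow 2 (alternatingGroup (Fin n))) :
    ¬ Decomposable ↥(P : Subgroup (alternatingGroup (Fin n))) := by
  haveI : Fact (Nat.Prime 2) := ⟨Nat.prime_two⟩
  obtain ⟨T, hT⟩ := exists_sylowTwo_perm P
  obtain ⟨z, hzz, hzc, hzs, hzf⟩ := hasFlip_sylow T
  obtain ⟨g, hg, hcyc, hsupp⟩ := exists_cycle_mem_sylow T (k := k) (by rw [Fintype.card_fin, hk])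
    (by rcases Nat.eq_zero_or_pos k with rfl | h <;> omega)
  have hfix : (Finset.univ.filter fun x => z x = x).card ≤ 1 := by
    rcases hzf with h | ⟨p, hp, -⟩
    · rw [Finset.filter_eq_empty_iff.2 fun x _ => h x]; simp
    · refine le_trans (Finset.card_le_card (t := {p}) fun x hx => ?_) (Finset.card_singleton p).le
      exact Finset.mem_singleton.2 ((hp x).1 (Finset.mem_filter.1 hx).2)
  -- the centre of `P` is generated inside the cycle
  have key : ∀ x : ↥(P : Subgroup (alternatingGroup (Fin n))), x ∈ Subgroup.center _ →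
      ((x : alternatingGroup (Fin n)) : Perm (Fin n)) ∈ Subgroup.zpowers g := by
    intro x hx
    set ξ : Perm (Fin n) := ((x : alternatingGroup (Fin n)) : Perm (Fin n)) with hξ
    have hcomm : ∀ y ∈ T, Perm.sign y = 1 → Commute ξ y := fun y hy hy1 =>
      (congrArg (fun w : ↥(P : Subgroup (alternatingGroup (Fin n))) =>
        ((w : alternatingGroup (Fin n)) : Perm (Fin n)))
        (Subgroup.mem_center_iff.1 hx ⟨⟨y, Perm.mem_alternatingGroup.2 hy1⟩, (hT _).2 hy⟩)).symm
    have hξT : ξ ∈ T := (hT _).1 x.2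
    -- three pairs
    have h5 : ∀ s : Finset (Fin n), s.card ≤ 4 → ∃ a, a ∉ s ∧ z a ≠ a := by
      intro s hs
      obtain ⟨a, -, ha⟩ := Finset.exists_mem_notMem_of_card_lt_card
        (s := s ∪ Finset.univ.filter fun x => z x = x) (t := Finset.univ) (by
          refine lt_of_le_of_lt (Finset.card_union_le _ _) ?_
          rw [Finset.card_univ, Fintype.card_fin]; omega)
      simp only [Finset.mem_union, Finset.mem_filter, Finset.mem_univ, true_and, not_or] at ha
      exact ⟨a, ha.1, ha.2⟩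
    obtain ⟨a, -, ha⟩ := h5 ∅ (by simp)
    obtain ⟨b, hb', hb⟩ := h5 {a, z a} (le_trans Finset.card_le_two (by norm_num))
    obtain ⟨c, hc', hc⟩ := h5 {a, z a, b, z b} Finset.card_le_four
    simp only [Finset.mem_insert, Finset.mem_singleton, not_or] at hb' hc'
    have hzb : z b ≠ a ∧ z b ≠ z a := ⟨fun h => hb'.2 (by rw [← h, hzz]), fun h => hb'.1 (z.injective h)⟩
    have hzc' : z c ≠ a ∧ z c ≠ z a ∧ z c ≠ b ∧ z c ≠ z b :=
      ⟨fun h => hc'.2.1 (by rw [← h, hzz]), fun h => hc'.1 (z.injective h),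
        fun h => hc'.2.2.2 (by rw [← h, hzz]), fun h => hc'.2.2.1 (z.injective h)⟩
    have hpair : ∀ d, z d ≠ d → d ≠ a → d ≠ z a → z d ≠ a → z d ≠ z a →
        ξ a = a ∨ ξ a = z a ∨ ξ a = d ∨ ξ a = z d := by
      intro d hd h1 h2 h3 h4
      have hw := hcomm (swap a (z a) * swap d (z d)) (mul_mem (hzs a) (hzs d))
        (by rw [map_mul, Perm.sign_swap ha.symm, Perm.sign_swap hd.symm]; rfl)
      by_contra hcon
      simp only [not_or] at hcon
      have h := Equiv.ext_iff.1 hw.eq a
      simp only [Perm.mul_apply] at h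
      rw [swap_apply_of_ne_of_ne h1.symm h3.symm, swap_apply_left,
        swap_apply_of_ne_of_ne hcon.2.2.1 hcon.2.2.2, swap_apply_of_ne_of_ne hcon.1 hcon.2.1] at h
      exact ha (ξ.injective h)
    have hξa : ξ a = a ∨ ξ a = z a := by
      rcases hpair b hb hb'.1 hb'.2 hzb.1 hzb.2 with h | h | h
      · exact Or.inl h
      · exact Or.inr h
      rcases hpair c hc hc'.1 hc'.2.1 hzc'.1 hzc'.2.1 with h' | h' | h'
      · exact Or.inl h'
      · exact Or.inr h'
      rcases h with h | h <;> rcases h' with h' | h' <;> rw [h] at h'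
      · exact absurd h'.symm hc'.2.2.1
      · exact absurd h'.symm hzc'.2.2.1
      · exact absurd h'.symm hc'.2.2.2
      · exact absurd h'.symm hzc'.2.2.2
    have hτ : Commute ξ (swap a (z a)) := by
      show ξ * swap a (z a) = swap a (z a) * ξ
      rw [Equiv.mul_swap_eq_swap_mul, hzc ξ hξT a]
      rcases hξa with h | h <;> rw [h]
      rw [hzz, swap_comm]
    apply mem_zpowers_of_commute hcyc hsupp
    rcases Int.units_eq_one_or (Perm.sign g) with h | h
    · exact hcomm g hg h
    · have h1 := (hcomm (g * swap a (z a)) (mul_mem hg (hzs a))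
        (by rw [map_mul, h, Perm.sign_swap ha.symm]; rfl)).mul_right hτ
      rwa [mul_assoc, swap_mul_self, mul_one] at h1
  refine not_decomposable_of_center P.isPGroup' fun u hu v hv hu2 hv2 hu1 hv1 => ?_
  have hu' : (⟨_, key u hu⟩ : Subgroup.zpowers g) ^ 2 = 1 := Subtype.ext (by
    rw [SubgroupClass.coe_pow, sq]
    exact congrArg (fun w : ↥(P : Subgroup (alternatingGroup (Fin n))) =>
      ((w : alternatingGroup (Fin n)) : Perm (Fin n))) hu2)
  have hv' : (⟨_, key v hv⟩ : Subgroup.zpowers g) ^ 2 = 1 := Subtype.ext (by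
    rw [SubgroupClass.coe_pow, sq]
    exact congrArg (fun w : ↥(P : Subgroup (alternatingGroup (Fin n))) =>
      ((w : alternatingGroup (Fin n)) : Perm (Fin n))) hv2)
  apply Subtype.ext
  apply Subtype.ext
  by_contra hne
  haveI : DecidableEq (Subgroup.zpowers g) := Classical.decEq _
  haveI : Fintype (Subgroup.zpowers g) := Fintype.ofFinite _
  have hle := IsCyclic.card_pow_eq_one_le (α := Subgroup.zpowers g) (n := 2) two_pos
  have h3 : ({1, ⟨_, key u hu⟩, ⟨_, key v hv⟩} : Finset (Subgroup.zpowers g)).card = 3 :=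
    Finset.card_eq_three.2 ⟨_, _, _,
      fun e => hu1 (Subtype.ext (Subtype.ext (congrArg Subtype.val e).symm)),
      fun e => hv1 (Subtype.ext (Subtype.ext (congrArg Subtype.val e).symm)),
      fun e => hne (congrArg Subtype.val e :), rfl⟩
  have hsub := Finset.card_le_card (s := ({1, ⟨_, key u hu⟩, ⟨_, key v hv⟩} : Finset (Subgroup.zpowers g)))
    (t := Finset.univ.filter fun a => a ^ 2 = 1) (by
      intro a ha
      simp only [Finset.mem_insert, Finset.mem_singleton] at ha
      rcases ha with rfl | rfl | rfl <;> simp [hu', hv'])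
  omega

/-- `Sym m` embeds in `Alt (m + 2)`. -/
theorem exists_symEmbed (m n : ℕ) (h : m + 2 = n) :
    ∃ f : Perm (Fin m) →* alternatingGroup (Fin n), Function.Injective f := by
  let ψ : ℤˣ →* Perm (Fin 2) :=
    { toFun := fun u => if u = 1 then 1 else swap 0 1
      map_one' := if_pos rfl
      map_mul' := fun u v => by
        rcases Int.units_eq_one_or u with rfl | rfl <;> rcases Int.units_eq_one_or v with rfl | rfl <;>
          simp }
  let e : Fin m ⊕ Fin 2 ≃ Fin n := finSumFinEquiv.trans (finCongr h)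
  let f₀ : Perm (Fin m) →* Perm (Fin n) :=
    e.permCongrHom.toMonoidHom.comp ((Perm.sumCongrHom (Fin m) (Fin 2)).comp
      ((MonoidHom.id _).prod (ψ.comp Perm.sign)))
  have hs : ∀ x, f₀ x ∈ alternatingGroup (Fin n) := by
    intro x
    rw [Perm.mem_alternatingGroup]
    show Perm.sign (e.permCongr (Perm.sumCongr x (ψ (Perm.sign x)))) = 1
    rw [Perm.sign_permCongr, Perm.sign_sumCongr]
    rcases Int.units_eq_one_or (Perm.sign x) with h | h <;> rw [h]
    · simp
    · show -1 * Perm.sign (if (-1 : ℤˣ) = 1 then (1 : Perm (Fin 2)) else swap 0 1) = 1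
      rw [if_neg (by decide), Perm.sign_swap (by decide)]
      rfl
  refine ⟨f₀.codRestrict _ hs, fun x y hxy => ?_⟩
  exact (Prod.ext_iff.1 (Perm.sumCongrHom_injective (e.permCongrHom.injective
    (congrArg Subtype.val hxy)))).1

/-- `Alt m` embeds in `Alt (m + 1)`. -/
theorem exists_altEmbed (m n : ℕ) (h : m + 1 = n) :
    ∃ f : alternatingGroup (Fin m) →* alternatingGroup (Fin n), Function.Injective f := by
  let e : Fin m ⊕ Fin 1 ≃ Fin n := finSumFinEquiv.trans (finCongr h)
  let f₀ : alternatingGroup (Fin m) →* Perm (Fin n) :=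
    e.permCongrHom.toMonoidHom.comp ((Perm.sumCongrHom (Fin m) (Fin 1)).comp
      ((alternatingGroup (Fin m)).subtype.prod 1))
  have hs : ∀ x, f₀ x ∈ alternatingGroup (Fin n) := by
    intro x
    rw [Perm.mem_alternatingGroup]
    show Perm.sign (e.permCongr (Perm.sumCongr (x : Perm (Fin m)) 1)) = 1
    rw [Perm.sign_permCongr, Perm.sign_sumCongr, map_one, mul_one]
    exact x.2
  refine ⟨f₀.codRestrict _ hs, fun x y hxy => Subtype.ext ?_⟩
  exact (Prod.ext_iff.1 (Perm.sumCongrHom_injective (e.permCongrHom.injective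
    (congrArg Subtype.val hxy)))).1

theorem decomposable_four (P : Sylow 2 (alternatingGroup (Fin 4))) :
    Decomposable ↥(P : Subgroup (alternatingGroup (Fin 4))) := by
  haveI : Fact (Nat.Prime 2) := ⟨Nat.prime_two⟩
  have hc : Nat.card P = 4 := by
    have h := two_mul_altSylow_card (by norm_num) P
    rw [e2_small.2.2.1] at h
    omega
  have hexp : ∀ x : alternatingGroup (Fin 4), x * x * (x * x) = 1 → x * x = 1 := by decide
  have hsq : ∀ x : ↥(P : Subgroup (alternatingGroup (Fin 4))), x * x = 1 := by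
    intro x
    refine Subtype.ext (hexp x ?_)
    have h := pow_card_eq_one' (x := x)
    rw [hc] at h
    have h' := congrArg Subtype.val h
    calc (x : alternatingGroup (Fin 4)) * x * (x * x) = ((x ^ 4 : ↥(P : Subgroup (alternatingGroup (Fin 4)))) : alternatingGroup (Fin 4)) := by
          rw [SubgroupClass.coe_pow]; simp [pow_succ, mul_assoc]
      _ = 1 := h'
  have hcomm : ∀ a b : ↥(P : Subgroup (alternatingGroup (Fin 4))), a * b = b * a := by
    intro a b
    have ha := inv_eq_of_mul_eq_one_right (hsq a)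
    have hb := inv_eq_of_mul_eq_one_right (hsq b)
    have hab := inv_eq_of_mul_eq_one_right (hsq (a * b))
    rw [mul_inv_rev, ha, hb] at hab
    exact hab.symm
  haveI : Nontrivial ↥(P : Subgroup (alternatingGroup (Fin 4))) := by
    rw [← Finite.one_lt_card_iff_nontrivial, hc]; norm_num
  obtain ⟨a, ha⟩ := exists_ne (1 : ↥(P : Subgroup (alternatingGroup (Fin 4))))
  have hcA : Nat.card (Subgroup.zpowers a) = 2 := by
    rw [Nat.card_zpowers]; exact orderOf_eq_prime (by rw [sq]; exact hsq a) ha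
  obtain ⟨b, -, hb⟩ := SetLike.exists_of_lt (show Subgroup.zpowers a < ⊤ from lt_top_iff_ne_top.2
    fun h => by rw [h, Subgroup.card_top, hc] at hcA; omega)
  have hb1 : b ≠ 1 := fun h => hb (h ▸ one_mem _)
  have hcB : Nat.card (Subgroup.zpowers b) = 2 := by
    rw [Nat.card_zpowers]; exact orderOf_eq_prime (by rw [sq]; exact hsq b) hb1
  refine ⟨Subgroup.zpowers a, Subgroup.zpowers b, fun h => ha (Subgroup.zpowers_eq_bot.1 h),
    fun h => hb1 (Subgroup.zpowers_eq_bot.1 h), fun u _ v _ => hcomm u v, ?_, ?_⟩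
  · rw [eq_bot_iff]
    intro x hx
    by_contra hne
    apply hb
    have hx2 : orderOf x = 2 := orderOf_eq_prime (by rw [sq]; exact hsq x) hne
    have h1 : Subgroup.zpowers x = Subgroup.zpowers b := Subgroup.eq_of_le_of_card_ge
      (Subgroup.zpowers_le.2 hx.2) (by rw [Nat.card_zpowers x, hx2, hcB])
    exact (Subgroup.zpowers_le.2 hx.1) (h1 ▸ Subgroup.mem_zpowers b)
  · refine Subgroup.eq_top_of_le_card _ ?_
    rw [hc]
    have hlt : Subgroup.zpowers a < Subgroup.zpowers a ⊔ Subgroup.zpowers b :=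
      lt_of_le_of_ne le_sup_left fun h =>
        hb (h ▸ Subgroup.mem_sup_right (Subgroup.mem_zpowers b))
    have h1 := Subgroup.card_dvd_of_le hlt.le
    rw [hcA] at h1
    have h2 : Nat.card (Subgroup.zpowers a ⊔ Subgroup.zpowers b : Subgroup _) ∣ 4 := by
      have := Subgroup.card_subgroup_dvd_card (Subgroup.zpowers a ⊔ Subgroup.zpowers b)
      rwa [hc] at this
    have h3 : 2 < Nat.card (Subgroup.zpowers a ⊔ Subgroup.zpowers b : Subgroup _) := by
      by_contra hle
      exact hlt.ne (Subgroup.eq_of_le_of_card_ge hlt.le (by omega))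
    have := Nat.le_of_dvd (by norm_num) h2
    rcases h1 with ⟨d, hd⟩
    omega

/-- The even degrees. -/
theorem alt_decomposable_iff_even {n : ℕ} (hn : 4 ≤ n) (he : n % 2 = 0)
    (P : Sylow 2 (alternatingGroup (Fin n))) :
    Decomposable ↥(P : Subgroup (alternatingGroup (Fin n))) ↔
      (n = 4 ∨ (n % 4 = 2 ∧ ∀ r : ℕ, 4 * (n / 4) ≠ 2 ^ r)) := by
  rcases (show n % 4 = 0 ∨ n % 4 = 2 by omega) with h4 | h4
  · by_cases hn4 : n = 4
    · subst hn4
      simp [decomposable_four P]
    rw [iff_false_right (by omega)]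
    by_cases hpow : ∃ k, n = 2 ^ k
    · obtain ⟨k, hk⟩ := hpow
      exact not_decomposable_two_pow hk (by omega) P
    · simp only [not_exists] at hpow
      exact not_decomposable_blocks h4 hpow hn P
  · obtain ⟨T⟩ : Nonempty (Sylow 2 (Perm (Fin (n - 2)))) := inferInstance
    obtain ⟨f, hf⟩ := exists_symEmbed (n - 2) n (by omega)
    have hcard : Nat.card T = Nat.card P := by
      have h1 := two_mul_altSylow_card (by omega) P
      have h2 := e2_four n
      have h3 := e2_four (n - 2)
      rw [show (n - 2) / 4 = n / 4 by omega, show (n - 2) % 4 = 0 by omega] at h3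
      rw [h4] at h2
      rw [sylowTwo_card, Fintype.card_fin]
      rw [show e2 n = e2 (n - 2) + 1 by omega, pow_succ] at h1
      omega
    obtain ⟨e⟩ := sylow_equiv_of_embedding (f.comp (T : Subgroup (Perm (Fin (n - 2)))).subtype)
      (hf.comp Subtype.val_injective) T.isPGroup' P hcard
    rw [← decomposable_congr e, sym_decomposable_iff (by omega) (by omega) T,
      show 4 * (n / 4) = n - 2 by omega]
    constructor
    · intro h; exact Or.inr ⟨h4, h⟩
    · rintro (h | ⟨-, h⟩)
      · omega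
      · exact h

/-- Decomposability of the Sylow 2-subgroups of alternating groups. -/
theorem alt_decomposable_iff {n : ℕ} (hn : 4 ≤ n) (P : Sylow 2 (alternatingGroup (Fin n))) :
    Decomposable ↥(P : Subgroup (alternatingGroup (Fin n))) ↔
      (n = 4 ∨ n = 5 ∨ ((n % 4 = 2 ∨ n % 4 = 3) ∧ ∀ r : ℕ, 4 * (n / 4) ≠ 2 ^ r)) := by
  rcases Nat.mod_two_eq_zero_or_one n with he | ho
  · rw [alt_decomposable_iff_even hn he P]
    constructor
    · rintro (h | ⟨h, h'⟩)
      · exact Or.inl h
      · exact Or.inr (Or.inr ⟨Or.inl h, h'⟩)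
    · rintro (h | h | ⟨h, h'⟩)
      · exact Or.inl h
      · omega
      · exact Or.inr ⟨by omega, h'⟩
  · obtain ⟨Q⟩ : Nonempty (Sylow 2 (alternatingGroup (Fin (n - 1)))) := inferInstance
    obtain ⟨f, hf⟩ := exists_altEmbed (n - 1) n (by omega)
    have hcard : Nat.card Q = Nat.card P := by
      have h1 := two_mul_altSylow_card (by omega) P
      have h2 := two_mul_altSylow_card (by omega : 2 ≤ n - 1) Q
      have h3 : e2 n = e2 (n - 1) := by
        obtain ⟨m, rfl⟩ : ∃ m, n = 2 * m + 1 := ⟨n / 2, by omega⟩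
        rw [Nat.add_sub_cancel]; exact e2_double_succ m
      rw [h3] at h1
      omega
    obtain ⟨e⟩ := sylow_equiv_of_embedding (f.comp (Q : Subgroup (alternatingGroup (Fin (n - 1)))).subtype)
      (hf.comp Subtype.val_injective) Q.isPGroup' P hcard
    rw [← decomposable_congr e, alt_decomposable_iff_even (by omega) (by omega) Q,
      show (n - 1) / 4 = n / 4 by omega]
    constructor
    · rintro (h | ⟨h, h'⟩)
      · exact Or.inr (Or.inl (by omega))
      · exact Or.inr (Or.inr ⟨Or.inr (by omega), h'⟩)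
    · rintro (h | h | ⟨h, h'⟩)
      · omega
      · exact Or.inl (by omega)
      · exact Or.inr ⟨by omega, h'⟩

end CfsgLib.OutAut
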